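/-
Hall `{p, q}`-subgroups of `p`-solvable groups, and the Thompson factorization of `{p, q}`-groups.
-/
import Cfsg.Agent.Grp.Hall
import Cfsg.Agent.Loc.FFMain

set_option autoImplicit false

open Cfsg Subgroup CL.Grp
open scoped Pointwise

universe u

namespace CL.Loc

theorem exists_piHall_pair_aux (p q : ℕ) [Fact p.Prime] [hq : Fact q.Prime] (n : ℕ) :
    ∀ (G : Type u) [Group G] [Finite G], Nat.card G = n → IsPSolvable p G →
      ∃ L : Subgroup G, IsPiHall {p, q} L := by
  induction n using Nat.strong_induction_on with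
  | _ n ih =>
  intro G _ _ hn h
  rcases subsingleton_or_nontrivial G with hG | hG
  · exact (hallD_of_subsingleton {p, q}).exists_hall
  have quot : ∀ (N : Subgroup G) [N.Normal], N ≠ ⊥ → ∃ L : Subgroup (G ⧸ N), IsPiHall {p, q} L := by
    intro N _ hN
    refine ih _ ?_ _ rfl (isPSolvable_quotient h N)
    rw [← hn, ← N.card_mul_index, ← index_eq_card]
    exact lt_mul_of_one_lt_left (Nat.pos_of_ne_zero N.index_ne_zero_of_finite)
      (N.one_lt_card_iff_ne_bot.2 hN)
  have up : ∀ (N : Subgroup G) [N.Normal], N ≠ ⊥ → IsPiSubgroup {p, q} N →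
      ∃ L : Subgroup G, IsPiHall {p, q} L := by
    intro N _ hN hπ
    obtain ⟨H, hH⟩ := quot N hN
    refine ⟨H.comap (QuotientGroup.mk' N), fun r hr hd => ?_, fun r hr hπ hd => ?_⟩
    · rw [hall_card_comap_mk'] at hd
      exact ((Nat.Prime.dvd_mul hr).1 hd).elim (hπ r hr) (hH.1 r hr)
    · rw [index_comap_of_surjective _ (QuotientGroup.mk'_surjective N)] at hd
      exact hH.2 r hr hπ hd
  have pg : ∀ (r : ℕ) [Fact r.Prime] (N : Subgroup G), r ∈ ({p, q} : Set ℕ) → IsPGroup r N →
      IsPiSubgroup {p, q} N := by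
    intro r hr N hr' hN s hs hd
    obtain ⟨k, hk⟩ := IsPGroup.iff_card.1 hN
    rw [hk] at hd
    rwa [(Nat.prime_dvd_prime_iff_eq hs hr.out).1 (hs.dvd_of_dvd_pow hd)]
  rcases pCore_ne_bot_or_pPrimeCore_ne_bot h with hO | hO
  · exact up _ hO (pg p _ (by simp) (pCore_isPGroup p G))
  set N := pPrimeCore p G with hN
  have hNp : ¬ p ∣ Nat.card N := not_dvd_card_pPrimeCore p G
  obtain ⟨Q, hQ⟩ := exists_isSylowIn q N
  by_cases hQ0 : Q = ⊥
  · have hNq : ¬ q ∣ Nat.card N := by
      have := hQ.not_dvd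
      rwa [hQ0, relIndex_bot_left] at this
    have hNπ : ∀ r : ℕ, r ∣ Nat.card N → r ∉ ({p, q} : Set ℕ) := by
      rintro r hr (rfl | rfl)
      exacts [hNp hr, hNq hr]
    obtain ⟨H, hH⟩ := quot N hO
    have hle : N ≤ H.comap (QuotientGroup.mk' N) := fun x hx => by
      simp [(QuotientGroup.eq_one_iff x).2 hx]
    have hrel : N.relIndex (H.comap (QuotientGroup.mk' N)) = Nat.card H := by
      have h1 := hall_card_mul_relIndex hle
      rw [hall_card_comap_mk'] at h1
      exact Nat.eq_of_mul_eq_mul_left Nat.card_pos h1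
    obtain ⟨L, -, hL2, -⟩ := hall_exists_compl_in hle (by
      rw [hrel]
      exact Nat.coprime_of_dvd fun r hr h1 h2 => hNπ r h1 (hH.1 r hr h2))
    rw [hrel] at hL2
    refine ⟨L, fun r hr hd => hH.1 r hr (hL2 ▸ hd), fun r hr hπ hd => ?_⟩
    have h1 := L.card_mul_index
    rw [← (H.comap (QuotientGroup.mk' N)).card_mul_index, hall_card_comap_mk', hL2,
      index_comap_of_surjective _ (QuotientGroup.mk'_surjective N), mul_comm (Nat.card N),
      mul_assoc] at h1
    rw [Nat.eq_of_mul_eq_mul_left Nat.card_pos h1] at hd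
    exact ((Nat.Prime.dvd_mul hr).1 hd).elim (fun h2 => hNπ r h2 hπ) (hH.2 r hr hπ)
  set X := normalizer (Q : Set G) with hX
  by_cases hXt : X = ⊤
  · haveI : Q.Normal := normalizer_eq_top_iff.1 hXt
    exact up Q hQ0 (pg q _ (by simp) hQ.isPGroup)
  obtain ⟨L, hL⟩ := ih _ (by
    rw [← hn, ← card_top (G := G)]
    exact card_lt_card_of_lt (lt_top_iff_ne_top.2 hXt)) X rfl (isPSolvable_subgroup h X)
  have hsup : N ⊔ X = ⊤ := by
    rw [eq_top_iff]
    intro g _
    obtain ⟨m, hm, hg⟩ := hQ.frattini (H := ⊤) (by rw [normalizer_eq_top]) (mem_top g)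
    rw [← inv_mul_cancel_left m g]
    exact mul_mem (mem_sup_left (inv_mem hm)) (mem_sup_right hg)
  have hidx : X.index = X.relIndex N := by
    have h1 := hall_card_sup_mul_card_inf X N
    have h2 := card_inf_mul_relIndex X N
    rw [sup_comm, hsup, card_top, ← X.card_mul_index, ← h2, mul_assoc, mul_comm X.index] at h1
    exact Nat.eq_of_mul_eq_mul_left Nat.card_pos (Nat.eq_of_mul_eq_mul_left Nat.card_pos h1)
  refine ⟨L.map X.subtype, fun r hr hd => hL.1 r hr (by rwa [card_map_subtype] at hd),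
    fun r hr hπ hd => ?_⟩
  rw [index_map_subtype] at hd
  rcases (Nat.Prime.dvd_mul hr).1 hd with h2 | h2
  · exact hL.2 r hr hπ h2
  rw [hidx] at h2
  rcases hπ with rfl | rfl
  · exact hNp (h2.trans (relIndex_dvd_card _ _))
  · exact hQ.not_dvd (h2.trans (relIndex_dvd_of_le_left N le_normalizer))

/-- A `p`-solvable group has a Hall `{p, q}`-subgroup containing a given Sylow `p`-subgroup. -/
theorem exists_piHall_pair {G : Type*} [Group G] [Finite G] {p : ℕ} [hp : Fact p.Prime] (q : ℕ)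
    [Fact q.Prime] (h : IsPSolvable p G) (S : Sylow p G) :
    ∃ L : Subgroup G, IsPiHall {p, q} L ∧ (S : Subgroup G) ≤ L := by
  obtain ⟨L, hL⟩ := exists_piHall_pair_aux p q _ G rfl h
  obtain ⟨T, hT⟩ := exists_isSylowIn p L
  have h1 : IsSylowIn p T ⊤ := ⟨le_top, hT.isPGroup, fun hd => by
    rw [relIndex_top_right, ← relIndex_mul_index hT.le] at hd
    exact ((Nat.Prime.dvd_mul hp.out).1 hd).elim hT.not_dvd (hL.2 p hp.out (by simp))⟩
  obtain ⟨g, -, hg⟩ := h1.exists_conj_eq (isSylowIn_top S)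
  refine ⟨MulAut.conj g • L, isPiHall_conj hL g, ?_⟩
  rw [← hg]
  exact pointwise_smul_le_pointwise_smul_iff.2 hT.le

/-- A `p`-solvable group whose order is not divisible by six is Thompson factorizable. -/
theorem isThompsonFactorizable_of_not_six_dvd {G : Type*} [Group G] [Finite G] {p : ℕ}
    [Fact p.Prime] (h : IsPSolvable p G) (h6 : ¬ 6 ∣ Nat.card G) : IsThompsonFactorizable p G := by
  rw [isThompsonFactorizable_iff_of_coprime_ker (QuotientGroup.mk'_surjective (pPrimeCore p G))
    (by rw [QuotientGroup.ker_mk']; exact pPrimeCore_coprime p G)]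
  have hs := isPSolvable_quotient h (pPrimeCore p G)
  have hO := pPrimeCore_quotient_pPrimeCore p G
  by_contra hnf
  have := sylV_normal (p := p) (G := G ⧸ pPrimeCore p G)
  obtain ⟨hp, E, W, -, -, -, -, h5, -⟩ := exists_natural_of_not_thompson_le
    (ea_sylV (centralizer_pCore_le_of_isPSolvable hs hO)) hs pCore_quotient_centralizer_sylV
    (fun h => hnf ((isThompsonFactorizable_iff hO).2 h))
  obtain ⟨hn, ⟨e⟩⟩ := nonempty_quotient_equiv_of_naturalSL2Module h5
  have h1 : Nat.card (Matrix.SpecialLinearGroup (Fin 2) (ZMod p)) ∣ Nat.card G := by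
    rw [← Nat.card_congr e.toEquiv]
    exact ((card_quotient_dvd_card _).trans E.card_subgroup_dvd_card).trans (card_quotient_dvd_card _)
  refine h6 (Dvd.dvd.trans ?_ h1)
  rcases hp with rfl | rfl
  · rw [Nat.card_eq_fintype_card]; decide
  · rw [Nat.card_eq_fintype_card]; decide +kernel

end CL.Loc
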