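/-
Isolated `p`-minimal subgroups (helper28).
-/
import Cfsg.Agent.Even.PMin
import Cfsg.Agent.Loc.FStar
import Cfsg.Agent.Odd.BG4d
import Cfsg.Agent.Grp.PGroupFrattini
import Cfsg.Agent.Grp.Frattini

set_option autoImplicit false
set_option linter.unusedSectionVars false
open Cfsg CL.Grp CL.Even

namespace CL.Loc

variable {G : Type*} [Group G] [Finite G] {p : ℕ} [hp : Fact p.Prime]

/-- An overgroup of the Sylow subgroup `S` is generated by its `p`-minimal subgroups over `S` and `N(S)`. -/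
theorem le_of_forall_isPMinimal {S L : Subgroup G} (hS : IsSylowIn p S ⊤) (hN : 𝒩(S) ≤ L) (X : Subgroup G)
    (hX : S ≤ X) (h : ∀ P, S ≤ P → P ≤ X → IsPMinimal p P → P ≤ L) : X ≤ L := by
  induction X using WellFoundedLT.induction with
  | ind X ih =>
  by_cases h1 : X ≤ 𝒩(S)
  · exact h1.trans hN
  by_cases h2 : sSup {Z | S ≤ Z ∧ Z < X} = X
  · exact h2.ge.trans (sSup_le fun Z hZ => ih Z hZ.2 hZ.1 fun P h3 h4 => h P h3 (h4.trans hZ.2.le))
  refine h X hX le_rfl ((isPMinimal_iff (hS.of_le hX le_top)).mpr ⟨h1, sSup {Z | S ≤ Z ∧ Z < X},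
    le_sSup ⟨le_rfl, lt_of_le_of_ne hX ?_⟩,
    lt_of_le_of_ne (sSup_le fun Z hZ => hZ.2.le) h2, fun Z h3 h4 => le_sSup ⟨h3, h4⟩⟩)
  rintro rfl
  exact h1 Subgroup.le_normalizer

/-- `P` is isolated over the Sylow subgroup `S`: every overgroup of `S` contains `P` or lies in `L`, and `L`
normalizes a subgroup `Q` of `S` acting nontrivially on `O^p(P)`. -/
structure Isol (p : ℕ) (S P L Q : Subgroup G) : Prop where
  syl : IsSylowIn p S ⊤
  SP : S ≤ P
  SL : S ≤ L
  QS : Q ≤ S
  norm : L ≤ 𝒩(Q)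
  comm : ⁅pResidualOf p P, Q⁆ = pResidualOf p P
  not_le : ¬ P ≤ L
  sup : L ⊔ P = ⊤
  alt : ∀ X, S ≤ X → X ≤ L ∨ P ≤ X

theorem isol_of_isPMinimal (S : Sylow p G) {P L : Subgroup G} (hSP : (S : Subgroup G) ≤ P) (hP : IsPMinimal p P)
    (hL : L = 𝒩((S : Subgroup G)) ⊔ ⨆ P' : {P' : Subgroup G // (S : Subgroup G) ≤ P' ∧ IsPMinimal p P' ∧ P' ≠ P},
      (P' : Subgroup G)) (h : ¬ pCoreOf p L ≤ pCoreOf p P) : Isol p S P L (pCoreOf p L) := by
  have h1 : 𝒩((S : Subgroup G)) ≤ L := hL ▸ le_sup_left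
  have h2 : ∀ P', (S : Subgroup G) ≤ P' → IsPMinimal p P' → P' ≠ P → P' ≤ L := fun P' a b c =>
    hL ▸ le_sup_of_le_right (le_iSup (fun P' : {P' : Subgroup G // (S : Subgroup G) ≤ P' ∧ IsPMinimal p P' ∧
      P' ≠ P} => (P' : Subgroup G)) ⟨P', a, b, c⟩)
  have SL := Subgroup.le_normalizer.trans h1
  have QS := core_le_syl (isSylowIn_of_le S SL)
  obtain ⟨h3, M, hM⟩ := (isPMinimal_iff (isSylowIn_of_le S hSP)).mp hP
  refine ⟨isSylowIn_top S, hSP, SL, QS, self_le_norm_core L, (hM.pIrr (isSylowIn_of_le S hSP) h3).commutator_res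
    (isSylowIn_of_le S hSP) QS (SL.trans (self_le_norm_core L)) h, fun e => h (core_le_core_of_le (QS.trans hSP) e),
    eq_top_iff.mpr (le_of_forall_isPMinimal (isSylowIn_top S) (le_sup_of_le_left h1) _ le_top fun P' a _ b => ?_),
    fun X hX => or_iff_not_imp_right.mpr fun hn => le_of_forall_isPMinimal (isSylowIn_top S) h1 X hX
      fun P' a c b => h2 P' a b fun e => hn (e ▸ c)⟩
  by_cases e : P' = P
  · exact e ▸ le_sup_right
  · exact le_sup_of_le_left (h2 P' a b e)

namespace Isol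

variable {S P L Q : Subgroup G} (h : Isol p S P L Q)
include h

theorem alt' {X : Subgroup G} (hX : S ≤ 𝒩(X)) (hn : ¬ X ≤ L) : pResidualOf p P ≤ X :=
  (res_mono ((h.alt (S ⊔ X) le_sup_left).resolve_left fun e => hn (le_sup_right.trans e))).trans
    (res_sup_le_of_isPGroup h.syl.isPGroup hX)

theorem le_of {X : Subgroup G} (h1 : S ≤ X) (h2 : pResidualOf p P ≤ X) : P ≤ X :=
  le_of_syl_of_res (h.syl.of_le h.SP le_top) h1 h2

theorem res_not_le : ¬ pResidualOf p P ≤ L := fun e => h.not_le (h.le_of h.SL e)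

theorem sup_eq_top {X : Subgroup G} (hX : pResidualOf p P ≤ X) : X ⊔ L = ⊤ :=
  eq_top_iff.mpr (h.sup.ge.trans (sup_le le_sup_right (h.le_of (le_sup_of_le_right h.SL) (le_sup_of_le_left hX))))

theorem normal_of {N : Subgroup G} (h1 : L ≤ 𝒩(N)) (h2 : pResidualOf p P ≤ 𝒩(N)) : N.Normal :=
  normal_iff_top_le.mpr ((h.sup_eq_top le_rfl).ge.trans (sup_le h2 h1))

theorem le_norm_res : S ≤ 𝒩(pResidualOf p P) := h.SP.trans (self_le_norm_res P)

theorem map {G' : Type*} [Group G'] [Finite G'] {f : G →* G'} (hf : Function.Surjective f) (hk : f.ker ≤ S) :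
    Isol p (S.map f) (P.map f) (L.map f) (Q.map f) where
  syl := by simpa [← MonoidHom.range_eq_map, f.range_eq_top_of_surjective hf] using syl_map f h.syl
  SP := Subgroup.map_mono h.SP
  SL := Subgroup.map_mono h.SL
  QS := Subgroup.map_mono h.QS
  norm := map_le_norm_map f h.norm
  comm := by rw [← map_res, ← Subgroup.map_commutator, h.comm]
  not_le e := h.not_le ((Subgroup.map_le_iff_le_comap.mp e).trans (Subgroup.comap_map_eq_self (hk.trans h.SL)).le)
  sup := by rw [← Subgroup.map_sup, h.sup, ← MonoidHom.range_eq_map, f.range_eq_top_of_surjective hf]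
  alt X hX := (h.alt (X.comap f) (Subgroup.map_le_iff_le_comap.mp hX)).imp
    (fun e => (Subgroup.map_comap_eq_self_of_surjective hf X).ge.trans (Subgroup.map_mono e))
    Subgroup.map_le_iff_le_comap.mpr

theorem le_cent {X : Subgroup G} {t : ℕ} [Fact t.Prime] (ht : t ≠ p) (hX : IsPGroup t X) (h1 : S ≤ 𝒩(X))
    (h2 : X ≤ L) : X ≤ 𝒞(Q) := Subgroup.le_centralizer_iff.mp (commutator_eq_bot_iff'.mp (le_bot_iff.mp
  ((IsPGroup.disjoint_of_ne t p ht X Q hX (h.syl.isPGroup.to_le h.QS)).le_bot.trans'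
    (le_inf (commutator_le_of_le_norm (h.QS.trans h1)) (commutator_le_of_le_norm' (h2.trans h.norm))))))

theorem res_ne_bot : pResidualOf p P ≠ ⊥ := fun e => h.res_not_le (e.le.trans bot_le)

/-- The soluble case. -/
theorem normal_of_le_pCore {t : ℕ} [Fact t.Prime] (ht : t ≠ p) (hK : pResidualOf p P ≤ pCore t G) :
    (pResidualOf p P).Normal ∧ ⁅⁅pResidualOf p P, pResidualOf p P⁆, pResidualOf p P⁆ = ⊥ := by
  set K := pResidualOf p P
  have hKt : IsPGroup t K := pCore_isP.to_le hK
  constructor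
  · set Y := Subgroup.normalClosure (K : Set G)
    have hKY : K ≤ Y := Subgroup.le_normalClosure
    have hY : IsPGroup t Y := pCore_isP.to_le (Subgroup.normalClosure_le_normal hK)
    have h1 : Y ≤ ⁅Y, Q⁆ := by
      have := h.normal_of (le_norm_commutator Subgroup.le_normalizer_of_normal h.norm)
        (hKY.trans (Subgroup.normalizer_commutator_ge_left Y Q))
      exact Subgroup.normalClosure_le_normal (h.comm.ge.trans (Subgroup.commutator_mono hKY le_rfl))
    set N := (frattini Y).map Y.subtype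
    have hN := (map_subtype_frattini_le_iff hY (N := N)).mp le_rfl
    let f := QuotientGroup.mk' N
    have hf : f.ker = N := QuotientGroup.ker_mk' N
    obtain ⟨W, w1, w2, w3, w4⟩ := CL.Odd.ea_exists_invariant_complement (p := t) (U := K.map f) (V := Y.map f)
      (A := S.map f) (elem_iff.mpr ⟨by
        rw [← commutator_eq_bot_iff', ← Subgroup.map_commutator, Subgroup.map_eq_bot_iff, hf]; exact hN.1, by
        rintro _ ⟨y, hy, rfl⟩
        rw [← map_pow]; exact (QuotientGroup.eq_one_iff _).mpr (hN.2 y hy)⟩) (Subgroup.map_mono hKY)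
      (map_le_norm_map f Subgroup.le_normalizer_of_normal) (map_le_norm_map f h.le_norm_res) (by
        obtain ⟨k, hk⟩ := IsPGroup.iff_card.mp (h.syl.isPGroup.map f)
        rw [hk]
        exact ((Nat.coprime_primes hp.out Fact.out).mpr ht.symm).pow_left k)
    have hNY : N ≤ Y := Subgroup.map_subtype_le _
    have hX : W.comap f ≤ Y := (Subgroup.comap_mono w1).trans (Subgroup.comap_map_eq_self (hf.le.trans hNY)).le
    have hSX : S ≤ 𝒩(W.comap f) := (Subgroup.map_le_iff_le_comap.mp w2).trans (Subgroup.le_normalizer_comap f)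
    by_cases hL : W.comap f ≤ L
    · have h2 := h.le_cent ht (hY.to_le hX) hSX hL
      have h3 : Y ≤ K := h1.trans ((commutator_le_commutator_of_mul_centralizer fun y hy => ?_).trans h.comm.le)
      · exact le_antisymm h3 hKY ▸ inferInstance
      · have : IsMulCommutative (Y.map f) := Subgroup.le_centralizer_iff_isMulCommutative.mp (by
          rw [← commutator_eq_bot_iff', ← Subgroup.map_commutator, Subgroup.map_eq_bot_iff, hf]; exact hN.1)
        obtain ⟨_, ⟨k, hk, rfl⟩, w, hw, e⟩ := (mem_sup_nr (H := K.map f) (N := W) ((Subgroup.map_mono hKY).trans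
          ((Subgroup.le_centralizer_iff_isMulCommutative.mpr this).trans ((cent_mono w1).trans
            (cent_le_norm W))))).mp (w4.ge (Subgroup.mem_map_of_mem f hy))
        exact ⟨k, hk, k⁻¹ * y, h2 (by simpa [Subgroup.mem_comap, ← e] using hw), by group⟩
    · have h2 : K ≤ N := hf ▸ (Subgroup.map_eq_bot_iff K).mp (le_bot_iff.mp (w3.le.trans'
        (le_inf le_rfl (Subgroup.map_le_iff_le_comap.mpr (h.alt' hSX hL)))))
      exact absurd (le_bot_iff.mp (hKY.trans (le_of_le_sup_map_frattini le_rfl bot_le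
        (le_sup_of_le_left (Subgroup.normalClosure_le_normal h2))))) h.res_ne_bot
  · have n1 := le_norm_commutator h.le_norm_res h.le_norm_res
    have h1 : ⁅K, K⁆ ≤ K := commutator_le_of_le_norm Subgroup.le_normalizer
    have h2 : ⁅K, K⁆ ≤ L := by
      by_contra hc
      exact h.res_ne_bot (eq_bot_of_le_commutator hKt.isNilpotent le_rfl (h.alt' n1 hc))
    refine commutator_eq_bot_iff'.mpr (h.comm.ge.trans ((Subgroup.commutator_mono le_rfl
      (Subgroup.le_centralizer_iff.mp (h.le_cent ht (hKt.to_le h1) n1 h2))).trans (commutator_le_of_le_norm'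
        (le_norm_cent (le_norm_commutator Subgroup.le_normalizer Subgroup.le_normalizer)))))

/-- The insoluble case. -/
theorem exists_component (hO : pCore p G = ⊥) (hF : fittingSubgroup G ≤ L) : ∃ K, IsComponent K ∧
    Subgroup.normalClosure (pResidualOf p P : Set G) = ncl S K ∧ p ∣ Nat.card (ncl S K) := by
  have sub : ∀ X : Subgroup G, X.Normal → (⁅X, Q⁆ : Subgroup G).IsSubnormal := fun X hX =>
    (SubnIn.of_le_normalizer (commutator_le_of_le_norm Subgroup.le_normalizer_of_normal)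
      (Subgroup.normalizer_commutator_ge_left X Q)).isSubnormal_of hX.isSubnormal
  have hQ := h.syl.isPGroup.to_le h.QS
  obtain ⟨K, hK, hKL⟩ : ∃ K, IsComponent K ∧ ¬ K ≤ L := by
    by_contra hc
    push Not at hc
    have h1 := le_pCore_of_isSubnormal (sub _ fstar_normal) (hQ.to_le (commutator_le_of_le_norm'
      ((sup_le (layer_le_iff.mpr hc) hF).trans h.norm)))
    have h2 := le_pCore_of_le_fittingSubgroup hQ ((commutator_eq_bot_iff'.mp (le_bot_iff.mp (h1.trans hO.le))).trans
      centralizer_fstar_le_fitting)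
    exact h.res_ne_bot (by rw [← h.comm, le_bot_iff.mp (h2.trans hO.le), Subgroup.commutator_bot_right])
  have res : ∀ K : Subgroup G, ¬ K ≤ L → pResidualOf p P ≤ ncl S K := fun K hK =>
    h.alt' (le_norm_ncl S K) fun e => hK ((le_ncl S K).trans e)
  have hE : (ncl S K).IsSubnormal := (SubnIn.of_le_normalizer (ncl_le (IsComponent.le_layer hK)
    Subgroup.le_normalizer_of_normal) (le_norm_iSup fun g =>
      IsComponent.layer_le_normalizer (IsComponent.conj hK g))).isSubnormal_of layer_normal.isSubnormal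
  have nc : ¬ pResidualOf p P ≤ 𝒞(ncl S K) := fun e =>
    h.res_not_le (((le_inf (res K hKL) e).trans (inf_centralizer_le_fitting hE)).trans hF)
  have hn : (ncl S K).Normal := by
    refine h.normal_of (le_norm_of_cj_le fun l hl => cj_le_iff.mpr (ncl_le_iff.mpr fun s hs => ?_))
      ((res K hKL).trans Subgroup.le_normalizer)
    rw [← cj_le_iff, ← cj_mul]
    have h1 := IsComponent.conj hK (l * s)
    have h2 : ¬ cj (l * s) K ≤ L := fun e => hKL ((cj_le_iff.mp e).trans
      (cj_le_of_mem le_rfl (L.inv_mem (L.mul_mem hl (h.SL hs)))))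
    refine (IsComponent.le_or_commutator_eq_bot h1 hE).resolve_right fun e => nc ((res _ h2).trans (ncl_le
      (Subgroup.le_centralizer_iff.mp (commutator_eq_bot_iff'.mp e)) (le_norm_cent (le_norm_ncl S K))))
  refine ⟨K, hK, le_antisymm (Subgroup.normalClosure_le_normal (res K hKL)) (ncl_le
    ((IsComponent.le_or_commutator_eq_bot hK (Subgroup.Normal.isSubnormal inferInstance)).resolve_right fun e =>
      nc (Subgroup.le_normalClosure.trans (Subgroup.le_centralizer_iff.mp (ncl_le (Subgroup.le_centralizer_iff.mp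
        (commutator_eq_bot_iff'.mp e)) Subgroup.le_normalizer_of_normal)))) Subgroup.le_normalizer_of_normal), ?_⟩
  by_contra hd
  have hKE := res K hKL
  generalize ncl S K = E at hE nc hn hd hKE
  have syl : ∀ (r : ℕ) [Fact r.Prime], ∃ R, IsSylowIn r R E ∧ S ≤ 𝒩(R) := fun r _ => by
    obtain ⟨k, hk⟩ := IsPGroup.iff_card.mp h.syl.isPGroup
    exact exists_isSylowIn_le_normalizer r Subgroup.le_normalizer_of_normal
      (hk ▸ ((Nat.Prime.coprime_iff_not_dvd hp.out).mpr hd).pow_left k) (Or.inl (by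
        have := h.syl.isPGroup.isNilpotent; infer_instance))
  obtain ⟨r, hr, R, hR, hSR, hRL⟩ : ∃ (r : ℕ) (_ : Fact r.Prime) (R : Subgroup G), IsSylowIn r R E ∧ S ≤ 𝒩(R) ∧
      ¬ R ≤ L := by
    by_contra hc
    push Not at hc
    exact h.res_not_le (hKE.trans (le_of_forall_exists_isSylowIn_le fun r hr _ => by
      have := Fact.mk hr
      obtain ⟨R, h1, h2⟩ := syl r
      exact ⟨R, h1, hc r this R h1 h2⟩))
  have h1 : (𝒞(Q)).relIndex E = r ^ _ := Nat.eq_prime_pow_of_unique_prime_dvd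
    Subgroup.index_ne_zero_of_finite fun {q} hq hqd => by
    by_contra hne
    have := Fact.mk hq
    obtain ⟨R', h1, h2⟩ := syl q
    rw [← Subgroup.inf_relIndex_right] at hqd
    refine h1.not_dvd_relIndex_of_le (le_inf (h.le_cent ?_ h1.isPGroup h2 ?_) h1.le) inf_le_right hqd
    · rintro rfl
      exact hd (hqd.trans (Subgroup.relIndex_dvd_card _ _))
    · by_contra hc
      exact h.res_ne_bot (le_bot_iff.mp ((IsPGroup.disjoint_of_ne q r hne R' R h1.isPGroup hR.isPGroup).le_bot.trans'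
        (le_inf (h.alt' h2 hc) (h.alt' hSR hRL))))
  have h2 : ⁅E, Q⁆ ≤ R := (commutator_le_commutator_of_mul_centralizer fun e he => by
    obtain ⟨c, hc, x, hx, e1⟩ := hR.exists_mul_eq_of_relIndex_pow h1 (E.inv_mem he)
    exact ⟨x⁻¹, R.inv_mem hx, c⁻¹, Subgroup.inv_mem _ hc, by rw [← mul_inv_rev, ← e1, inv_inv]⟩).trans
      (commutator_le_of_le_norm (h.QS.trans hSR))
  exact h.res_not_le ((h.comm.ge.trans (Subgroup.commutator_mono hKE le_rfl)).trans
    ((le_fittingSubgroup_of_isSubnormal (sub E hn) (hR.isPGroup.to_le h2).isNilpotent).trans hF))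

/-- Structure of the normal closure of `O^p(P)` when `O_p(G) = 1`. -/
theorem cases (hO : pCore p G = ⊥) : (∃ t : ℕ, t.Prime ∧ t ≠ p ∧ pResidualOf p P ≤ pCore t G ∧
    (pResidualOf p P).Normal ∧ ⁅⁅pResidualOf p P, pResidualOf p P⁆, pResidualOf p P⁆ = ⊥) ∨
    ∃ K, IsComponent K ∧ Subgroup.normalClosure (pResidualOf p P : Set G) = ncl S K ∧ p ∣ Nat.card (ncl S K) := by
  by_cases hF : fittingSubgroup G ≤ L
  · exact Or.inr (h.exists_component hO hF)
  obtain ⟨t, ht, h1⟩ : ∃ (t : ℕ) (_ : Fact t.Prime), ¬ pCore t G ≤ L := by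
    by_contra hc
    push Not at hc
    exact hF (fittingSubgroup_le_of_forall_pCore_le hc)
  have h2 : t ≠ p := by
    rintro rfl
    exact h1 (hO.le.trans bot_le)
  have h3 := h.alt' Subgroup.le_normalizer_of_normal h1
  exact Or.inl ⟨t, ht.out, h2, h3, h.normal_of_le_pCore h2 h3⟩

/-- If the image of `O^p(P)` in `G / O_p(G)` is normal, so is `O^p(P)`. -/
theorem normal_of_map {G' : Type*} [Group G'] {f : G →* G'} (hk : f.ker ≤ S)
    (hn : ((pResidualOf p P).map f).Normal) : Subgroup.normalClosure (pResidualOf p P : Set G) = pResidualOf p P := by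
  have h1 : (f.ker ⊔ pResidualOf p P).Normal := by
    rw [sup_comm, ← Subgroup.comap_map_eq]; infer_instance
  have h2 : (pResidualOf p P).Normal := by
    rw [normal_iff_top_le] at h1 ⊢
    have := CL.Even.le_norm_res (p := p) h1
    rwa [res_sup_eq_of_isPGroup (h.syl.isPGroup.to_le hk) (hk.trans h.le_norm_res), res_res] at this
  exact Subgroup.normalClosure_eq_self _

end Isol

omit hp [Finite G] in
theorem exists_equiv_map_mk_pCore (Y : Subgroup G) [hY : Y.Normal] :
    ∃ e : Y ⧸ pCore p Y ≃* Y.map (QuotientGroup.mk' (pCore p G)), ∀ y : Y, (e y : G ⧸ pCore p G) = (y : G) := by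
  have hk : pCore p Y = ((QuotientGroup.mk' (pCore p G)).subgroupMap Y).ker := by
    rw [← subgroupOf_core, pCoreOf_eq_inf_of_isSubnormal hY.isSubnormal, Subgroup.inf_subgroupOf_right]
    ext y
    rw [MonoidHom.mem_ker, Subtype.ext_iff]
    exact (QuotientGroup.eq_one_iff (N := pCore p G) (y : G)).symm
  exact ⟨(QuotientGroup.quotientMulEquivOfEq hk).trans (QuotientGroup.quotientKerEquivOfSurjective _
    (MonoidHom.subgroupMap_surjective _ Y)), fun y => rfl⟩

end CL.Loc
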