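/-
Replacement for an abelian subgroup of largest order along one element, with the surjectivity supplement.
-/
import Cfsg.Agent.Loc.Chief
import Cfsg.Agent.Loc.Offender1
import Cfsg.Agent.Grp.ZJ

set_option autoImplicit false

open Cfsg Subgroup
open scoped commutatorElement

namespace CL.JTr

open CL.Loc

variable {G : Type*} [Group G]

theorem ma_ab {S A : Subgroup G} (hA : A ∈ meaIn 0 S) : A ≤ centralizer (A : Set G) := by
  have := CL.Grp.ea_zero_iff.1 hA.2.1
  intro x hx y hy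
  exact congrArg Subtype.val (mul_comm' (⟨y, hy⟩ : A) ⟨x, hx⟩)

theorem ea_of_ab {A : Subgroup G} (h : A ≤ centralizer (A : Set G)) : IsElementaryAbelian 0 A :=
  CL.Grp.ea_zero_iff.2 ⟨⟨fun x y => Subtype.ext (h y.2 x x.2)⟩⟩

theorem ma_self [Finite G] {S A : Subgroup G} (hA : A ∈ meaIn 0 S) {x : G} (hx : x ∈ S)
    (h : x ∈ centralizer (A : Set G)) : x ∈ A :=
  mem_of_mem_meaIn_of_centralizer hA hx (pow_zero x) h

theorem sup_ab {X Y : Subgroup G} (hX : X ≤ centralizer (X : Set G)) (hY : Y ≤ centralizer (Y : Set G))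
    (h : Y ≤ centralizer (X : Set G)) : X ⊔ Y ≤ centralizer ((X ⊔ Y : Subgroup G) : Set G) := by
  rw [centralizer_sup_eq]
  exact sup_le (le_inf hX (le_centralizer_iff.1 h)) (le_inf h hY)

/-- `[x, A]` -/
def cm (x : G) (A : Subgroup G) : Subgroup G := closure {m | ∃ a ∈ A, m = ⁅x, a⁆}

theorem mem_cm (x : G) {A : Subgroup G} {a : G} (ha : a ∈ A) : ⁅x, a⁆ ∈ cm x A :=
  subset_closure ⟨a, ha, rfl⟩

theorem cm_le {x : G} {A X : Subgroup G} : cm x A ≤ X ↔ ∀ a ∈ A, ⁅x, a⁆ ∈ X := by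
  rw [cm, closure_le]
  exact ⟨fun h a ha => h ⟨a, ha, rfl⟩, by rintro h _ ⟨a, ha, rfl⟩; exact h a ha⟩

theorem cm_le_commutator {x : G} {A X : Subgroup G} (hx : x ∈ X) : cm x A ≤ ⁅X, A⁆ :=
  cm_le.2 fun _ ha => commutator_mem_commutator hx ha

theorem comm_mul_right (x a b : G) : ⁅x, a * b⁆ = ⁅x, a⁆ * (a * ⁅x, b⁆ * a⁻¹) := by
  simp only [commutatorElement_def]; group

theorem mem_cent_cm_iff {x : G} {A : Subgroup G} (hA : A ≤ centralizer (A : Set G))
    (hM : cm x A ≤ centralizer (cm x A : Set G)) {d : G} (hd : d ∈ A) :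
    d ∈ centralizer (cm x A : Set G) ↔ ⁅x, d⁆ ∈ centralizer (A : Set G) := by
  have key : ∀ e ∈ A, (⁅x, e⁆ * d = d * ⁅x, e⁆ ↔ e * ⁅x, d⁆ = ⁅x, d⁆ * e) := by
    intro e he
    have h1 := comm_mul_right x d e
    have h2 := comm_mul_right x e d
    rw [hA hd e he, h1] at h2
    have h3 : ⁅x, e⁆ * ⁅x, d⁆ = ⁅x, d⁆ * ⁅x, e⁆ := hM (mem_cm x hd) _ (mem_cm x he)
    constructor
    · intro h
      have h4 : d * ⁅x, e⁆ * d⁻¹ = ⁅x, e⁆ := by rw [← h, mul_inv_cancel_right]
      rw [h4, ← h3, mul_right_inj] at h2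
      rw [h2, inv_mul_cancel_right]
      rw [← h2]
    · intro h
      have h4 : e * ⁅x, d⁆ * e⁻¹ = ⁅x, d⁆ := by rw [h, mul_inv_cancel_right]
      rw [h4, h3, mul_right_inj] at h2
      rw [← h2, inv_mul_cancel_right]
      rw [h2]
  constructor
  · intro h e he
    exact (key e he).1 (h _ (mem_cm x he))
  · intro h
    have : cm x A ≤ centralizer ({d} : Set G) := cm_le.2 fun e he => by
      rw [mem_centralizer_singleton_iff]
      exact (key e he).2 (h e he)
    intro m hm
    exact mem_centralizer_singleton_iff.1 (this hm)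

theorem inv_mul_mem_iff {x : G} {A : Subgroup G} (hA : A ≤ centralizer (A : Set G))
    (hM : cm x A ≤ centralizer (cm x A : Set G)) {a b : G} (ha : a ∈ A) (hb : b ∈ A) :
    a⁻¹ * b ∈ centralizer (cm x A : Set G) ↔ ⁅x, a⁆⁻¹ * ⁅x, b⁆ ∈ centralizer (A : Set G) := by
  rw [mem_cent_cm_iff hA hM (A.mul_mem (A.inv_mem ha) hb)]
  have h1 : ⁅x, a⁆⁻¹ * ⁅x, b⁆ = a * ⁅x, a⁻¹ * b⁆ * a⁻¹ := by
    simp only [commutatorElement_def]; group
  rw [h1]
  have haC := hA ha
  constructor
  · intro h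
    exact mul_mem (mul_mem haC h) (inv_mem haC)
  · intro h
    have := mul_mem (mul_mem (inv_mem haC) h) haC
    simpa [mul_assoc] using this

/-- The replacement lemma: `[x, A] C_A([x, A])` is again of largest order, and `a ↦ [x, a]` maps `A` onto
`[x, A]` modulo the centralizer of `A`. -/
theorem repl [Finite G] {S A : Subgroup G} (hA : A ∈ meaIn 0 S) {x : G} (hx : x ∈ S)
    (hM : cm x A ≤ centralizer (cm x A : Set G)) :
    cm x A ⊔ (A ⊓ centralizer (cm x A : Set G)) ∈ meaIn 0 S ∧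
      ∀ y ∈ cm x A, ∃ a ∈ A, ⁅x, a⁆⁻¹ * y ∈ centralizer (A : Set G) := by
  have hab := ma_ab hA
  set M := cm x A with hMd
  let g : A ⧸ (centralizer (M : Set G)).subgroupOf A → M ⧸ (centralizer (A : Set G)).subgroupOf M :=
    Quotient.map' (fun a : A => (⟨⁅x, (a : G)⁆, mem_cm x a.2⟩ : M)) fun a b h => by
      rw [QuotientGroup.leftRel_apply] at h ⊢
      exact (inv_mul_mem_iff hab hM a.2 b.2).1 h
  have hg : Function.Injective g := by
    intro a b
    induction a using QuotientGroup.induction_on with | H a => ?_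
    induction b using QuotientGroup.induction_on with | H b => ?_
    intro h
    have h' : (⟨⁅x, (a : G)⁆, mem_cm x a.2⟩ : M)⁻¹ * ⟨⁅x, (b : G)⁆, mem_cm x b.2⟩ ∈
        (centralizer (A : Set G)).subgroupOf M := QuotientGroup.eq.1 h
    exact QuotientGroup.eq.2 ((inv_mul_mem_iff hab hM a.2 b.2).2 h')
  have h1 := Nat.card_le_card_of_injective g hg
  have hMS : M ≤ S := cm_le.2 fun a ha => by
    rw [commutatorElement_def]
    exact mul_mem (mul_mem (mul_mem hx (hA.1 ha)) (inv_mem hx)) (inv_mem (hA.1 ha))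
  have hsab : M ⊔ (A ⊓ centralizer (M : Set G)) ≤
      centralizer ((M ⊔ (A ⊓ centralizer (M : Set G)) : Subgroup G) : Set G) :=
    sup_ab hM (inf_le_left.trans (hab.trans (centralizer_anti inf_le_left))) inf_le_right
  have hsS : M ⊔ (A ⊓ centralizer (M : Set G)) ≤ S := sup_le hMS (inf_le_left.trans hA.1)
  have h2 := meaIn_card_le hA hsS (ea_of_ab hsab)
  have h3 := card_mul_card_le_inf_sup M (A ⊓ centralizer (M : Set G))
  have h4 : Nat.card ↥(M ⊓ (A ⊓ centralizer (M : Set G))) ≤ Nat.card ↥(M ⊓ centralizer (A : Set G)) :=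
    card_le_of_le (inf_le_inf_left _ (inf_le_left.trans hab))
  have h5 := card_eq_card_quotient_mul_card_subgroup ((centralizer (M : Set G)).subgroupOf A)
  have h6 := card_eq_card_quotient_mul_card_subgroup ((centralizer (A : Set G)).subgroupOf M)
  have h7 : Nat.card ((centralizer (M : Set G)).subgroupOf A) =
      Nat.card ↥(A ⊓ centralizer (M : Set G)) := by
    rw [← inf_subgroupOf_left]
    exact Nat.card_congr (subgroupOfEquivOfLe inf_le_left).toEquiv
  have h8 : Nat.card ((centralizer (A : Set G)).subgroupOf M) =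
      Nat.card ↥(M ⊓ centralizer (A : Set G)) := by
    rw [← inf_subgroupOf_left]
    exact Nat.card_congr (subgroupOfEquivOfLe inf_le_left).toEquiv
  rw [h7] at h5
  rw [h8] at h6
  set i := Nat.card (A ⧸ (centralizer (M : Set G)).subgroupOf A)
  set j := Nat.card (M ⧸ (centralizer (A : Set G)).subgroupOf M) with hj
  set c := Nat.card ↥(A ⊓ centralizer (M : Set G))
  set z := Nat.card ↥(M ⊓ centralizer (A : Set G))
  set w := Nat.card ↥(M ⊓ (A ⊓ centralizer (M : Set G)))
  set s := Nat.card ↥(M ⊔ (A ⊓ centralizer (M : Set G)))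
  have hc : 0 < c := Nat.card_pos
  have hz : 0 < z := Nat.card_pos
  have hw : 0 < w := Nat.card_pos
  rw [h5] at h2
  rw [h6] at h3
  refine ⟨mem_meaIn_of_card_le hA hsS (ea_of_ab hsab) ?_, ?_⟩
  · rw [h5]
    have : w * (i * c) ≤ w * s := by
      calc w * (i * c) ≤ z * (j * c) := Nat.mul_le_mul h4 (Nat.mul_le_mul_right _ h1)
        _ = j * z * c := by ring
        _ ≤ w * s := h3
    exact Nat.le_of_mul_le_mul_left this hw
  · have hji : j ≤ i := by
      have : j * (z * c) ≤ i * (z * c) := by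
        calc j * (z * c) = j * z * c := by ring
          _ ≤ w * s := h3
          _ ≤ z * (i * c) := Nat.mul_le_mul h4 h2
          _ = i * (z * c) := by ring
      exact Nat.le_of_mul_le_mul_right this (Nat.mul_pos hz hc)
    have hs := (hg.bijective_of_nat_card_le hji).2
    intro y hy
    obtain ⟨a, ha⟩ := hs (QuotientGroup.mk ⟨y, hy⟩)
    induction a using QuotientGroup.induction_on with | H a => ?_
    have h' : (⟨⁅x, (a : G)⁆, mem_cm x a.2⟩ : M)⁻¹ * ⟨y, hy⟩ ∈
        (centralizer (A : Set G)).subgroupOf M := QuotientGroup.eq.1 ha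
    exact ⟨a, a.2, h'⟩

end CL.JTr
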