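/-
An abelian subgroup `A` of largest order of `S`, not inside `P`, meeting the critical subgroup `B` of `P`
maximally acts with small degree on `B` and on `Z(B)`.
-/
import Cfsg.Agent.Loc.JTr1

set_option autoImplicit false

open Cfsg Subgroup
open scoped commutatorElement

namespace CL.JTr

open CL.Loc

variable {G : Type*} [Group G]

/-- the upper series of the action of `A` on `V` -/
def K (V A : Subgroup G) : ℕ → Subgroup G
  | 0 => ⊥
  | k + 1 => V ⊓ commStab A (K V A k)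

theorem K_le (V A : Subgroup G) : ∀ k, K V A k ≤ V
  | 0 => bot_le
  | _ + 1 => inf_le_left

theorem K_one (V A : Subgroup G) : K V A 1 = V ⊓ centralizer (A : Set G) := by
  rw [K, K, commStab_bot]

theorem comm_K (V A : Subgroup G) (k : ℕ) : ⁅K V A (k + 1), A⁆ ≤ K V A k :=
  (le_commStab.1 inf_le_right).2

theorem swap {t a b : G} (hab : a * b = b * a)
    (h : Commute (b * ⁅t, a⁆ * b⁻¹) (a * ⁅t, b⁆ * a⁻¹)) : ⁅⁅t, a⁆, b⁆ = ⁅⁅t, b⁆, a⁆ := by
  have h1 := comm_mul_right t a b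
  rw [hab, comm_mul_right] at h1
  have h2 : ∀ u c : G, ⁅u, c⁆ = u * (c * u * c⁻¹)⁻¹ := fun u c => by
    simp only [commutatorElement_def]; group
  rw [h2 ⁅t, a⁆, h2 ⁅t, b⁆]
  set u' := b * ⁅t, a⁆ * b⁻¹
  set w' := a * ⁅t, b⁆ * a⁻¹
  have h3 : ⁅t, a⁆ = ⁅t, b⁆ * u' * w'⁻¹ := by rw [h1, mul_inv_cancel_right]
  calc ⁅t, a⁆ * u'⁻¹ = ⁅t, b⁆ * (u' * w'⁻¹) * u'⁻¹ := by rw [← mul_assoc, ← h3]
    _ = ⁅t, b⁆ * w'⁻¹ := by rw [h.inv_right.eq]; group

/-- the configuration -/
structure Hyp (S P B V A : Subgroup G) : Prop where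
  hA : A ∈ meaIn 0 S
  BS : B ≤ S
  VB : V ≤ B
  BP : B ≤ P
  Vc : V ≤ centralizer (B : Set G)
  nB : A ≤ normalizer (B : Set G)
  nV : A ≤ normalizer (V : Set G)
  BPV : ⁅B, P⁆ ≤ V
  nil : Group.IsNilpotent S
  max : ∀ A' ∈ meaIn 0 S, A ⊓ B < A' ⊓ B → A' ≤ P

namespace Hyp

variable {S P B V A : Subgroup G} (h : Hyp S P B V A)
include h

theorem ab : A ≤ centralizer (A : Set G) := ma_ab h.hA

theorem B_cent {X : Subgroup G} (hX : X ≤ V) : B ≤ centralizer (X : Set G) :=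
  (le_centralizer_iff.1 h.Vc).trans (centralizer_anti hX)

theorem B_norm (k : ℕ) : B ≤ normalizer (K V A k : Set G) :=
  le_normalizer_of_le_centralizer (h.B_cent (K_le V A k))

theorem A_norm : ∀ k, A ≤ normalizer (K V A k : Set G)
  | 0 => by rw [K]; exact le_normalizer_of_normal
  | k + 1 => le_normalizer_inf' h.nV (le_normalizer_commStab le_normalizer (A_norm k))

theorem mem_K {k : ℕ} {v : G} (hv : v ∈ V) (hc : ∀ a ∈ A, ⁅v, a⁆ ∈ K V A k) : v ∈ K V A (k + 1) :=
  ⟨hv, h.B_norm k (h.VB hv), hc⟩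

theorem le_K {k : ℕ} {X : Subgroup G} (hX : X ≤ V) (hc : ⁅X, A⁆ ≤ K V A k) : X ≤ K V A (k + 1) :=
  fun _ hx => h.mem_K (hX hx) fun _ ha => hc (commutator_mem_commutator hx ha)

theorem K_succ : ∀ k, K V A k ≤ K V A (k + 1)
  | 0 => bot_le
  | k + 1 => h.le_K (K_le V A _) ((comm_K V A k).trans (K_succ k))

theorem K_mono : Monotone (K V A) := monotone_nat_of_le_succ h.K_succ

theorem comm_V : ⁅V, A⁆ ≤ V := iterComm_le_of_le_normalizer le_rfl h.nV 1

theorem comm_mem_V {v a : G} (hv : v ∈ V) (ha : a ∈ A) : ⁅v, a⁆ ∈ V :=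
  h.comm_V (commutator_mem_commutator hv ha)

theorem le_K_add (n : ℕ) : ∀ {X : Subgroup G} {k : ℕ}, X ≤ V → iterCommutator X A n ≤ K V A k →
    X ≤ K V A (k + n) := by
  induction n with
  | zero => exact fun _ hk => hk
  | succ n ih =>
    intro X k hX hk
    rw [iterComm_succ'] at hk
    exact h.le_K hX (ih ((commutator_mono hX le_rfl).trans h.comm_V) hk)

theorem exists_K : ∃ n, V ≤ K V A n := by
  obtain ⟨n, hn⟩ := exists_iterComm_eq_bot h.nil (h.VB.trans h.BS) h.hA.1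
  exact ⟨0 + n, h.le_K_add n le_rfl hn.le⟩

theorem Bi_le (i : ℕ) : iterCommutator B A i ≤ B := iterComm_le_of_le_normalizer le_rfl h.nB i

theorem comm_Bi {D : Subgroup G} (hD : D ≤ A) (i : ℕ) : ∀ k, ⁅B, D⁆ ≤ K V A (k + i) →
    ⁅iterCommutator B A i, D⁆ ≤ K V A k := by
  induction i with
  | zero => exact fun _ hk => hk
  | succ i ih =>
    intro k hk
    refine three_subgroups_of_le_normalizer ((h.Bi_le i).trans (h.B_norm k)) (h.A_norm k)
      (hD.trans (h.A_norm k)) ?_ ?_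
    · rw [commutator_eq_bot_iff_le_centralizer.2 (h.ab.trans (centralizer_anti hD)), commutator_bot_left]
      exact bot_le
    · rw [commutator_comm D]
      exact (commutator_mono (ih (k + 1) (by rwa [Nat.add_right_comm, Nat.add_assoc])) le_rfl).trans
        (comm_K V A k)

theorem conj_mem_V {v a : G} (hv : v ∈ V) (ha : a ∈ A) : a * v * a⁻¹ ∈ V :=
  (mem_normalizer_iff.1 (h.nV ha) v).1 hv

theorem swap' {t a b : G} (ha : a ∈ A) (hb : b ∈ A) (h1 : ⁅t, a⁆ ∈ V) (h2 : ⁅t, b⁆ ∈ V) :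
    ⁅⁅t, a⁆, b⁆ = ⁅⁅t, b⁆, a⁆ :=
  swap (h.ab hb a ha) (h.Vc (h.conj_mem_V h2 ha) _ (h.VB (h.conj_mem_V h1 hb)))

variable [Finite G]

theorem step {x : G} (hx : x ∈ B) (h1 : cm x A ≤ centralizer (cm x A : Set G))
    (h2 : A ⊓ B ≤ centralizer (cm x A : Set G)) (h3 : ¬ cm x A ≤ centralizer (A : Set G)) :
    A ⊓ centralizer (cm x A : Set G) ≤ P := by
  have hM : cm x A ≤ B := (cm_le_commutator hx).trans (h.Bi_le 1)
  refine le_sup_right.trans (h.max _ (repl h.hA (h.BS hx) h1).1 (lt_of_le_of_ne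
    (le_inf ((le_inf inf_le_left h2).trans le_sup_right) inf_le_right) fun e => h3 ?_))
  exact (le_inf le_sup_left hM).trans (e.ge.trans (inf_le_left.trans h.ab))

/-! ### The case that `A` is quadratic on `V` -/

omit [Finite G] in
theorem comm_Bi_Bj (hV : V ≤ K V A 2) {m : ℕ} (hm : iterCommutator B A (m + 1) = ⊥) (i : ℕ) :
    ∀ j k, (2 ≤ k ∨ m + 2 ≤ i + j + k) →
      ⁅iterCommutator B A i, iterCommutator B A j⁆ ≤ K V A k := by
  have h2 : ∀ i j k, 2 ≤ k → ⁅iterCommutator B A i, iterCommutator B A j⁆ ≤ K V A k :=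
    fun i j k hk => ((commutator_mono (h.Bi_le i) ((h.Bi_le j).trans h.BP)).trans h.BPV).trans
      (hV.trans (h.K_mono hk))
  induction i with
  | zero =>
    intro j k hk
    by_cases hk2 : 2 ≤ k
    · exact h2 _ _ _ hk2
    · have : iterCommutator B A j = ⊥ :=
        le_bot_iff.1 ((iterComm_antitone h.nB (by omega : m + 1 ≤ j)).trans hm.le)
      rw [this, commutator_bot_right]
      exact bot_le
  | succ i ih =>
    intro j k hk
    by_cases hk2 : 2 ≤ k
    · exact h2 _ _ _ hk2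
    refine three_subgroups_of_le_normalizer ((h.Bi_le i).trans (h.B_norm k)) (h.A_norm k)
      ((h.Bi_le j).trans (h.B_norm k)) ?_ ?_
    · rw [commutator_comm A, commutator_comm]
      exact ih (j + 1) k (by omega)
    · rw [commutator_comm (iterCommutator B A j)]
      exact (commutator_mono (ih j (k + 1) (by omega)) le_rfl).trans (comm_K V A k)

theorem case_quad (hV : V ≤ K V A 2) : iterCommutator B A 5 = ⊥ := by
  by_contra h5
  have hex := exists_iterComm_eq_bot h.nil h.BS h.hA.1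
  classical
  have hn := Nat.find_spec hex
  have hn5 : 5 < Nat.find hex := by
    by_contra hc
    exact h5 (le_bot_iff.1 ((iterComm_antitone h.nB (not_lt.1 hc)).trans hn.le))
  obtain ⟨l, hl⟩ : ∃ l, Nat.find hex = l + 6 := ⟨Nat.find hex - 6, by omega⟩
  have hm : iterCommutator B A (l + 5) ≠ ⊥ := Nat.find_min hex (by omega)
  rw [hl] at hn
  have hC : ∀ i j, l + 7 ≤ i + j → iterCommutator B A i ≤ centralizer (iterCommutator B A j : Set G) :=
    fun i j hij => commutator_eq_bot_iff_le_centralizer.1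
      (le_bot_iff.1 (h.comm_Bi_Bj hV (m := l + 5) hn i j 0 (by omega)))
  obtain ⟨x, hx, hxA⟩ : ∃ x ∈ iterCommutator B A (l + 3), ¬ cm x A ≤ centralizer (A : Set G) := by
    by_contra hc
    push Not at hc
    refine hm (commutator_eq_bot_iff_le_centralizer.2 ?_)
    exact commutator_le.2 fun x hx a ha => hc x hx (mem_cm x ha)
  have hM : cm x A ≤ iterCommutator B A (l + 4) := cm_le_commutator hx
  have hMab : cm x A ≤ centralizer (cm x A : Set G) :=
    hM.trans ((hC _ _ (by omega)).trans (centralizer_anti hM))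
  have hA0 : iterCommutator B A 2 ≤ centralizer ((A ⊓ P : Subgroup G) : Set G) :=
    commutator_eq_bot_iff_le_centralizer.1 (le_bot_iff.1 (h.comm_Bi inf_le_left 2 0
      (((commutator_mono le_rfl inf_le_right).trans h.BPV).trans hV)))
  have hP := h.step (h.Bi_le _ hx) hMab ((inf_le_inf_left A h.BP).trans ((le_centralizer_iff.1 hA0).trans
    (centralizer_anti (hM.trans (iterComm_antitone h.nB (by omega)))))) hxA
  have hstar := (repl h.hA (h.BS (h.Bi_le _ hx)) hMab).1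
  have h3 : iterCommutator B A 3 ≤ cm x A ⊔ (A ⊓ centralizer (cm x A : Set G)) := by
    intro y hy
    refine ma_self hstar (h.BS (h.Bi_le _ hy)) ?_
    rw [centralizer_sup_eq]
    exact ⟨centralizer_anti hM (hC _ _ (by omega) hy), centralizer_anti (le_inf inf_le_left hP)
      (hA0 (iterComm_antitone h.nB (by omega) hy))⟩
  have hMA : ⁅cm x A, A⁆ ≤ A := by
    refine (commutator_mono hM le_rfl).trans fun y hy => ma_self h.hA (h.BS (h.Bi_le (l + 5) hy)) ?_
    exact commutator_eq_bot_iff_le_centralizer.1 hn hy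
  have h4 : iterCommutator B A 4 ≤ A :=
    (commutator_mono h3 le_rfl).trans (commutator_sup_le_of_le_normalizer
      (le_normalizer_iff_commutator_le_right.2 hMA) (inf_le_left.trans le_normalizer) hMA
      ((commutator_mono inf_le_left le_rfl).trans (commutator_le_self A)))
  exact h5 (le_bot_iff.1 ((commutator_mono h4 le_rfl).trans
    (commutator_eq_bot_iff_le_centralizer.2 h.ab).le))

/-! ### The case that `A` is not quadratic on `V` -/

omit [Finite G] in
theorem cm_le_V {v : G} (hv : v ∈ V) : cm v A ≤ V := (cm_le_commutator hv).trans h.comm_V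

omit [Finite G] in
theorem cm_ab {v : G} (hv : v ∈ V) : cm v A ≤ centralizer (cm v A : Set G) :=
  ((h.cm_le_V hv).trans h.VB).trans (h.B_cent (h.cm_le_V hv))

theorem stepV {v : G} (hv : v ∈ V) (h2 : v ∉ K V A 2) : A ⊓ centralizer (cm v A : Set G) ≤ P := by
  refine h.step (h.VB hv) (h.cm_ab hv) (inf_le_right.trans (h.B_cent (h.cm_le_V hv))) fun hc => h2 ?_
  refine h.mem_K hv fun a ha => ?_
  rw [K_one]
  exact ⟨h.comm_mem_V hv ha, hc (mem_cm v ha)⟩

theorem mem_K_of_not_mem {a : G} (ha : a ∈ A) (haP : a ∉ P) (k : ℕ) :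
    ∀ v ∈ V, ⁅v, a⁆ ∈ K V A (k + 1) → v ∈ K V A (k + 2) := by
  induction k with
  | zero =>
    intro v hv hc
    by_contra h2
    rw [Nat.zero_add, K_one] at hc
    exact haP (h.stepV hv h2 ⟨ha, (mem_cent_cm_iff h.ab (h.cm_ab hv) ha).2 hc.2⟩)
  | succ k ih =>
    intro v hv hc
    refine h.mem_K hv fun e he => ih _ (h.comm_mem_V hv he) ?_
    rw [h.swap' he ha (h.comm_mem_V hv he) (h.comm_mem_V hv ha)]
    exact comm_K V A _ (commutator_mem_commutator hc he)

theorem exists_a0 {x e f : G} (hx : x ∈ V) (he : e ∈ A) (hf : f ∈ A) :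
    ∃ a ∈ A ⊓ P, ∃ z ∈ K V A 1, ⁅⁅x, e⁆, f⁆ = ⁅x, a⁆ * z := by
  have hy : ⁅⁅x, e⁆, f⁆ ∈ cm x A := by
    have : ⁅⁅x, e⁆, f⁆ = ⁅x, e⁆ * (⁅x, f⁆⁻¹ * ⁅x, f * e⁆)⁻¹ := by
      simp only [commutatorElement_def]; group
    rw [this]
    exact mul_mem (mem_cm x he) (inv_mem (mul_mem (inv_mem (mem_cm x hf)) (mem_cm x (mul_mem hf he))))
  obtain ⟨a, ha, hz⟩ := (repl h.hA (h.BS (h.VB hx)) (h.cm_ab hx)).2 _ hy
  have hz' : ⁅x, a⁆⁻¹ * ⁅⁅x, e⁆, f⁆ ∈ K V A 1 := by
    rw [K_one]
    exact ⟨V.mul_mem (V.inv_mem (h.comm_mem_V hx ha)) (h.cm_le_V hx hy), hz⟩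
  by_cases haP : a ∈ P
  · exact ⟨a, ⟨ha, haP⟩, _, hz', by rw [mul_inv_cancel_left]⟩
  have hK : ∀ k, x ∈ K V A (k + 2) → ⁅⁅x, e⁆, f⁆ ∈ K V A k := fun k hk =>
    comm_K V A k (commutator_mem_commutator (comm_K V A _ (commutator_mem_commutator hk he)) hf)
  have h2 : ∀ k, x ∈ K V A (k + 2) → x ∈ K V A 2 := by
    intro k
    induction k with
    | zero => exact fun hk => hk
    | succ k ih =>
      intro hk
      refine ih (h.mem_K_of_not_mem ha haP k x hx ?_)
      have := mul_mem (hK _ hk) (inv_mem (h.K_mono (by omega : 1 ≤ k + 1) hz'))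
      rwa [mul_inv_rev, inv_inv, mul_inv_cancel_left] at this
  obtain ⟨n, hn⟩ := h.exists_K
  have h3 := hK 0 (h2 n (h.K_mono (by omega) (hn hx)))
  exact ⟨1, one_mem _, 1, one_mem _, by rw [mem_bot.1 h3, commutatorElement_one_right, mul_one]⟩

/-- degree three on the chief factors inside `V` -/
theorem cubic {X N : Subgroup G} [N.Normal] (hX : X ≤ V) (hN : ⁅X, P⁆ ≤ N) :
    iterCommutator X A 3 ≤ N := by
  have h1 : ⁅⁅X, A⁆, A⁆ ≤ V ⊓ commStab A N := by
    refine (le_commStab.1 (commutator_le.2 fun x hx e he => ⟨?_, fun f hf => ?_⟩)).2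
    · exact le_normalizer_of_le_centralizer (h.B_cent inf_le_left) (h.VB (h.comm_mem_V (hX hx) he))
    · refine ⟨h.comm_mem_V (h.comm_mem_V (hX hx) he) hf, ?_⟩
      obtain ⟨a, ha, z, hz, e⟩ := h.exists_a0 (hX hx) he hf
      rw [e]
      refine mul_mem (le_commStab_of_normal.2 (commutator_le_left N A)
        (hN (commutator_mem_commutator hx ha.2))) (mem_commStab_of_normal.2 fun g hg => ?_)
      rw [mem_bot.1 (comm_K V A 0 (commutator_mem_commutator hz hg))]
      exact one_mem _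
  exact le_commStab_of_normal.1 (h1.trans inf_le_right)

omit h in
theorem offM_le_of_ma {S V A D : Subgroup G} (hA : A ∈ meaIn 0 S) (hV : V ≤ S)
    (hab : V ≤ centralizer (V : Set G)) (hD : D ≤ A) :
    offM V D ≤ Nat.card ↥(V ⊓ centralizer (A : Set G)) *
      Nat.card ↥(D ⊔ (V ⊓ centralizer (D : Set G))) ∧
    D ⊔ (V ⊓ centralizer (D : Set G)) ≤ S ∧
    IsElementaryAbelian 0 (D ⊔ (V ⊓ centralizer (D : Set G)) : Subgroup G) := by
  refine ⟨(card_mul_card_le_inf_sup _ _).trans (Nat.mul_le_mul_right _ (card_le_of_le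
    (le_inf (inf_le_right.trans inf_le_left) (inf_le_left.trans (hD.trans (ma_ab hA)))))),
    sup_le (hD.trans hA.1) (inf_le_left.trans hV), ea_of_ab (sup_ab
      (hD.trans ((ma_ab hA).trans (centralizer_anti hD)))
      (inf_le_left.trans (hab.trans (centralizer_anti inf_le_left))) inf_le_right)⟩

theorem case_not_quad (hV : ¬ V ≤ K V A 2) : iterCommutator B A 4 ≤ V := by
  obtain ⟨v, hv, hv2⟩ := SetLike.not_le_iff_exists.1 hV
  set D := A ⊓ centralizer ((⁅V, A⁆ : Subgroup G) : Set G) with hD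
  have hDP : D ≤ P := (inf_le_inf_left A (centralizer_anti (cm_le_commutator hv))).trans (h.stepV hv hv2)
  have hK3 : ⁅B, D⁆ ≤ K V A 3 := by
    refine commutator_le.2 fun t ht b hb => ?_
    have hw : ∀ c ∈ P, ⁅t, c⁆ ∈ V := fun c hc => h.BPV (commutator_mem_commutator ht hc)
    have hu := hw b (hDP hb)
    refine h.mem_K hu fun e he => h.mem_K (h.comm_mem_V hu he) fun f hf => ?_
    obtain ⟨a, ha, z, hz, e⟩ := h.exists_a0 hu he hf
    rw [e]
    refine mul_mem ?_ hz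
    rw [h.swap' hb.1 ha.1 hu (hw a ha.2)]
    have hw' := hw a ha.2
    refine h.mem_K (h.comm_mem_V hw' hb.1) fun g hg => ?_
    rw [h.swap' hb.1 hg (h.comm_mem_V hw' hb.1) (h.comm_mem_V hw' hg)]
    exact mem_bot.2 (commutatorElement_eq_one_iff_mul_comm.2
      (hb.2 _ (commutator_mem_commutator hw' hg)))
  have h3 : iterCommutator B A 3 ≤ centralizer (D : Set G) :=
    commutator_eq_bot_iff_le_centralizer.1 (le_bot_iff.1 (h.comm_Bi inf_le_left 3 0 hK3))
  have hVS := h.VB.trans h.BS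
  have hVab : V ≤ centralizer (V : Set G) := h.VB.trans (h.B_cent le_rfl)
  have hmax : ∀ E ≤ A, offM V E ≤ offM V A := fun E hE => by
    obtain ⟨h1, h2, h3⟩ := offM_le_of_ma h.hA hVS hVab hE
    rw [offM_def V A, mul_comm]
    exact h1.trans (Nat.mul_le_mul_left _ (meaIn_card_le h.hA h2 h3))
  have hr := (replacement_of_max hVab h.nV (by
    rw [commutator_eq_bot_iff_le_centralizer.2 h.ab]; exact bot_le) hmax le_rfl).1
  obtain ⟨h1, h2, h4⟩ := offM_le_of_ma h.hA hVS hVab (inf_le_left : D ≤ A)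
  have hstar : D ⊔ (V ⊓ centralizer (D : Set G)) ∈ meaIn 0 S := by
    refine mem_meaIn_of_card_le h.hA h2 h4 ?_
    rw [← hD] at hr
    rw [hr, offM_def, mul_comm] at h1
    exact Nat.le_of_mul_le_mul_left h1 Nat.card_pos
  have h5 : iterCommutator B A 3 ≤ A ⊔ V := by
    intro y hy
    refine sup_le_sup (inf_le_left : D ≤ A) (inf_le_left : V ⊓ centralizer (D : Set G) ≤ V)
      (ma_self hstar (h.BS (h.Bi_le _ hy)) ?_)
    rw [centralizer_sup_eq]
    exact ⟨h3 hy, h.B_cent inf_le_left (h.Bi_le _ hy)⟩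
  refine (commutator_mono h5 le_rfl).trans (commutator_sup_le_of_le_normalizer h.nV le_normalizer ?_
    h.comm_V)
  rw [commutator_eq_bot_iff_le_centralizer.2 h.ab]
  exact bot_le

end Hyp

end CL.JTr
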