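/-
Glauberman: the Thompson subgroup (abelian version) controls transfer for `p ≥ 7`.
-/
import Cfsg.Agent.Loc.JTr2
import Cfsg.Agent.Loc.ChiefCrit
import Cfsg.Agent.Loc.KinfRed
import Cfsg.Agent.Grp.ThompsonA
import Cfsg.Agent.Transfer.Tate
import Cfsg.Agent.S1972

set_option autoImplicit false

open Cfsg Subgroup
open scoped commutatorElement

namespace CL.JTr

open CL.Loc CL.Grp

universe u

variable {p : ℕ} [Fact p.Prime] {G : Type u} [Group G] [Finite G]

/-- If `J(S) ≰ P`, some abelian subgroup of largest order outside `P` has degree at most six on the chief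
factors below `P`. -/
theorem exists_degree_six {S P : Subgroup G} [P.Normal] (hS : IsPGroup p S) (hPS : P ≤ S)
    (hJ : ¬ thompsonSubgroupOf 0 S ≤ P) : ∃ A ∈ meaIn 0 S, ¬ A ≤ P ∧
      ∀ X Y : Subgroup G, IsChiefFactor X Y → X ≤ P → iterCommutator X A 6 ≤ Y := by
  have hP : IsPGroup p P := hS.to_le hPS
  obtain ⟨B, hBn, hBP, hB3, hB4⟩ := exists_normal_critical hP
  rw [thompsonSubgroupOf_le_iff] at hJ
  push Not at hJ
  obtain ⟨A, ⟨hA, hAP⟩, hmax⟩ := Set.Finite.exists_maximalFor (fun A : Subgroup G => A ⊓ B)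
    {A | A ∈ meaIn 0 S ∧ ¬ A ≤ P} (Set.toFinite _) hJ
  have h : Hyp S P B (B ⊓ centralizer (B : Set G)) A :=
    ⟨hA, hBP.trans hPS, inf_le_left, hBP, inf_le_right, le_normalizer_of_normal,
      le_normalizer_of_normal, by rwa [commutator_comm], hS.isNilpotent, fun A' hA' hlt => by
        by_contra hc
        exact hlt.not_ge (hmax ⟨hA', hc⟩ hlt.le)⟩
  refine ⟨A, hA, hAP, fun X Y hXY hX => ?_⟩
  by_cases hV : B ⊓ centralizer (B : Set G) ≤ K (B ⊓ centralizer (B : Set G)) A 2
  · refine chief_iterComm_le_of_critical hP hBP hB3 hB4 (i := 5) (j := 2) (by omega)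
      (fun U W _ hU => ?_) (fun U W _ hU => ?_) hXY hX
    · exact (iterComm_mono hU le_rfl 5).trans ((h.case_quad hV).le.trans bot_le)
    · exact (commutator_mono ((commutator_mono (hU.trans hV) le_rfl).trans (comm_K _ A 1)) le_rfl).trans
        ((comm_K _ A 0).trans bot_le)
  · have h3 : ∀ U W : Subgroup G, IsChiefFactor U W → U ≤ P → ∀ T ≤ U,
        T ≤ B ⊓ centralizer (B : Set G) → iterCommutator T A 3 ≤ W := fun U W hUW hU T h1 h2 => by
      have := hUW.2.2.1
      exact h.cubic h2 ((commutator_mono h1 le_rfl).trans (chief_commutator_le hUW (hP.to_le hU) hP))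
    refine chief_iterComm_le_of_critical hP hBP hB3 hB4 (i := 4) (j := 3) (by omega)
      (fun U W hUW hU => ?_)
      (fun U W hUW hU => h3 U W hUW (hU.trans (inf_le_left.trans hBP)) U le_rfl hU) hXY hX
    have := hUW.2.2.1
    refine chief_iterComm_le hUW ((iterComm_mono hU le_rfl 4).trans (h.case_not_quad hV)) fun _ => ?_
    exact iterComm_le_of_le le_normalizer_of_normal (by omega : 3 ≤ 4)
      (h3 U W hUW (hU.trans hBP) _ inf_le_left inf_le_right)

theorem controlsTransferIn_thompsonA (hp : 7 ≤ p) :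
    ControlsTransferIn p (inducedFunctor (G := G) (fun Q _ => thompsonSubgroup 0 Q)) ⊤ := by
  obtain ⟨K, R, _, ⟨e⟩⟩ := exists_section_equiv G
  have hW := isCharPFunctor_thompsonSubgroupA.{u} p
  refine controlsTransferIn_top_of_equiv hW e
    (Cfsg.Agent.S1972.result _ hW (fun K R _ _ T hT => ?_) K R)
  have hJ : ¬ thompsonSubgroupOf 0 (T : Subgroup (K ⧸ R.subgroupOf K)) ≤ pCore p _ := fun h => hT <| by
    show (thompsonSubgroupOf 0 (T : Subgroup (K ⧸ R.subgroupOf K))).Normal
    rw [← thompsonSubgroupOf_eq_of_le h (pCore_le_sylow T), ← normalizer_eq_top_iff, eq_top_iff]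
    exact le_normalizer_of_normal.trans (normalizer_le_normalizer_thompsonSubgroupOf _)
  obtain ⟨A, hA, hAP, h6⟩ := exists_degree_six T.2 (pCore_le_sylow T) hJ
  obtain ⟨g, hg, hgP⟩ := SetLike.not_le_iff_exists.1 hAP
  refine ⟨g, hA.1 hg, hgP, fun U V hUV hU => ?_⟩
  have := hUV.2.2.1
  exact iterComm_le_of_le le_normalizer_of_normal (by omega)
    ((iterComm_mono le_rfl (zpowers_le.2 hg) 6).trans (h6 U V hUV hU))

/-- Control of transfer gives isomorphic largest `p`-factor groups. -/
theorem quotient_pResidual_equiv (S : Sylow p G) {H : Subgroup G} (hSH : (S : Subgroup G) ≤ H)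
    (h : commutator G ⊓ S ≤ ⁅H, H⁆) [(pResidual p G).Normal] [(pResidual p H).Normal] :
    Nonempty (G ⧸ pResidual p G ≃* H ⧸ pResidual p H) := by
  have h1 := CL.Transfer.tate_of_commutator S H hSH h
  let f : H →* G ⧸ pResidual p G := (QuotientGroup.mk' _).comp H.subtype
  have hf : Function.Surjective f := by
    rw [← MonoidHom.range_eq_top, MonoidHom.range_comp, range_subtype, eq_top_iff,
      ← map_top_of_surjective _ (QuotientGroup.mk'_surjective (pResidual p G)),
      ← CL.Transfer.pResidual_sup_sylow S, Subgroup.map_sup]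
    refine sup_le ?_ (map_mono hSH)
    rw [(Subgroup.map_eq_bot_iff _).2 (QuotientGroup.ker_mk' _).ge]
    exact bot_le
  have hk : f.ker = pResidual p H := by
    rw [← MonoidHom.comap_ker, QuotientGroup.ker_mk', ← comap_map_eq_self_of_injective
      H.subtype_injective (pResidual p H), ← h1, comap_inf, comap_subtype H H, subgroupOf_self, inf_top_eq]
  exact ⟨(QuotientGroup.quotientKerEquivOfSurjective f hf).symm.trans (QuotientGroup.quotientMulEquivOfEq hk)⟩

theorem thompsonA_quotient_equiv (hp : 7 ≤ p) (S : Sylow p G) [(pResidual p G).Normal]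
    [(pResidual p ↥(normalizer (thompsonSubgroupAOf (S : Subgroup G) : Set G))).Normal] :
    Nonempty (G ⧸ pResidual p G ≃* ↥(normalizer (thompsonSubgroupAOf (S : Subgroup G) : Set G)) ⧸
      pResidual p ↥(normalizer (thompsonSubgroupAOf (S : Subgroup G) : Set G))) := by
  have h := (controlsTransferIn_top_iff (isCharPFunctor_thompsonSubgroupA.{u} p) S).1
    (controlsTransferIn_thompsonA hp)
  refine quotient_pResidual_equiv S ?_ ?_
  · rw [thompsonSubgroupAOf_eq]
    exact le_normalizer.trans (normalizer_le_normalizer_thompsonSubgroupOf _)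
  · rw [thompsonSubgroupAOf_eq, inf_comm, h]
    exact inf_le_right

end CL.JTr
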