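/-
Thompson's normal `p`-complement theorem for `p ≥ 5` through the normalizer of the Thompson subgroup (abelian
version) alone.
-/
import Cfsg.Agent.Loc.JTr3

set_option autoImplicit false

open Cfsg Subgroup
open scoped commutatorElement

namespace CL.JTr

open CL.Loc CL.Grp

section
variable {G : Type*} [Group G]

theorem iterComm_zpowers_le {B : Subgroup G} {a : G} (ha : a ∈ normalizer (B : Set G)) (n : ℕ) :
    ∀ {N : Subgroup G}, ⁅B, B⁆ ≤ N → N ≤ B → a ∈ normalizer (N : Set G) →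
      (∀ x ∈ B, (fun u => ⁅u, a⁆)^[n] x ∈ N) → iterCommutator B (zpowers a) n ≤ N := by
  have hB : ⁅B, zpowers a⁆ ≤ B := le_normalizer_iff_commutator_le_left.1 (zpowers_le.2 ha)
  have hd : ∀ n, ∀ x ∈ B, (fun u => ⁅u, a⁆)^[n] x ∈ B := fun n => by
    induction n with
    | zero => exact fun _ hx => hx
    | succ n ih => exact fun x hx => ih _ (hB (commutator_mem_commutator hx (mem_zpowers a)))
  induction n with
  | zero => exact fun _ _ _ h => h
  | succ n ih =>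
    intro N h1 h2 h3 h4
    have hN : B ≤ normalizer (N : Set G) := le_normalizer_of_commutator_le h2 h1
    refine (commutator_mono (ih (N := B ⊓ commStab (zpowers a) N) (h1.trans (le_inf h2 (le_commStab.2
      ⟨le_normalizer, le_normalizer_iff_commutator_le_left.1 (zpowers_le.2 h3)⟩))) inf_le_left
      (zpowers_le.1 (Loc.le_normalizer_inf' (zpowers_le.2 ha) (le_normalizer_commStab le_normalizer (zpowers_le.2 h3))))
      fun x hx => ⟨hd n x hx, hN (hd n x hx), fun g hg => ?_⟩) le_rfl).trans (le_commStab.1 inf_le_right).2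
    have h5 := h4 x hx
    rw [Function.iterate_succ_apply'] at h5
    set w := (fun u => ⁅u, a⁆)^[n] x
    let T : Subgroup G :=
      { carrier := {g | g ∈ normalizer (N : Set G) ∧ ⁅w, g⁆ ∈ N}
        one_mem' := ⟨one_mem _, by rw [commutatorElement_one_right]; exact one_mem _⟩
        mul_mem' := fun {b c} hb hc => ⟨mul_mem hb.1 hc.1, by
          rw [comm_mul_right]; exact mul_mem hb.2 ((mem_normalizer_iff.1 hb.1 _).1 hc.2)⟩
        inv_mem' := fun {b} hb => ⟨inv_mem hb.1, by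
          rw [show ⁅w, b⁻¹⁆ = b⁻¹ * ⁅w, b⁆⁻¹ * b⁻¹⁻¹ by simp only [commutatorElement_def]; group]
          exact (mem_normalizer_iff.1 (inv_mem hb.1) _).1 (inv_mem hb.2)⟩ }
    exact ((zpowers_le (H := T)).2 ⟨h3, h5⟩ hg).2

namespace Hyp

variable {S P B V A : Subgroup G} (h : Hyp S P B V A)
include h

theorem cV {u v : G} (hu : u ∈ B) (hv : v ∈ B) : ⁅u, v⁆ ∈ V := h.BPV (commutator_mem_commutator hu (h.BP hv))

theorem conjV {x v : G} (hx : x ∈ B) (hv : v ∈ V) : x * v * x⁻¹ = v := by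
  rw [h.Vc hv x hx, mul_inv_cancel_right]

theorem c_mul_right {w x y : G} (hw : w ∈ B) (hx : x ∈ B) (hy : y ∈ B) : ⁅w, x * y⁆ = ⁅w, x⁆ * ⁅w, y⁆ := by
  rw [comm_mul_right, h.conjV hx (h.cV hw hy)]

theorem c_mul_left {w x y : G} (hw : w ∈ B) (hx : x ∈ B) (hy : y ∈ B) : ⁅x * y, w⁆ = ⁅y, w⁆ * ⁅x, w⁆ := by
  rw [← commutatorElement_inv, h.c_mul_right hw hx hy, mul_inv_rev, commutatorElement_inv, commutatorElement_inv]

theorem c_inv_right {w x : G} (hw : w ∈ B) (hx : x ∈ B) : ⁅w, x⁻¹⁆ = ⁅w, x⁆⁻¹ := by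
  rw [eq_inv_iff_mul_eq_one, ← h.c_mul_right hw (inv_mem hx) hx, inv_mul_cancel, commutatorElement_one_right]

theorem c_inv_left {w x : G} (hw : w ∈ B) (hx : x ∈ B) : ⁅x⁻¹, w⁆ = ⁅x, w⁆⁻¹ := by
  rw [← commutatorElement_inv, h.c_inv_right hw hx, commutatorElement_inv w]

theorem c_V {w v : G} (hw : w ∈ B) (hv : v ∈ V) : ⁅w, v⁆ = 1 :=
  commutatorElement_eq_one_iff_mul_comm.2 (h.Vc hv w hw)

theorem dB {u a : G} (hu : u ∈ B) (ha : a ∈ A) : ⁅u, a⁆ ∈ B := h.Bi_le 1 (commutator_mem_commutator hu ha)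

theorem leibniz {u v a : G} (hu : u ∈ B) (hv : v ∈ B) (ha : a ∈ A) :
    ⁅⁅u, a⁆, v⁆ * ⁅u, ⁅v, a⁆⁆ = ⁅⁅u, v⁆, a⁆ * ⁅⁅u, a⁆, ⁅v, a⁆⁆ := by
  have hs := h.dB hu ha
  have ht := h.dB hv ha
  have e : ⁅⁅u, v⁆, a⁆ = ⁅u, v⁆ * ⁅⁅u, a⁆⁻¹ * u, ⁅v, a⁆⁻¹ * v⁆⁻¹ := by
    simp only [commutatorElement_def]; group
  rw [e, h.c_mul_right (mul_mem (inv_mem hs) hu) (inv_mem ht) hv, h.c_inv_right (mul_mem (inv_mem hs) hu) ht,
    h.c_mul_left ht (inv_mem hs) hu, h.c_mul_left hv (inv_mem hs) hu, h.c_inv_left ht hs, h.c_inv_left hv hs]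
  conv_lhs => rw [← h.conjV (h.VB (h.cV hu hv)) (h.cV hs hv)]
  group

theorem dV_mul {v w a : G} (hv : v ∈ V) (hw : w ∈ V) (ha : a ∈ A) : ⁅v * w, a⁆ = ⁅w, a⁆ * ⁅v, a⁆ := by
  rw [← h.conjV (h.VB hv) (h.comm_mem_V hw ha)]
  simp only [commutatorElement_def]; group

theorem c_swap {w t a b : G} (hw : w ∈ B) (ht : t ∈ B) (ha : a ∈ A) (hb : b ∈ A) :
    ⁅w, ⁅⁅t, a⁆, b⁆⁆ = ⁅w, ⁅⁅t, b⁆, a⁆⁆ := by
  have hu := h.dB ht ha
  have hv := h.dB ht hb
  have hp := h.dB hv ha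
  have e : ⁅⁅t, a⁆, b⁆ = ⁅⁅t, a⁆ * ⁅t, b⁆⁻¹, ⁅⁅t, b⁆, a⁆⁆ * ⁅⁅t, b⁆, a⁆ * ⁅⁅t, a⁆, ⁅t, b⁆⁻¹⁆ := by
    have e1 : ∀ c d : G, ⁅⁅t, c⁆, d⁆ = ⁅t, c⁆ * ⁅t, d * c⁆⁻¹ * ⁅t, d⁆ := fun c d => by
      simp only [commutatorElement_def]; group
    rw [e1 a b, e1 b a, h.ab hb a ha]
    generalize ⁅t, b * a⁆ = r
    generalize ⁅t, a⁆ = u
    generalize ⁅t, b⁆ = v
    simp only [commutatorElement_def]; group
  have v1 := h.cV (mul_mem hu (inv_mem hv)) hp
  have v2 := h.cV hu (inv_mem hv)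
  rw [e, h.c_mul_right hw (mul_mem (h.VB v1) hp) (h.VB v2), h.c_mul_right hw (h.VB v1) hp, h.c_V hw v1, h.c_V hw v2,
    one_mul, mul_one]

variable [Finite G]

/-- the parity argument -/
theorem parity (hV : V ≤ K V A 2) {x a b : G} (hx : x ∈ B) (ha : a ∈ A) (hb : b ∈ A) :
    ⁅⁅⁅x, a⁆, a⁆, ⁅⁅⁅x, a⁆, a⁆, b⁆⁆ = 1 := by
  have h5 := h.case_quad hV
  have hd : ∀ {i u c}, u ∈ iterCommutator B A i → c ∈ A → ⁅u, c⁆ ∈ iterCommutator B A (i + 1) :=
    fun hu hc => commutator_mem_commutator hu hc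
  have L1 : ∀ {i j u v}, 4 ≤ i + j → u ∈ iterCommutator B A i → v ∈ iterCommutator B A j →
      ⁅⁅u, a⁆, v⁆ * ⁅u, ⁅v, a⁆⁆ = ⁅⁅u, v⁆, a⁆ := fun {i j u v} hij hu hv => by
    rw [h.leibniz (h.Bi_le i hu) (h.Bi_le j hv) ha, mem_bot.1 (h.comm_Bi_Bj hV h5 (i + 1) (j + 1) 0 (by omega)
      (commutator_mem_commutator (hd hu ha) (hd hv ha))), mul_one]
  have L2 : ∀ {i j u v c}, 3 ≤ i + j → u ∈ iterCommutator B A i → v ∈ iterCommutator B A j → c ∈ A →
      ⁅⁅u, ⁅v, c⁆⁆, a⁆ * ⁅⁅⁅u, c⁆, v⁆, a⁆ = 1 := fun {i j u v c} hij hu hv hc => by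
    have u1 := h.Bi_le i hu
    have v1 := h.Bi_le j hv
    rw [← h.dV_mul (h.cV (h.dB u1 hc) v1) (h.cV u1 (h.dB v1 hc)) ha, h.leibniz u1 v1 hc,
      h.dV_mul (h.comm_mem_V (h.cV u1 v1) hc) (h.cV (h.dB u1 hc) (h.dB v1 hc)) ha,
      mem_bot.1 (comm_K V A 0 (commutator_mem_commutator (h.comm_Bi_Bj hV h5 (i + 1) (j + 1) 1 (by omega)
        (commutator_mem_commutator (hd hu hc) (hd hv hc))) ha)),
      mem_bot.1 (comm_K V A 0 (commutator_mem_commutator (comm_K V A 1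
        (commutator_mem_commutator (hV (h.cV u1 v1)) hc)) ha)), mul_one]
  have x0 : x ∈ iterCommutator B A 0 := hx
  have x1 := hd x0 ha
  have x2 := hd x1 ha
  have y1 := hd x1 hb
  have y2 := hd x2 hb
  have y3 := hd y2 ha
  have e1 := L1 (by omega) x1 y2
  have e2 := L1 (by omega) x0 y3
  have e3 := L2 (by omega) x0 y2 ha
  have e4 := L2 (by omega) x1 y1 ha
  have e5 := L2 (by omega) x1 x2 hb
  have e6 := h.dV_mul (h.cV (h.Bi_le _ x2) (h.Bi_le _ y1)) (h.cV (h.Bi_le _ y1) (h.Bi_le _ x2)) ha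
  rw [mem_bot.1 (h5.le (hd y3 ha)), commutatorElement_one_right, mul_one] at e2
  rw [← h.c_swap (h.Bi_le _ x1) (h.Bi_le _ x1) ha hb] at e4
  rw [← commutatorElement_inv ⁅⁅x, a⁆, a⁆, mul_inv_cancel, commutatorElement_one_left,
    eq_inv_of_mul_eq_one_right e4, commutatorElement_inv, eq_inv_of_mul_eq_one_right e5] at e6
  rw [e2, eq_inv_of_mul_eq_one_left e3] at e1
  rw [eq_mul_of_mul_inv_eq e1, ← inv_eq_one, mul_inv_rev, ← e6]

theorem case_quad4 (hV : V ≤ K V A 2) {a : G} (ha : a ∈ A) : iterCommutator B (zpowers a) 4 ≤ V := by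
  refine iterComm_zpowers_le (h.nB ha) 4 ((commutator_mono le_rfl h.BP).trans h.BPV) h.VB (h.nV ha) fun x hx => ?_
  have h5 := h.case_quad hV
  have hC : ∀ i j, 6 ≤ i + j → iterCommutator B A i ≤ centralizer (iterCommutator B A j : Set G) :=
    fun i j hij => commutator_eq_bot_iff_le_centralizer.1 (le_bot_iff.1 (h.comm_Bi_Bj hV h5 i j 0 (by omega)))
  have hz : ⁅⁅x, a⁆, a⁆ ∈ iterCommutator B A 2 := commutator_mem_commutator (commutator_mem_commutator hx ha) ha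
  have hp := fun b hb => h.parity hV hx ha (b := b) hb
  change ⁅⁅⁅⁅x, a⁆, a⁆, a⁆, a⁆ ∈ V
  set z := ⁅⁅x, a⁆, a⁆
  suffices hs : cm z A ≤ centralizer (A : Set G) by
    rw [commutatorElement_eq_one_iff_mul_comm.2 (hs (mem_cm z ha) a ha).symm]
    exact one_mem _
  by_contra hxA
  have hM : cm z A ≤ iterCommutator B A 3 := cm_le_commutator hz
  have hMab : cm z A ≤ centralizer (cm z A : Set G) := hM.trans ((hC _ _ (by omega)).trans (centralizer_anti hM))
  have hA0 : iterCommutator B A 2 ≤ centralizer ((A ⊓ P : Subgroup G) : Set G) :=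
    commutator_eq_bot_iff_le_centralizer.1 (le_bot_iff.1 (h.comm_Bi inf_le_left 2 0
      (((commutator_mono le_rfl inf_le_right).trans h.BPV).trans hV)))
  have hP := h.step (h.Bi_le _ hz) hMab ((inf_le_inf_left A h.BP).trans ((le_centralizer_iff.1 hA0).trans
    (centralizer_anti (hM.trans (iterComm_antitone h.nB (by omega)))))) hxA
  have h3 : z ∈ cm z A ⊔ (A ⊓ centralizer (cm z A : Set G)) := by
    refine ma_self (repl h.hA (h.BS (h.Bi_le _ hz)) hMab).1 (h.BS (h.Bi_le _ hz)) ?_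
    rw [centralizer_sup_eq]
    refine ⟨?_, centralizer_anti (le_inf inf_le_left hP) (hA0 hz)⟩
    have : cm z A ≤ centralizer ({z} : Set G) := cm_le.2 fun b hb =>
      mem_centralizer_singleton_iff.2 (commutatorElement_eq_one_iff_mul_comm.1 (hp b hb)).symm
    exact fun m hm => mem_centralizer_singleton_iff.1 (this hm)
  have h4 : ⁅iterCommutator B A 3 ⊔ A, A⁆ ≤ iterCommutator B A 4 := commutator_sup_le_of_le_normalizer
    (Loc.le_normalizer_of_le_centralizer (hC _ _ (by omega))) (le_normalizer_iterComm h.nB le_normalizer 4) le_rfl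
    ((commutator_eq_bot_iff_le_centralizer.2 h.ab).le.trans bot_le)
  exact hxA (((cm_le_commutator (sup_le_sup hM inf_le_left h3)).trans h4).trans
    (commutator_eq_bot_iff_le_centralizer.1 h5))

end Hyp

end

universe u

variable {p : ℕ} [Fact p.Prime] {G : Type u} [Group G] [Finite G]

/-- the local step -/
theorem thompsonA_le_pCore (hp : 5 ≤ p) (hc : centralizer (pCore p G : Set G) ≤ pCore p G)
    (hG : PrimeCommModCore p G) (T : Sylow p G) : thompsonSubgroupOf 0 (T : Subgroup G) ≤ pCore p G := by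
  by_contra hJ
  have hP := pCore_isPGroup p G
  obtain ⟨B, hBn, hBP, hB3, hB4⟩ := exists_normal_critical hP
  rw [thompsonSubgroupOf_le_iff] at hJ
  push Not at hJ
  obtain ⟨A, ⟨hA, hAP⟩, hmax⟩ := Set.Finite.exists_maximalFor (fun A : Subgroup G => A ⊓ B)
    {A | A ∈ meaIn 0 (T : Subgroup G) ∧ ¬ A ≤ pCore p G} (Set.toFinite _) hJ
  have h : Hyp T (pCore p G) B (B ⊓ centralizer (B : Set G)) A :=
    ⟨hA, hBP.trans (pCore_le_sylow T), inf_le_left, hBP, inf_le_right, le_normalizer_of_normal,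
      le_normalizer_of_normal, by rwa [commutator_comm], T.2.isNilpotent, fun A' hA' hlt => by
        by_contra hc
        exact hlt.not_ge (hmax ⟨hA', hc⟩ hlt.le)⟩
  refine hAP fun a ha => chiefStab_le_pCore (hP.to_le hBP) (fun x hx hx' => eq_one_of_coprime_of_mem hP
    (hc (mem_centralizer_of_self_centralizing hP le_normalizer_of_normal hB4
      (le_normalizer_of_normal (mem_top x)) hx hx')) hx') (mem_chiefStab.2 fun U W hUW hU => ?_)
  have := hUW.2.2.1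
  have hUp := hP.to_le (hU.trans hBP)
  refine chief_commutator_le_of_iterComm hG hUW hUp (iterComm_le_of_le le_normalizer_of_normal
    (by omega : 4 ≤ p - 1) (chief_iterComm_le (Z := B ⊓ centralizer (B : Set G)) hUW
      ((iterComm_mono hU le_rfl 4).trans ?_) fun _ => ?_))
  · by_cases hV : B ⊓ centralizer (B : Set G) ≤ K (B ⊓ centralizer (B : Set G)) A 2
    · exact h.case_quad4 hV ha
    · exact (iterComm_mono le_rfl (zpowers_le.2 ha) 4).trans (h.case_not_quad hV)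
  · exact iterComm_le_of_le le_normalizer_of_normal (by omega : 3 ≤ 4)
      ((iterComm_mono le_rfl (zpowers_le.2 ha) 3).trans (h.cubic inf_le_right
        ((commutator_mono inf_le_left le_rfl).trans (chief_commutator_le hUW hUp hP))))

theorem thompsonA_criterion (hp : 5 ≤ p) (S : Sylow p G)
    (h : ∀ g ∈ normalizer (thompsonSubgroupOf 0 (S : Subgroup G) : Set G), (orderOf g).Coprime p →
      g ∈ centralizer (thompsonSubgroupOf 0 (S : Subgroup G) : Set G)) : HasNormalPComplement p G := by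
  refine hasNormalPComplement_of_sections (isCharPFunctor_thompsonSubgroupA.{u} p) S
    (hasNormalPComplement_normalizer_of_self_centralizing S (le_normalizer_thompsonSubgroupOf _) (fun x hx => ?_) h)
    fun K R _ hc hm T => ?_
  · obtain ⟨A, hA⟩ := exists_mem_meaIn 0 (S : Subgroup G)
    exact le_thompsonSubgroupOf hA (ma_self hA hx.1 (centralizer_anti (le_thompsonSubgroupOf hA) hx.2))
  · show (thompsonSubgroupOf 0 (T : Subgroup (K ⧸ R.subgroupOf K))).Normal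
    rw [← thompsonSubgroupOf_eq_of_le (thompsonA_le_pCore hp hc hm T) (pCore_le_sylow T)]
    exact thompsonSubgroupOf_normal _

end CL.JTr
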