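/-
Bender's count of involutions in the cosets of a TI-subgroup: the basic structure and the Zassenhaus case.
-/
import Cfsg.Agent.Odd.RelBasic
import Cfsg.Agent.Inv.StrongEmb
import Cfsg.Agent.Inv.Dihedral
import Cfsg.Agent.Perm.ZassCoord

set_option autoImplicit false

open Cfsg CL.Odd CL.Inv.SE CL.Perm Subgroup MulAction
open scoped Pointwise

namespace CL.Loc

variable {G : Type*} [Group G]

/-- A TI-subgroup whose normaliser is `M C(z)` and whose elements have centralisers of odd order. -/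
structure LTI (M : Subgroup G) (z : G) : Prop where
  ne : M ≠ ⊥
  ti : ∀ x ∈ M, x ≠ 1 → ∀ g, g * x * g⁻¹ ∈ M → g ∈ N[M]
  zz : z * z = 1
  z1 : z ≠ 1
  zN : z ∈ N[M]
  fac : ∀ n ∈ N[M], ∃ x ∈ M, ∃ c ∈ N[M], c * z = z * c ∧ n = x * c
  odd : ∀ x ∈ M, x ≠ 1 → ∀ g, g * x = x * g → Odd (orderOf g)

theorem mem_of_sq_mem_odd {M : Subgroup G} {w : G} (ho : Odd (orderOf w)) (h : w * w ∈ M) : w ∈ M := by
  obtain ⟨k, hk⟩ := ho
  have : w = ((w * w) ^ k)⁻¹ := by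
    rw [eq_inv_iff_mul_eq_one, ← pow_two, ← pow_mul, ← pow_succ', ← hk, pow_orderOf_eq_one]
  exact this ▸ inv_mem (pow_mem h k)

namespace LTI

variable {M : Subgroup G} {z g t t' u v x y a b c : G} (h : LTI M z)
include h

theorem exists_ne : ∃ x ∈ M, x ≠ 1 := (M.bot_or_exists_ne_one.resolve_left h.ne)

theorem eq_one_of_comm (hu : u * u = 1) (h1 : u ≠ 1) (hx : x ∈ M) (e : u * x = x * u) : x = 1 := by
  by_contra hx1
  have := h.odd x hx hx1 u e
  rw [inv_of_mul_self hu h1] at this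
  exact absurd this (by decide)

theorem eq_one_of_sq (hx : x ∈ M) (e : x * x = 1) : x = 1 := by_contra fun h1 => h1 (h.eq_one_of_comm e h1 hx rfl)

theorem z_inv : z⁻¹ = z := inv_eq_of_mul_eq_one_right h.zz

theorem z_notMem : z ∉ M := fun hz => h.z1 (h.eq_one_of_sq hz h.zz)

variable [Finite G]

theorem inverts (hu : u * u = 1) (h1 : u ≠ 1) (hN : u ∈ N[M]) (hx : x ∈ M) : u * x * u⁻¹ = x⁻¹ :=
  inverts_of_fpf hu (fun _ hy => conj_mem_of_norm hN hy) (fun _ hy e => h.eq_one_of_comm hu h1 hy e) hx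

theorem z_mul (hx : x ∈ M) : z * x = x⁻¹ * z := mul_inv_eq_iff_eq_mul.1 (h.inverts h.zz h.z1 h.zN hx)

theorem mul_z (hx : x ∈ M) : x * z = z * x⁻¹ := by rw [h.z_mul (inv_mem hx), inv_inv]

theorem comm (hx : x ∈ M) (hy : y ∈ M) : x * y = y * x :=
  comm_of_inverts (fun _ hw => h.inverts h.zz h.z1 h.zN hw) hx hy

theorem zx_sq (hx : x ∈ M) : z * x * (z * x) = 1 := by
  rw [mul_assoc, ← mul_assoc x, h.mul_z hx, ← mul_assoc, ← mul_assoc, h.zz]; group

omit [Finite G] in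
theorem zx_ne (hx : x ∈ M) : z * x ≠ 1 := fun e => h.z_notMem (by
  rw [eq_inv_of_mul_eq_one_left e]; exact inv_mem hx)

theorem exists_zx (hu : u * u = 1) (h1 : u ≠ 1) (hN : u ∈ N[M]) : ∃ x ∈ M, u = z * x := by
  obtain ⟨y, hy, hy1⟩ := h.exists_ne
  obtain ⟨x, hx, c, -, hc, e⟩ := h.fac u hN
  refine ⟨z * u, mem_of_sq_mem_odd (h.odd y hy hy1 _ ?_) ?_, by rw [← mul_assoc, h.zz, one_mul]⟩
  · rw [mul_assoc, mul_inv_eq_iff_eq_mul.1 (h.inverts hu h1 hN hy), ← mul_assoc, h.z_mul (inv_mem hy), inv_inv,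
      mul_assoc]
  · have : z * u * (z * u) = x⁻¹ * x⁻¹ := by
      calc z * u * (z * u) = z * x * (c * z) * u := by rw [e]; group
        _ = x⁻¹ * (z * z) * x⁻¹ * (u * u) := by rw [hc, h.z_mul hx, e]; group
        _ = _ := by rw [h.zz, hu]; group
    exact this ▸ mul_mem (inv_mem hx) (inv_mem hx)

theorem exists_conj_zx (hx : x ∈ M) : ∃ y ∈ M, y * z * y⁻¹ = z * x := by
  by_cases h1 : x = 1
  · exact ⟨1, one_mem _, by simp [h1]⟩
  obtain ⟨k, hk⟩ := h.odd x hx h1 x rfl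
  refine ⟨x ^ k, pow_mem hx k, ?_⟩
  have e : (x ^ (k + k))⁻¹ = x := inv_eq_of_mul_eq_one_right (by
    rw [← pow_succ, ← two_mul, ← hk, pow_orderOf_eq_one])
  rw [h.mul_z (pow_mem hx k), mul_assoc, ← mul_inv_rev, ← pow_add, e]

omit [Finite G] in
theorem eq_of_coset (hu : u * u = 1) (hv : v * v = 1) (hN : u ∉ N[M]) (e : u * v ∈ M) : u = v := by
  by_contra hne
  refine hN (h.ti _ e (fun e1 => hne ?_) u ?_)
  · rw [eq_inv_of_mul_eq_one_left e1, inv_eq_of_mul_eq_one_right hv]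
  · have : u * (u * v) * u⁻¹ = (u * v)⁻¹ := by
      rw [← mul_assoc, hu, one_mul, mul_inv_rev, inv_eq_of_mul_eq_one_right hv]
    exact this ▸ inv_mem e

theorem odd_card : Odd (Nat.card M) := (odd_card_iff M).2 fun _ ht h2 =>
  ne_one_of_inv h2 (h.eq_one_of_sq ht (mul_self_of_inv h2))

/-- If there are many involutions, every coset of `M` outside the normaliser contains one. -/
theorem cos_of_card (hc : M.index < Nat.card {g : G // orderOf g = 2}) (hg : g ∉ N[M]) :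
    ∃ u, u * u = 1 ∧ g⁻¹ * u ∈ M := by
  classical
  by_contra! hn
  refine hc.not_ge (Nat.card_le_card_of_injective (β := G ⧸ M)
    (fun u => if (u : G) ∈ N[M] then ((z * u * g : G) : G ⧸ M) else ((u : G) : G ⧸ M)) fun u v e => ?_)
  have hu := mul_self_of_inv u.2
  have hv := mul_self_of_inv v.2
  have key : ∀ u v : {g : G // orderOf g = 2}, (u : G) ∈ N[M] → (z * u * g)⁻¹ * v ∉ M := fun u v h1 h2 => by
    obtain ⟨x, hx, e⟩ := h.exists_zx (mul_self_of_inv u.2) (ne_one_of_inv u.2) h1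
    rw [e, ← mul_assoc z, h.zz, one_mul] at h2
    refine hn (x⁻¹ * v * x) (mul_self_of_inv (inv_conj' v.2 x)) ?_
    simpa [mul_assoc] using mul_mem h2 hx
  refine Subtype.ext ?_
  by_cases h1 : (u : G) ∈ N[M] <;> by_cases h2 : (v : G) ∈ N[M] <;> simp only [h1, h2, if_true, if_false] at e
  · obtain ⟨x, hx, e1⟩ := h.exists_zx hu (ne_one_of_inv u.2) h1
    obtain ⟨y, hy, e2⟩ := h.exists_zx hv (ne_one_of_inv v.2) h2
    rw [e1, e2, ← mul_assoc z, ← mul_assoc z, h.zz, one_mul, one_mul, QuotientGroup.eq] at e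
    rw [e1, e2, mul_right_inj]
    by_contra hne
    exact hg (by simpa using inv_mem (h.ti _ (mul_mem (inv_mem hx) hy) (fun e => hne (inv_mul_eq_one.1 e)) g⁻¹
      (by simpa [mul_assoc] using e)))
  · exact absurd (QuotientGroup.eq.1 e) (key u v h1)
  · exact absurd (QuotientGroup.eq.1 e.symm) (key v u h2)
  · exact h.eq_of_coset hu hv h1 (by simpa [inv_eq_of_mul_eq_one_right hu] using QuotientGroup.eq.1 e)

/-- uniqueness of the double coset form -/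
theorem uniq (ha : a ∈ M) (hb : b ∈ M) (ht : t ∈ C1[z]) (ht' : t' ∈ C1[z]) (hN : t ∉ N[M]) (e : a * t = t' * b) :
    a = 1 ∧ b = 1 ∧ t = t' := by
  have e2 : a⁻¹ * t = t' * b⁻¹ := by
    have : z * (a * t) = z * (t' * b) := by rw [e]
    rw [← mul_assoc, h.z_mul ha, mul_assoc, ← mem_c1.1 ht, ← mul_assoc z, ← mem_c1.1 ht', mul_assoc t', h.z_mul hb,
      ← mul_assoc, ← mul_assoc, mul_left_inj] at this
    exact this
  have e3 : t⁻¹ * (a * a) * t⁻¹⁻¹ = b * b := by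
    calc t⁻¹ * (a * a) * t⁻¹⁻¹ = (a⁻¹ * t)⁻¹ * (a * t) := by group
      _ = _ := by rw [e, e2]; group
  have h1 : a = 1 := h.eq_one_of_sq ha (by_contra fun hne =>
    hN (by simpa using inv_mem (h.ti _ (mul_mem ha ha) hne t⁻¹ (by rw [← inv_inv t⁻¹⁻¹, inv_inv, e3]; exact mul_mem hb hb))))
  have h2 : b = 1 := h.eq_one_of_sq hb (by rw [← e3, h1]; group)
  exact ⟨h1, h2, by simpa [h1, h2] using e⟩

end LTI

/-- every coset of `M` outside the normaliser contains an involution -/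
structure LTC (M : Subgroup G) (z : G) : Prop extends LTI M z where
  cos : ∀ g, g ∉ N[M] → ∃ u, u * u = 1 ∧ g⁻¹ * u ∈ M
  nn : ∃ g, g ∉ N[M]

namespace LTC

variable [Finite G] {M : Subgroup G} {z g t t' u v x y a b c : G} (h : LTC M z)
include h

omit [Finite G] h in
theorem notMem_of (hg : g ∉ N[M]) (e : g⁻¹ * u ∈ M) : u ∉ N[M] := fun hu =>
  hg (by simpa using mul_mem hu (inv_mem (le_norm_self M e)))

omit [Finite G] in
/-- an element of the normaliser fixing a coset commutes with its involution -/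
theorem comm_of_cos (hu : u * u = 1) (hg : g ∉ N[M]) (e : g⁻¹ * u ∈ M) (hc : c ∈ N[M]) (hcg : c * g = g * c) :
    c * u = u * c := by
  refine (mul_inv_eq_iff_eq_mul.1 (h.eq_of_coset hu (CL.Inv.conj_mul_self hu c) (notMem_of hg e) ?_).symm)
  have : u * (c * u * c⁻¹) = (g⁻¹ * u)⁻¹ * (c * (g⁻¹ * u) * c⁻¹) := by
    rw [← mul_assoc c, ← (Commute.inv_right hcg).eq.symm]
    nth_rewrite 1 [← inv_eq_of_mul_eq_one_right hu]
    group
  exact this ▸ mul_mem (inv_mem e) (conj_mem_of_norm hc e)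

omit [Finite G] in
theorem sq_of_cent (ht : t ∈ C1[z]) (hN : t ∉ N[M]) : t * t = 1 := by
  obtain ⟨u, hu, e⟩ := h.cos t hN
  have h1 := h.comm_of_cos hu hN e h.zN (mem_c1.1 ht).symm
  have h2 := h.eq_one_of_comm h.zz h.z1 e (by
    rw [← mul_assoc, ← (Commute.inv_left (mem_c1.1 ht)).eq, mul_assoc, h1, mul_assoc])
  rwa [inv_mul_eq_one.1 h2]

omit [Finite G] in
theorem inverts_C (ht : t ∈ C1[z]) (hN : t ∉ N[M]) (hc : c ∈ C1[z]) (hcN : c ∈ N[M]) : t * c * t⁻¹ = c⁻¹ := by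
  have := h.sq_of_cent (mul_mem ht hc) fun e => hN ((mul_mem_cancel_right hcN).1 e)
  rw [inv_eq_of_mul_eq_one_right (h.sq_of_cent ht hN), eq_inv_iff_mul_eq_one, mul_assoc (t * c), this]

/-- involutions outside the normaliser are `M`-conjugate into `C(z)` -/
theorem exists_conj (hu : u * u = 1) (hN : u ∉ N[M]) : ∃ x ∈ M, ∃ t ∈ C1[z], t ∉ N[M] ∧ u = x * t * x⁻¹ := by
  obtain ⟨v, hv, e⟩ := h.cos (u * z) fun e => hN ((mul_mem_cancel_right h.zN).1 e)
  have e1 : u * v = z * ((u * z)⁻¹ * v) := by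
    rw [mul_inv_rev, h.z_inv, inv_eq_of_mul_eq_one_right hu, mul_assoc, ← mul_assoc z, h.zz, one_mul]
  obtain ⟨x, hx, e2⟩ := h.exists_conj_zx e
  rw [← e1] at e2
  have e3 : u * v = v * u := by
    rw [← inv_eq_of_mul_eq_one_right (e1 ▸ h.zx_sq e : u * v * (u * v) = 1), mul_inv_rev,
      inv_eq_of_mul_eq_one_right hu, inv_eq_of_mul_eq_one_right hv]
  refine ⟨x, hx, x⁻¹ * u * x, mem_c1.2 ?_, fun e4 => hN ?_, by group⟩
  · calc x⁻¹ * u * x * z = x⁻¹ * (u * (x * z * x⁻¹)) * x := by group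
      _ = x⁻¹ * ((x * z * x⁻¹) * u) * x := by rw [e2, mul_assoc u, ← e3]
      _ = _ := by group
  · simpa [mul_assoc] using mul_mem (mul_mem (le_norm_self M hx) e4) (inv_mem (le_norm_self M hx))

theorem exists_dc (hg : g ∉ N[M]) : ∃ a ∈ M, ∃ t ∈ C1[z], t ∉ N[M] ∧ ∃ b ∈ M, g = a * t * b := by
  obtain ⟨u, hu, e⟩ := h.cos g hg
  obtain ⟨x, hx, t, ht, hN, e1⟩ := h.exists_conj hu (notMem_of hg e)
  exact ⟨x, hx, t, ht, hN, x⁻¹ * (g⁻¹ * u)⁻¹, mul_mem (inv_mem hx) (inv_mem e), by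
    rw [← mul_assoc, ← e1]; group⟩

theorem exists_t : ∃ t ∈ C1[z], t ∉ N[M] := by
  obtain ⟨g, hg⟩ := h.nn
  obtain ⟨-, -, t, ht, hN, -⟩ := h.exists_dc hg
  exact ⟨t, ht, hN⟩

/-- `M` is semiregular on the other conjugates -/
theorem semireg (hx : x ∈ M) (hg : g ∉ N[M]) (e : g⁻¹ * x * g ∈ N[M]) : x = 1 := by
  obtain ⟨a, ha, t, ht, hN, b, hb, rfl⟩ := h.exists_dc hg
  have e1 : t⁻¹ * x * t ∈ N[M] := by
    have := mul_mem (mul_mem (le_norm_self M hb) e) (inv_mem (le_norm_self M hb))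
    rwa [show b * ((a * t * b)⁻¹ * x * (a * t * b)) * b⁻¹ = t⁻¹ * (a⁻¹ * (x * a)) * t by group, h.comm hx ha,
      inv_mul_cancel_left] at this
  obtain ⟨y, hy, c, hc, hcz, e2⟩ := h.fac _ e1
  refine (h.uniq hx (conj_mem_of_norm' hc hy) ht (mul_mem ht (mem_c1.2 hcz)) hN ?_).1
  calc x * t = t * (t⁻¹ * x * t) := by group
    _ = _ := by rw [e2]; group

theorem mem_C (ht : t ∈ C1[z]) (hN : t ∉ N[M]) (hc : c ∈ N[M]) (e : t⁻¹ * c * t ∈ N[M]) : c ∈ C1[z] := by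
  obtain ⟨x, hx, d, hd, hdz, rfl⟩ := h.fac c hc
  have e1 : t⁻¹ * d * t ∈ N[M] := by
    have := h.inverts_C (inv_mem ht) (fun e => hN (by simpa using inv_mem e)) (mem_c1.2 hdz) hd
    rw [inv_inv] at this
    exact this ▸ inv_mem hd
  rw [h.semireg hx hN (by simpa [mul_assoc] using mul_mem e (inv_mem e1)), one_mul]
  exact mem_c1.2 hdz

/-- the normaliser is a Frobenius group -/
theorem eq_one_of_comm_C (hc : c ∈ C1[z]) (hcN : c ∈ N[M]) (hx : x ∈ M) (h1 : x ≠ 1) (e : c * x = x * c) : c = 1 := by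
  obtain ⟨t, ht, hN⟩ := h.exists_t
  have h2 : t⁻¹ * x * t ∉ N[M] := fun e1 => h1 (h.semireg hx hN e1)
  obtain ⟨u, hu, e1⟩ := h.cos _ h2
  have h3 := h.comm_of_cos hu h2 e1 hcN (by
    have e2 := h.inverts_C ht hN hc hcN
    calc c * (t⁻¹ * x * t) = t⁻¹ * (t * c * t⁻¹ * x) * t := by group
      _ = t⁻¹ * (x * (t * c * t⁻¹)) * t := by rw [e2, (Commute.inv_left e).eq]
      _ = _ := by group)
  obtain ⟨y, hy, s, hs, hsN, rfl⟩ := h.exists_conj hu (notMem_of h2 e1)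
  have h4 : y⁻¹ * c * y ∈ N[M] := mul_mem (mul_mem (inv_mem (le_norm_self M hy)) hcN) (le_norm_self M hy)
  have h5 : s * (y⁻¹ * c * y) = y⁻¹ * c * y * s := by
    calc s * (y⁻¹ * c * y) = y⁻¹ * (y * s * y⁻¹ * c) * y := by group
      _ = _ := by rw [← h3]; group
  have h6 := h.inverts_C hs hsN (h.mem_C hs hsN h4 (by rwa [mul_assoc s⁻¹, ← h5, inv_mul_cancel_left])) h4
  rw [h5, mul_inv_cancel_right, eq_inv_iff_mul_eq_one] at h6
  have h7 : c * c = 1 := by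
    calc c * c = y * (y⁻¹ * c * y * (y⁻¹ * c * y)) * y⁻¹ := by group
      _ = 1 := by rw [h6]; group
  by_contra h8
  exact h1 (h.eq_one_of_comm h7 h8 hx e)

omit [Finite G] h in
theorem fix_iff : g • ((t : G) : G ⧸ N[M]) = (t : G) ↔ t⁻¹ * g * t ∈ N[M] := smul_mk_eq_iff _ _ _

/-- the Zassenhaus case -/
theorem zass (ht : t ∈ C1[z]) (hN : t ∉ N[M]) (h2 : ∀ s ∈ C1[z], s ∉ N[M] → t * s ∈ N[M]) :
    ∃ (F : Type) (_ : Field F) (_ : Fintype F) (p : ℕ) (_ : Fact p.Prime) (_ : CharP F p),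
      Fintype.card F = Nat.card M ∧ IsElementaryAbelian p M ∧
      (Nonempty (G ≃* (GL (Fin 2) F ⧸ Subgroup.center (GL (Fin 2) F))) ∨
        (Fintype.card F % 4 = 1 ∧ Nonempty (G ≃* Matrix.ProjectiveSpecialLinearGroup (Fin 2) F))) := by
  have tt := h.sq_of_cent ht hN
  have ti := inv_eq_of_mul_eq_one_right tt
  set α : G ⧸ N[M] := ((1 : G) : G ⧸ N[M]) with hα
  set β : G ⧸ N[M] := ((t : G) : G ⧸ N[M]) with hβ
  have sα : ∀ g : G, g • α = α ↔ g ∈ N[M] := smul_one_eq_iff _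
  have hab : α ≠ β := fun e => hN (by simpa using QuotientGroup.eq.1 e)
  have pt : ∀ w : G ⧸ N[M], w ≠ α → ∃ x ∈ M, x • β = w := fun w hw => by
    induction w using QuotientGroup.induction_on with
    | H g =>
    obtain ⟨a, ha, s, hs, hsN, b, hb, rfl⟩ := h.exists_dc (g := g) fun e => hw (QuotientGroup.eq.2 (by simpa using e))
    refine ⟨a, ha, QuotientGroup.eq.2 ?_⟩
    simpa [mul_assoc, ti] using mul_mem (h2 s hs hsN) (le_norm_self M hb)
  have tr : ∀ y w : G ⧸ N[M], y ≠ α → w ≠ α → ∃ u ∈ M, u • y = w := fun y w hy hw => by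
    obtain ⟨a, ha, rfl⟩ := pt y hy
    obtain ⟨b, hb, rfl⟩ := pt w hw
    exact ⟨b * a⁻¹, mul_mem hb (inv_mem ha), by rw [mul_smul, inv_smul_smul]⟩
  have fr : ∀ u ∈ M, ∀ w : G ⧸ N[M], w ≠ α → u • w = w → u = 1 := fun u hu w hw e => by
    induction w using QuotientGroup.induction_on with
    | H g => exact h.semireg hu (fun e => hw (QuotientGroup.eq.2 (by simpa using e))) (fix_iff.1 e)
  have tr2 : ∀ {a b : G ⧸ N[M]}, a ≠ b → ∃ g : G, g • α = a ∧ g • β = b := fun {a b} hne => by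
    obtain ⟨g, rfl⟩ := exists_smul_eq G α a
    obtain ⟨x, hx, e⟩ := pt (g⁻¹ • b) fun e => hne (inv_smul_eq_iff.1 e).symm
    exact ⟨g * x, by rw [mul_smul, (sα x).2 (le_norm_self M hx)], by rw [mul_smul, e, smul_inv_smul]⟩
  have st : ∀ g, g ∈ stab2 G α β ↔ g ∈ C1[z] ∧ g ∈ N[M] := fun g => by
    rw [mem_stab2, sα, fix_iff]
    refine ⟨fun e => ⟨h.mem_C ht hN e.1 e.2, e.1⟩, fun e => ⟨e.2, ?_⟩⟩
    rw [ti, ← mul_inv_eq_iff_eq_mul.1 (show t * g * t * t⁻¹ = t * g by group), ← ti, ti]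
    have := h.inverts_C ht hN e.1 e.2
    rw [ti] at this
    exact this ▸ inv_mem e.2
  have hZ : IsZ G (G ⧸ N[M]) := ⟨fun hab hcd => by
      obtain ⟨g, rfl, rfl⟩ := tr2 hab
      obtain ⟨k, rfl, rfl⟩ := tr2 hcd
      exact ⟨k * g⁻¹, by rw [mul_smul, inv_smul_smul], by rw [mul_smul, inv_smul_smul]⟩,
    fun {g a b c} hab' hbc hac ha hb hc => by
      obtain ⟨k, rfl, rfl⟩ := tr2 hab'
      obtain ⟨x, hx, e⟩ := pt (k⁻¹ • c) fun e => hac (inv_smul_eq_iff.1 e).symm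
      have h3 := (st (k⁻¹ * g * k)).1 (mem_stab2.2 ⟨by rw [mul_smul, mul_smul, ha, inv_smul_smul],
        by rw [mul_smul, mul_smul, hb, inv_smul_smul]⟩)
      have h4 : (k⁻¹ * g * k) • x • β = x • β := by rw [e, mul_smul, smul_inv_smul, mul_smul, hc]
      have h5 := fr _ (mul_mem (inv_mem hx) (conj_mem_of_norm h3.2 hx)) β hab.symm (by
        rw [mul_smul, mul_smul, mul_smul, inv_smul_eq_iff.2 (mem_stab2.1 ((st _).2 h3)).2.symm, h4, inv_smul_smul])
      have h6 := h.eq_one_of_comm_C h3.1 h3.2 hx (fun e1 => hbc (by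
        rw [e1, one_smul] at e; rw [e, smul_inv_smul])) (mul_inv_eq_iff_eq_mul.1 (inv_mul_eq_one.1 h5).symm)
      calc g = k * (k⁻¹ * g * k) * k⁻¹ := by group
        _ = 1 := by rw [h6]; group,
    by
      obtain ⟨x, hx, h1⟩ := h.exists_ne
      exact ⟨α, β, x • β, hab, fun e => h1 (fr x hx β hab.symm e.symm),
        fun e => hab (smul_left_cancel x (((sα x).2 (le_norm_self M hx)).trans e))⟩⟩
  have hK : IsKer α M := hZ.isKer_of_trans (fun x hx => (sα x).2 (le_norm_self M hx)) fr tr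
  have hev : Even (Nat.card (stab2 G α β)) :=
    (even_card_iff _).2 ⟨z, (st z).2 ⟨mem_c1_self z, h.zN⟩, inv_of_mul_self h.zz h.z1⟩
  have hle := hZ.card_le_of_even hab hev
  have hc := hK.card hZ
  have h3 := hZ.three_le_card
  obtain ⟨p, f, hp, hMp, hpf⟩ := hK.exists_prime_of_large hZ hab.symm hle
  have hinv : ∀ y ∈ stab2 G α β, t * y * t⁻¹ = y⁻¹ := fun y hy => h.inverts_C ht hN ((st y).1 hy).1 ((st y).1 hy).2
  have fin : ∀ (K : Type) [Field K] [Fintype K], Fintype.card K + 1 = Nat.card (G ⧸ N[M]) →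
      ∃ (_ : Fact p.Prime) (_ : CharP K p), Fintype.card K = Nat.card M ∧ IsElementaryAbelian p M := fun K _ _ e => by
    have := Fact.mk hp
    exact ⟨this, charP_of_card_eq_prime_pow (f := f) (by omega), by omega,
      abelian_iff_comm.2 fun _ hx _ hy => h.comm hx hy, hMp⟩
  obtain ⟨k, hk⟩ := hZ.card_stab2_dvd hab
  have hpos : 0 < Nat.card (stab2 G α β) := Nat.card_pos
  have hk2 : k = 1 ∨ k = 2 := by
    have : k ≤ 2 := Nat.le_of_mul_le_mul_left (by omega) hpos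
    interval_cases k <;> omega
  rcases hk2 with rfl | rfl
  · obtain ⟨K, _, _, e1, e2⟩ := (hZ.isSharp3_of_card hab (by omega)).pgl2_of_comm hab
      fun _ hx _ hy => comm_of_inverts hinv hx hy
    obtain ⟨_, _, a1, a2⟩ := fin K e1
    exact ⟨K, _, _, p, inferInstance, inferInstance, a1, a2, .inl e2⟩
  · obtain ⟨K, _, _, e1, -, e2⟩ := hZ.psl2_of_inverts hab (by omega) (s₀ := t) (by simp [hα, hβ])
      (by simp [hα, hβ, tt]) hinv
    obtain ⟨_, _, a1, a2⟩ := fin K e1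
    obtain ⟨r, hr⟩ := hev
    exact ⟨K, _, _, p, inferInstance, inferInstance, a1, a2, .inr ⟨by omega, e2⟩⟩

end LTC

end CL.Loc
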