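/-
Bender's count of involutions in the cosets of a TI-subgroup: the case of an elementary abelian centraliser.
-/
import Cfsg.Agent.Loc.LargeTI
import Cfsg.Agent.Inv.IsoP3
import Cfsg.Agent.Cls.SL2Redund
import Cfsg.Agent.Grp.FrobPartition

set_option autoImplicit false

open Cfsg CL.Odd CL.Inv.SE Subgroup
open scoped Pointwise

namespace CL.Loc

variable {G : Type*} [Group G]

theorem ncard_conjugates (d : G) : {g | IsConj d g}.ncard * Nat.card C1[d] = Nat.card G := by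
  have h := MulAction.index_stabilizer (ConjAct G) d
  rw [ConjAct.stabilizer_eq_centralizer, ConjAct.orbit_eq_carrier_conjClasses] at h
  have e : (ConjClasses.mk d).carrier = {g | IsConj d g} := by
    ext x; rw [ConjClasses.mem_carrier_iff_mk_eq, ConjClasses.mk_eq_mk_iff_isConj, isConj_comm]; rfl
  rw [e] at h
  rw [← h]
  exact index_mul_card _

theorem ncard_sub (H : Subgroup G) : (H : Set G).ncard = Nat.card H := rfl

namespace LTC

variable [Finite G] {M : Subgroup G} {z g t s u v x y a b c : G} (h : LTC M z)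
include h

theorem ncard_out (P : G → Prop) (hP : ∀ x ∈ M, ∀ u, P u → P (x * u * x⁻¹)) :
    {u | u * u = 1 ∧ u ∉ N[M] ∧ P u}.ncard = Nat.card M * {t | t ∈ C1[z] ∧ t ∉ N[M] ∧ P t}.ncard := by
  rw [← ncard_sub, ← Set.ncard_prod]
  refine (Set.BijOn.ncard_eq (f := fun p : G × G => p.1 * p.2 * p.1⁻¹) ⟨?_, ?_, ?_⟩).symm
  · rintro ⟨x, t⟩ ⟨hx, ht, hN, hp⟩
    refine ⟨CL.Inv.conj_mul_self (h.sq_of_cent ht hN) x, fun e => hN ?_, hP x hx t hp⟩
    simpa [mul_assoc] using mul_mem (mul_mem (inv_mem (le_norm_self M hx)) e) (le_norm_self M hx)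
  · rintro ⟨x, t⟩ ⟨hx, ht, hN, -⟩ ⟨y, s⟩ ⟨hy, hs, -, -⟩ e
    have hxy := mul_mem (inv_mem hy) hx
    obtain ⟨e1, -, e2⟩ := h.uniq hxy hxy ht hs hN (by
      calc y⁻¹ * x * t = y⁻¹ * (x * t * x⁻¹) * x := by group
        _ = _ := by rw [show x * t * x⁻¹ = y * s * y⁻¹ from e]; group)
    exact Prod.ext (inv_mul_eq_one.1 e1).symm e2
  · rintro u ⟨hu, hN, hp⟩
    obtain ⟨x, hx, t, ht, htN, rfl⟩ := h.exists_conj hu hN
    exact ⟨(x, t), ⟨hx, ht, htN, by simpa [mul_assoc] using hP _ (inv_mem hx) _ hp⟩, rfl⟩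

theorem ncard_compl :
    (N[M] : Set G)ᶜ.ncard = Nat.card M * ({t | t ∈ C1[z] ∧ t ∉ N[M]}.ncard * Nat.card M) := by
  rw [← ncard_sub, ← Set.ncard_prod, ← Set.ncard_prod]
  refine (Set.BijOn.ncard_eq (f := fun p : G × G × G => p.1 * p.2.1 * p.2.2) ⟨?_, ?_, ?_⟩).symm
  · rintro ⟨a, t, b⟩ ⟨ha, ⟨-, hN⟩, hb⟩ e
    exact hN ((mul_mem_cancel_left (le_norm_self M ha)).1 ((mul_mem_cancel_right (le_norm_self M hb)).1 e))
  · rintro ⟨a, t, b⟩ ⟨ha, ⟨ht, hN⟩, hb⟩ ⟨c, s, d⟩ ⟨hc, ⟨hs, -⟩, hd⟩ e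
    obtain ⟨e1, e2, e3⟩ := h.uniq (mul_mem (inv_mem hc) ha) (mul_mem hd (inv_mem hb)) ht hs hN (by
      calc c⁻¹ * a * t = c⁻¹ * (a * t * b) * b⁻¹ := by group
        _ = _ := by rw [show a * t * b = c * s * d from e]; group)
    exact Prod.ext (inv_mul_eq_one.1 e1).symm (Prod.ext e3 (mul_inv_eq_one.1 e2).symm)
  · intro g hg
    obtain ⟨a, ha, t, ht, hN, b, hb, rfl⟩ := h.exists_dc hg
    exact ⟨(a, t, b), ⟨ha, ⟨ht, hN⟩, hb⟩, rfl⟩

theorem isConj_zx (hx : x ∈ M) : IsConj z (z * x) := by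
  obtain ⟨y, -, e⟩ := h.exists_conj_zx hx
  exact isConj_iff.2 ⟨y, e⟩

theorem isConj_of_mem (hu : u * u = 1) (h1 : u ≠ 1) (hN : u ∈ N[M]) : IsConj z u := by
  obtain ⟨x, hx, rfl⟩ := h.exists_zx hu h1 hN
  exact h.isConj_zx hx

omit [Finite G] in
theorem sq_of_isConj (e : IsConj z u) : u * u = 1 := by
  obtain ⟨k, rfl⟩ := isConj_iff.1 e
  exact CL.Inv.conj_mul_self h.zz k

omit [Finite G] in
theorem ne_of_isConj (e : IsConj z u) : u ≠ 1 := fun h1 => h.z1 (by simpa [h1] using e)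

theorem ncard_class : {u | IsConj z u}.ncard =
    Nat.card M * (1 + {t | t ∈ C1[z] ∧ t ∉ N[M] ∧ IsConj z t}.ncard) := by
  rw [mul_add, mul_one, ← h.ncard_out _ fun x _ u e => e.trans (isConj_iff.2 ⟨x, rfl⟩), ← ncard_sub,
    ← Set.ncard_image_of_injective (M : Set G) (mul_right_injective z), ← Set.ncard_union_eq]
  · congr 1
    ext u
    refine ⟨fun e => ?_, ?_⟩
    · by_cases hN : u ∈ N[M]
      · obtain ⟨x, hx, rfl⟩ := h.exists_zx (h.sq_of_isConj e) (h.ne_of_isConj e) hN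
        exact .inl ⟨x, hx, rfl⟩
      · exact .inr ⟨h.sq_of_isConj e, hN, e⟩
    · rintro (⟨x, hx, rfl⟩ | e)
      exacts [h.isConj_zx hx, e.2.2]
  · rw [Set.disjoint_left]
    rintro _ ⟨x, hx, rfl⟩ e
    exact e.2.1 (mul_mem h.zN (le_norm_self M hx))

end LTC

/-- the stabiliser of two points has order two -/
structure LTE (M : Subgroup G) (z : G) : Prop extends LTC M z where
  cc : ∀ c ∈ C1[z], c ∈ N[M] → c = 1 ∨ c = z
  big : ∃ t ∈ C1[z], ∃ s ∈ C1[z], t ∉ N[M] ∧ s ∉ N[M] ∧ t * s ∉ N[M]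

theorem LTC.lte [Finite G] {M : Subgroup G} {z t s : G} (h : LTC M z) (ht : t ∈ C1[z]) (hs : s ∈ C1[z])
    (htN : t ∉ N[M]) (hsN : s ∉ N[M]) (e : t * s ∉ N[M]) : LTE M z := by
  refine ⟨h, fun c hc hN => ?_, t, ht, s, hs, htN, hsN, e⟩
  by_cases h1 : c = 1
  · exact .inl h1
  have h2 := h.inverts_C (mul_mem ht hs) e hc hN
  rw [show t * s * c * (t * s)⁻¹ = t * (s * c * s⁻¹) * t⁻¹ by group, h.inverts_C hs hsN hc hN,
    h.inverts_C ht htN (inv_mem hc) (inv_mem hN), inv_inv, eq_inv_iff_mul_eq_one] at h2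
  obtain ⟨x, hx, rfl⟩ := h.exists_zx h2 h1 hN
  rw [h.eq_one_of_comm h.zz h.z1 hx (mul_left_cancel (a := z) (by rw [← mem_c1.1 hc, mul_assoc])), mul_one]
  exact .inr rfl

namespace LTE

variable [Finite G] {M : Subgroup G} {z g t s u v x y a b c : G} (h : LTE M z)
include h

omit [Finite G] in
theorem sq (ht : t ∈ C1[z]) : t * t = 1 := by
  by_cases hN : t ∈ N[M]
  · rcases h.cc t ht hN with rfl | rfl
    exacts [one_mul 1, h.zz]
  · exact h.sq_of_cent ht hN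

omit [Finite G] in
theorem commH (ht : t ∈ C1[z]) (hs : s ∈ C1[z]) : t * s = s * t := by
  rw [← inv_eq_of_mul_eq_one_right (h.sq (mul_mem ht hs)), mul_inv_rev, inv_eq_of_mul_eq_one_right (h.sq ht),
    inv_eq_of_mul_eq_one_right (h.sq hs)]

theorem mem_N (hg : g ∈ N[M]) : g ∈ M ∨ ∃ x ∈ M, z * x = g := by
  obtain ⟨x, hx, c, hc, e, rfl⟩ := h.fac g hg
  rcases h.cc c (mem_c1.2 e) hc with rfl | rfl
  · exact .inl (by simpa using hx)
  · exact .inr ⟨x⁻¹, inv_mem hx, (h.mul_z hx).symm⟩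

theorem card_N : Nat.card N[M] = 2 * Nat.card M := by
  rw [two_mul, ← ncard_sub, ← ncard_sub]
  nth_rewrite 2 [← Set.ncard_image_of_injective (M : Set G) (mul_right_injective z)]
  rw [← Set.ncard_union_eq]
  · congr 1
    ext g
    refine ⟨h.mem_N, ?_⟩
    rintro (e | ⟨x, hx, rfl⟩)
    exacts [le_norm_self M e, mul_mem h.zN (le_norm_self M hx)]
  · rw [Set.disjoint_left]
    rintro _ e ⟨x, hx, rfl⟩
    exact h.z_notMem ((mul_mem_cancel_right hx).1 e)

theorem card_H : Nat.card C1[z] = {t | t ∈ C1[z] ∧ t ∉ N[M]}.ncard + 2 := by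
  have e : (C1[z] : Set G) = insert 1 (insert z {t | t ∈ C1[z] ∧ t ∉ N[M]}) := by
    ext t
    refine ⟨fun ht => ?_, ?_⟩
    · by_cases hN : t ∈ N[M]
      · exact (h.cc t ht hN).imp_right .inl
      · exact .inr (.inr ⟨ht, hN⟩)
    · rintro (rfl | rfl | e)
      exacts [one_mem C1[z], mem_c1_self _, e.1]
  rw [← ncard_sub, e, Set.ncard_insert_of_notMem, Set.ncard_insert_of_notMem fun e => e.2 h.zN]
  rintro (e | e)
  exacts [h.z1 e.symm, e.2 (one_mem _)]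

theorem exists_pow : ∃ d, 1 < d ∧ Nat.card C1[z] = 2 * 2 ^ d := by
  have := Fact.mk Nat.prime_two
  obtain ⟨k, hk⟩ := IsPGroup.iff_card.1 (show IsPGroup 2 C1[z] from fun t =>
    ⟨1, Subtype.ext (by simpa [pow_two] using h.sq t.2)⟩)
  obtain ⟨t, ht, s, hs, htN, hsN, e⟩ := h.big
  have h1 : ({t, s, t * s} : Set G).ncard ≤ {t | t ∈ C1[z] ∧ t ∉ N[M]}.ncard := Set.ncard_le_ncard (by
    rintro _ (rfl | rfl | rfl)
    exacts [⟨ht, htN⟩, ⟨hs, hsN⟩, ⟨mul_mem ht hs, e⟩])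
  rw [Set.ncard_eq_three.2 ⟨t, s, t * s, fun e1 => e (by rw [e1, h.sq hs]; exact one_mem _),
    fun e1 => hsN (by rw [left_eq_mul.1 e1]; exact one_mem _),
    fun e1 => htN (by rw [right_eq_mul.1 e1]; exact one_mem _), rfl⟩] at h1
  have h2 := h.card_H
  have h3 : 2 < k := by
    by_contra! hle
    have := Nat.pow_le_pow_right two_pos hle
    omega
  exact ⟨k - 1, by omega, by rw [hk, ← pow_succ', Nat.sub_add_cancel (by omega)]⟩

theorem card_G : Nat.card G = 2 * Nat.card M + Nat.card M * ((Nat.card C1[z] - 2) * Nat.card M) := by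
  rw [← Set.ncard_add_ncard_compl (N[M] : Set G), ncard_sub, h.card_N, h.ncard_compl, h.card_H, Nat.add_sub_cancel]

/-- the two possible values of `|M|` -/
theorem cases {f : ℕ} (hf : Nat.card C1[z] = 2 * f) (h1 : 1 < f) :
    (Nat.card M = 2 * f + 1 ∧ ∀ t ∈ C1[z], t ∉ N[M] → IsConj z t) ∨
      (Nat.card M = f + 1 ∧ {t | t ∈ C1[z] ∧ t ∉ N[M] ∧ IsConj z t}.ncard + 1 = f) := by
  have e := ncard_conjugates z
  have hm : 1 < Nat.card M := (one_lt_card_iff_ne_bot M).2 h.ne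
  have hT := h.card_H
  have hsub : {t | t ∈ C1[z] ∧ t ∉ N[M] ∧ IsConj z t} ⊆ {t | t ∈ C1[z] ∧ t ∉ N[M]} := fun t e => ⟨e.1, e.2.1⟩
  have hle := Set.ncard_le_ncard hsub
  rw [h.ncard_class, h.card_G, hf] at e
  set y := {t | t ∈ C1[z] ∧ t ∉ N[M] ∧ IsConj z t}.ncard
  obtain ⟨f, rfl⟩ : ∃ g, f = g + 1 := ⟨f - 1, by omega⟩
  obtain ⟨m, hm'⟩ : ∃ m, Nat.card M = m + 1 := ⟨Nat.card M - 1, by omega⟩
  rw [hm', show 2 * (f + 1) - 2 = 2 * f by omega] at e
  have e1 : (1 + y) * (f + 1) = 1 + f * (m + 1) := by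
    refine Nat.eq_of_mul_eq_mul_left (show 0 < 2 * (m + 1) by omega) ?_
    linear_combination e
  obtain ⟨j, hj⟩ : f + 1 ∣ m := (Nat.dvd_add_right (dvd_mul_right (f + 1) (1 + y))).1 ⟨1 + m, by
    linear_combination e1⟩
  have e2 : y = f * j := by
    refine Nat.eq_of_mul_eq_mul_left (show 0 < f + 1 by omega) ?_
    rw [hj] at e1
    have : (f + 1) + (f + 1) * y = (f + 1) + (f + 1) * (f * j) := by linear_combination e1
    omega
  have hj2 : j ≤ 2 := Nat.le_of_mul_le_mul_left (show f * j ≤ f * 2 by omega) (by omega)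
  interval_cases j
  · omega
  · exact .inr ⟨by omega, by omega⟩
  · refine .inl ⟨by omega, fun t ht hN => ?_⟩
    exact ((Set.eq_of_subset_of_ncard_le hsub (by omega)).ge ⟨ht, hN⟩).2.2

/-- one class of involutions: `PSL₂(2 ^ e)` -/
theorem psl {d : ℕ} (hd : 1 < d) (hf : Nat.card C1[z] = 2 * 2 ^ d) (hm : Nat.card M = 2 * 2 ^ d + 1)
    (hc : ∀ t ∈ C1[z], t ∉ N[M] → IsConj z t) :
    ∃ (F : Type) (_ : Field F) (_ : Fintype F) (e : ℕ), 1 < e ∧ Fintype.card F = 2 ^ e ∧ IsCyclic M ∧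
      Nat.card M = 2 ^ e + 1 ∧ Nonempty (G ≃* Matrix.ProjectiveSpecialLinearGroup (Fin 2) F) := by
  have := Fact.mk Nat.prime_two
  have : Fintype (GaloisField 2 (d + 1)) := Fintype.ofFinite _
  have hF : Fintype.card (GaloisField 2 (d + 1)) = 2 ^ (d + 1) := by
    rw [Fintype.card_eq_nat_card, GaloisField.card _ _ (by omega)]
  have hI : CL.Inv.IsoP 2 G := fun g hg => by
    have h2 : orderOf (g ^ (orderOf g / 2)) = 2 := orderOf_pow_orderOf_div (orderOf_pos g).ne' hg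
    have hu := mul_self_of_inv h2
    have : IsConj z (g ^ (orderOf g / 2)) := by
      by_cases hN : g ^ (orderOf g / 2) ∈ N[M]
      · exact h.isConj_of_mem hu (ne_one_of_inv h2) hN
      · obtain ⟨x, -, t, ht, htN, e⟩ := h.exists_conj hu hN
        exact (hc t ht htN).trans (isConj_iff.2 ⟨x, e.symm⟩)
    obtain ⟨k, hk⟩ := isConj_iff.1 this
    have h3 := h.sq (t := k⁻¹ * g * k) (mem_c1.2 (by
      calc k⁻¹ * g * k * z = k⁻¹ * (g * (k * z * k⁻¹)) * k := by group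
        _ = k⁻¹ * (k * z * k⁻¹ * g) * k := by rw [hk, ← pow_succ', pow_succ]
        _ = _ := by group))
    calc g ^ 2 = k * (k⁻¹ * g * k * (k⁻¹ * g * k)) * k⁻¹ := by rw [pow_two]; group
      _ = 1 := by rw [h3]; group
  obtain ⟨e⟩ := hI.psl_even hF (by
    rw [h.card_G, hf, hm, hF, pow_succ']
    obtain ⟨q, hq⟩ : ∃ q, 2 ^ d = q + 1 := ⟨2 ^ d - 1, by have := Nat.two_pow_pos d; omega⟩
    rw [hq, show 2 * (q + 1) - 2 = 2 * q by omega, show (2 * (q + 1)) ^ 2 - 1 = 4 * q ^ 2 + 8 * q + 3 from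
      Nat.sub_eq_of_eq_add (by ring)]
    ring)
  refine ⟨_, _, this, d + 1, by omega, hF, CL.SL2.isCyclic_of_odd_pgl 2
    (Matrix.ProjectiveSpecialLinearGroup.toPGL.comp (e.toMonoidHom.comp M.subtype))
    (Matrix.ProjectiveSpecialLinearGroup.toPGL_injective.comp (e.injective.comp M.subtype_injective))
    (Nat.two_dvd_ne_zero.2 (Nat.odd_iff.1 h.odd_card)) h.odd_card, by rw [hm, pow_succ'], ⟨e⟩⟩

/-- involutions not conjugate to `z` normalise `C(z)` -/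
theorem mem_norm_H {f : ℕ} (hf : Nat.card C1[z] = 2 * f) (hm : Nat.card M = f + 1)
    (hy : {t | t ∈ C1[z] ∧ t ∉ N[M] ∧ IsConj z t}.ncard + 1 = f) (hu : u * u = 1) (h1 : u ≠ 1) (hz : ¬ IsConj z u) :
    u ∈ N[C1[z]] := by
  have key : ∀ w, IsConj z w → w ∈ C1[z] ∨ ∃ q ∈ C1[z], ∃ x ∈ M, x ≠ 1 ∧ q * (z * x) * q⁻¹ = w := by
    set C : Subgroup C1[z] := (N[M]).subgroupOf C1[z]
    set S : Set G := (fun p : (C1[z] ⧸ C) × G => (p.1.out : G) * (z * p.2) * (p.1.out : G)⁻¹) ''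
      (Set.univ ×ˢ ((M : Set G) \ {1}))
    have hC : Nat.card C = 2 := by
      rw [Nat.card_eq_two_iff' 1]
      refine ⟨⟨⟨z, mem_c1_self z⟩, h.zN⟩, fun e => h.z1 (by simpa [Subtype.ext_iff] using e), fun c hc => ?_⟩
      exact Subtype.ext (Subtype.ext ((h.cc _ c.1.2 c.2).resolve_left fun e => hc (Subtype.ext (Subtype.ext e))))
    have hS : S.ncard = f * f := by
      rw [Set.InjOn.ncard_image, Set.ncard_prod, Set.ncard_univ, Set.ncard_sdiff_singleton_of_mem (one_mem M),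
        ncard_sub, hm, ← index_eq_card, Nat.add_sub_cancel]
      · have := C.index_mul_card
        rw [hC, hf] at this
        rw [show C.index = f by omega]
      rintro ⟨q, x⟩ ⟨-, hx, hx1⟩ ⟨r, y⟩ ⟨-, hy, -⟩ e
      have e1 : (r.out⁻¹ * q.out : C1[z]) * x * ((r.out⁻¹ * q.out : C1[z]) : G)⁻¹ = y := by
        refine mul_left_cancel (a := z) ?_
        rw [← mul_assoc, ← mul_assoc, ← mem_c1.1 (r.out⁻¹ * q.out).2]
        calc _ = (r.out : G)⁻¹ * (q.out * (z * x) * (q.out : G)⁻¹) * r.out := by push_cast; group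
          _ = _ := by rw [show (q.out : G) * (z * x) * (q.out : G)⁻¹ = r.out * (z * y) * (r.out : G)⁻¹ from e]; group
      have e2 : r = q := by
        rw [← r.out_eq, ← q.out_eq]
        exact QuotientGroup.eq.2 (h.ti x hx hx1 _ (e1 ▸ hy))
      subst e2
      exact Prod.ext rfl (by simpa using e1)
    have hsub : insert z {t | t ∈ C1[z] ∧ t ∉ N[M] ∧ IsConj z t} ∪ S ⊆ {w | IsConj z w} := by
      rintro _ ((rfl | e) | ⟨⟨q, x⟩, ⟨-, hx, -⟩, rfl⟩)
      exacts [IsConj.refl _, e.2.2, (h.isConj_zx hx).trans (isConj_iff.2 ⟨_, rfl⟩)]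
    have hdis : Disjoint (insert z {t | t ∈ C1[z] ∧ t ∉ N[M] ∧ IsConj z t}) S := by
      rw [Set.disjoint_left]
      rintro _ e ⟨⟨q, x⟩, ⟨-, hx, hx1⟩, rfl⟩
      have e1 : (q.out : G) * (z * x) * (q.out : G)⁻¹ ∈ C1[z] := e.elim (fun e => by
        rw [show (q.out : G) * (z * x) * (q.out : G)⁻¹ = z from e]; exact mem_c1_self z) fun e => e.1
      rw [mul_mem_cancel_right (inv_mem q.out.2), mul_mem_cancel_left q.out.2,
        mul_mem_cancel_left (mem_c1_self z)] at e1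
      exact hx1 (h.eq_one_of_comm h.zz h.z1 hx (mem_c1.1 e1).symm)
    intro w hw
    rcases (Set.eq_of_subset_of_ncard_le hsub (by
      rw [Set.ncard_union_eq hdis, hS, Set.ncard_insert_of_notMem fun e => e.2.1 h.zN, hy, h.ncard_class, hm,
        add_comm 1, hy]
      exact le_of_eq (by ring))).ge hw with (rfl | e) | ⟨⟨q, x⟩, ⟨-, hx, hx1⟩, rfl⟩
    exacts [.inl (mem_c1_self _), .inl e.1, .inr ⟨_, q.out.2, x, hx, hx1, rfl⟩]
  have ui := inv_eq_of_mul_eq_one_right hu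
  rcases key (u * z * u⁻¹) (isConj_iff.2 ⟨u, rfl⟩) with e | ⟨q, hq, x, hx, hx1, e⟩
  · have e1 : ∀ t ∈ C1[z], u * t * u⁻¹ ∈ C1[z] := fun t ht => mem_c1.2 (by
      calc u * t * u⁻¹ * z = u * (t * (u * z * u⁻¹)) * u⁻¹ := by rw [ui]; simp [mul_assoc, hu]
        _ = _ := by rw [h.commH ht e, ui]; simp [← mul_assoc, hu])
    exact mem_normalizer_fintype e1
  · exfalso
    set k := q⁻¹ * u * q
    have kk : k * k = 1 := mul_self_of_inv (inv_conj' (inv_of_mul_self hu h1) q)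
    have e1 : x = z * k * (z * k) := by
      have : k * z * k = z * x := by
        calc k * z * k = q⁻¹ * (u * (q * z * q⁻¹) * u) * q := by simp only [k]; group
          _ = _ := by rw [mem_c1_iff_conj.1 hq, ← ui, ui, ← show u * z * u⁻¹ = u * z * u by rw [ui], ← e]; group
      rw [mul_assoc, ← mul_assoc k, this, ← mul_assoc, h.zz, one_mul]
    have e2 : k * x * k⁻¹ = x⁻¹ := by
      rw [e1, inv_eq_of_mul_eq_one_right kk, mul_inv_rev, mul_inv_rev, h.z_inv, inv_eq_of_mul_eq_one_right kk]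
      simp [mul_assoc, kk]
    refine hz ((h.isConj_of_mem kk (fun e3 => h1 ?_) (h.ti x hx hx1 k (e2 ▸ inv_mem hx))).trans
      (isConj_iff.2 ⟨q, by simp only [k]; group⟩))
    calc u = q * k * q⁻¹ := by simp only [k]; group
      _ = 1 := by rw [e3]; group

theorem dihedral (hc : IsCyclic M) : Nonempty (N[M] ≃* DihedralGroup (Nat.card M)) := by
  obtain ⟨r, hr⟩ := cyclic_iff.1 hc
  have hrM : r ∈ M := hr ▸ mem_zpowers r
  obtain ⟨e, -⟩ := CL.Inv.exists_dihedral_mulEquiv h.zz (h.inverts h.zz h.z1 h.zN hrM) (hr ▸ h.z_notMem)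
  have e1 : closure ({z, r} : Set G) = N[M] := by
    have hle : M ≤ closure ({z, r} : Set G) := hr ▸ zpowers_le.2 (subset_closure (by simp))
    refine le_antisymm ((closure_le _).2 ?_) fun g hg => ?_
    · rintro _ (rfl | rfl)
      exacts [h.zN, le_norm_self M hrM]
    · rcases h.mem_N hg with e | ⟨x, hx, rfl⟩
      exacts [hle e, mul_mem (subset_closure (by simp)) (hle hx)]
  rw [← hr, Nat.card_zpowers, hr]
  exact ⟨(e.trans (MulEquiv.subgroupCongr e1)).symm⟩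

/-- two classes of involutions: the affine case -/
theorem affine {f : ℕ} (hf : Nat.card C1[z] = 2 * f) (h1 : 1 < f) (hm : Nat.card M = f + 1)
    (hy : {t | t ∈ C1[z] ∧ t ∉ N[M] ∧ IsConj z t}.ncard + 1 = f) :
    ∃ E : Subgroup G, E.Normal ∧ IsElementaryAbelian 2 E ∧ Nat.card E = f * f ∧ E ⊓ N[M] = ⊥ ∧ E ⊔ N[M] = ⊤ ∧
      Nonempty (N[M] ≃* DihedralGroup (f + 1)) := by
  set E := (N[C1[z]]).normalCore
  set K : Set G := {u | u * u = 1 ∧ u ∉ N[M] ∧ ¬ IsConj z u}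
  have hK : K.ncard + 1 = f * f := by
    have e1 := h.card_H
    have e2 : {t | t ∈ C1[z] ∧ t ∉ N[M]} = {t | t ∈ C1[z] ∧ t ∉ N[M] ∧ IsConj z t} ∪
        {t | t ∈ C1[z] ∧ t ∉ N[M] ∧ ¬ IsConj z t} := by
      ext; simp only [Set.mem_union, Set.mem_ofPred_eq]; tauto
    rw [e2, Set.ncard_union_eq (Set.disjoint_left.2 fun _ a b => b.2.2 a.2.2)] at e1
    rw [h.ncard_out _ fun x _ u e e' => e (e'.trans (isConj_iff.2 ⟨x⁻¹, by group⟩)), hm]
    obtain ⟨g, hg⟩ : ∃ g, f = g + 1 := ⟨f - 1, by omega⟩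
    rw [show {t | t ∈ C1[z] ∧ t ∉ N[M] ∧ ¬ IsConj z t}.ncard = g by omega, hg]
    ring
  have hKE : insert 1 K ⊆ E := by
    rintro u (rfl | ⟨hu, hN, hz⟩)
    · exact one_mem E
    · exact fun g => h.mem_norm_H hf hm hy (CL.Inv.conj_mul_self hu g)
        (fun e => hN (by rw [conj_eq_one_iff.1 e]; exact one_mem _))
        fun e => hz (e.trans (isConj_iff.2 ⟨g⁻¹, by group⟩))
  have hEM : ∀ x ∈ M, x ∈ E → x = 1 := fun x hx hE => h.eq_one_of_sq hx (by
    have e1 := conj_mem_of_norm (normalCore_le _ hE) (mem_c1_self z)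
    rw [h.mul_z hx, mul_assoc, mul_mem_cancel_left (mem_c1_self z), ← mul_inv_rev, inv_mem_iff] at e1
    exact h.eq_one_of_comm h.zz h.z1 (mul_mem hx hx) (mem_c1.1 e1).symm)
  have hEN : E ⊓ N[M] = ⊥ := eq_bot_iff.2 fun g hg => by
    rcases h.mem_N hg.2 with e | ⟨x, hx, rfl⟩
    · exact hEM g e hg.1
    · obtain ⟨y, hy, hy1⟩ := h.exists_ne
      obtain ⟨k, e⟩ := isConj_iff.1 ((h.isConj_zx hx).symm.trans (h.isConj_zx (mul_mem hx hy)))
      have : _ ∈ E := mul_mem (inv_mem hg.1) (Normal.conj_mem inferInstance _ hg.1 k)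
      rw [e, ← mul_assoc z, inv_mul_cancel_left] at this
      exact absurd (hEM y hy this) hy1
  have hG : Nat.card G = f * f * Nat.card N[M] := by
    obtain ⟨g, rfl⟩ : ∃ g, f = g + 1 := ⟨f - 1, by omega⟩
    rw [h.card_G, h.card_N, hf, hm, show 2 * (g + 1) - 2 = 2 * g by omega]
    ring
  have hs : Nat.card ↥(E ⊔ N[M]) = Nat.card E * Nat.card N[M] := by
    have := CL.Grp.card_sup_mul_card_inf_of_normal N[M] E
    rwa [inf_comm, hEN, card_bot, mul_one, sup_comm, mul_comm] at this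
  have hle : Nat.card E ≤ f * f := Nat.le_of_mul_le_mul_right (by
    rw [← hG, ← hs]; exact card_le_card_group _) Nat.card_pos
  have hins : (insert 1 K).ncard = f * f := by
    rw [Set.ncard_insert_of_notMem fun e => e.2.1 (one_mem _), hK]
  have hE := Set.eq_of_subset_of_ncard_le hKE (by rw [hins]; exact hle)
  have hcard : Nat.card E = f * f := by rw [← ncard_sub, ← hE, hins]
  have hsq : ∀ u ∈ E, u * u = 1 := fun u hu => (hE.ge hu).elim (fun e => by simp [e]) fun e => e.1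
  refine ⟨E, inferInstance, ⟨abelian_iff_comm.2 fun a ha b hb => ?_, fun a ha => by rw [pow_two, hsq a ha]⟩, hcard,
    hEN, eq_top_of_card_eq _ (by rw [hs, hcard, hG]), hm ▸ h.dihedral (CL.Grp.isCyclic_of_fpf (K := E)
      (fun e => ?_) le_normalizer_of_normal (fun a ha ha1 => eq_bot_iff.2 fun u hu => ?_)
      (.inl (abelian_iff_comm.2 fun _ hx _ hy => h.comm hx hy)))⟩
  · rw [← inv_eq_of_mul_eq_one_right (hsq _ (mul_mem ha hb)), mul_inv_rev, inv_eq_of_mul_eq_one_right (hsq a ha),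
      inv_eq_of_mul_eq_one_right (hsq b hb)]
  · rw [e, card_bot] at hcard
    nlinarith
  · by_contra hu1
    exact ha1 (h.eq_one_of_comm (hsq u hu.1) hu1 ha (mem_c1.1 hu.2))

end LTE

end CL.Loc
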