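/-
Limits of square-zero additive subgroups of a ring under conjugation by `1 + t β`, `β * β = 0`.
-/
import Cfsg.Agent.Base

set_option autoImplicit false

namespace CL.QOff

theorem card_le_map {A B C : Type*} [AddCommGroup A] [AddCommGroup B] [AddCommGroup C] [Finite A] [Finite B]
    (H : AddSubgroup A) (K : AddSubgroup B) (φ : A × B →+ C) (ψ : A × B → B)
    (h1 : ∀ x ∈ H.prod K, φ x = 0 → ψ x ∈ K) (h2 : ∀ x y, φ x = 0 → φ y = 0 → ψ x = ψ y → x = y) :
    Nat.card H ≤ Nat.card ((H.prod K).map φ) := by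
  have e1 : Nat.card (H.prod K) = Nat.card H * Nat.card K := by
    rw [Nat.card_congr (H.prodEquiv K).toEquiv, Nat.card_prod]
  have e2 := (φ.ker.addSubgroupOf (H.prod K)).card_mul_index
  rw [← AddSubgroup.relIndex, AddSubgroup.relIndex_ker, e1] at e2
  have e3 : Nat.card (φ.ker.addSubgroupOf (H.prod K)) ≤ Nat.card K :=
    Nat.card_le_card_of_injective (fun x => ⟨ψ x.1.1, h1 _ x.1.2 x.2⟩) fun x y e =>
      Subtype.ext (Subtype.ext (h2 _ _ x.2 y.2 (congrArg Subtype.val e)))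
  refine Nat.le_of_mul_le_mul_right ?_ (Nat.card_pos (α := K))
  rw [← e2, mul_comm]
  exact Nat.mul_le_mul_left _ e3

variable {R : Type*} [Ring R] (β : R)

def dl : R →+ R := AddMonoidHom.mulLeft β - AddMonoidHom.mulRight β
def ep : R →+ R := (AddMonoidHom.mulRight β).comp (AddMonoidHom.mulLeft β)

def W1 (S : AddSubgroup R) : AddSubgroup (R × R) :=
  S.comap (AddMonoidHom.fst R R) ⊓ S.comap (AddMonoidHom.snd R R) ⊓
    S.comap ((dl β).comp (AddMonoidHom.snd R R) - (ep β).comp (AddMonoidHom.fst R R)) ⊓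
    S.comap ((ep β).comp (AddMonoidHom.snd R R))

def ph : R × (R × R) →+ R :=
  (AddMonoidHom.snd R R).comp (AddMonoidHom.snd R _) +
    (dl β).comp ((AddMonoidHom.fst R R).comp (AddMonoidHom.snd R _)) - (ep β).comp (AddMonoidHom.fst R _)

/-- the limit of `(1 + t β) S (1 - t β)` for `t → ∞` -/
def lim (S : AddSubgroup R) : AddSubgroup R := (S.prod (W1 β S)).map (ph β)

variable {β} {S T : AddSubgroup R}

theorem mem_W1 {q : R × R} : q ∈ W1 β S ↔
    ((q.1 ∈ S ∧ q.2 ∈ S) ∧ β * q.2 - q.2 * β - β * q.1 * β ∈ S) ∧ β * q.2 * β ∈ S := Iff.rfl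

theorem ph_apply (q : R × (R × R)) : ph β q = q.2.2 + (β * q.2.1 - q.2.1 * β) - β * q.1 * β := rfl

theorem mem_lim {c : R} : c ∈ lim β S ↔ ∃ x ∈ S, ∃ y ∈ S, ∃ z ∈ S, β * z - z * β - β * y * β ∈ S ∧ β * z * β ∈ S ∧
    z + (β * y - y * β) - β * x * β = c :=
  ⟨fun ⟨_, h, e⟩ => ⟨_, h.1, _, h.2.1.1.1, _, h.2.1.1.2, h.2.1.2, h.2.2, e⟩,
    fun ⟨x, hx, y, hy, z, hz, h1, h2, e⟩ => ⟨(x, y, z), ⟨hx, ⟨⟨hy, hz⟩, h1⟩, h2⟩, e⟩⟩

theorem card_lim [Finite R] (hβ : β * β = 0) (S : AddSubgroup R) : Nat.card S ≤ Nat.card (lim β S) := by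
  refine card_le_map S _ _ (fun q => (q.1, q.2.1)) ?_ ?_
  · rintro ⟨x, y, z⟩ ⟨hx, ⟨⟨hy, hz⟩, h1⟩, -⟩ e
    rw [ph_apply] at e
    replace h1 : β * z - z * β - β * y * β ∈ S := h1
    replace hz : z ∈ S := hz
    have e1 : β * y - y * β - β * x * β = -z := by linear_combination (norm := noncomm_ring) e
    have e2 : β * y * β = β * z - z * β - β * y * β := by
      linear_combination (norm := noncomm_ring) -β * e + e * β - hβ * x * β + β * x * hβ + hβ * y + y * hβ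
    exact mem_W1.2 ⟨⟨⟨hx, hy⟩, e1 ▸ neg_mem hz⟩, e2 ▸ h1⟩
  · rintro ⟨x, y, z⟩ ⟨x', y', z'⟩ e e' h
    obtain ⟨rfl, rfl⟩ := Prod.ext_iff.1 h
    rw [ph_apply] at e e'
    have : z = z' := by linear_combination (norm := noncomm_ring) e - e'
    rw [this]

theorem lim_mono (h : S ≤ T) : lim β S ≤ lim β T := fun _ hc => by
  obtain ⟨x, hx, y, hy, z, hz, h1, h2, e⟩ := mem_lim.1 hc
  exact mem_lim.2 ⟨x, h hx, y, h hy, z, h hz, h h1, h h2, e⟩

theorem lim_le (h : S ≤ T) (h1 : ∀ x ∈ S, β * x - x * β ∈ T) (h2 : ∀ x ∈ S, β * x * β ∈ T) : lim β S ≤ T :=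
  fun _ hc => by
  obtain ⟨x, hx, y, hy, z, hz, -, -, rfl⟩ := mem_lim.1 hc
  exact sub_mem (add_mem (h hz) (h1 y hy)) (h2 x hx)

theorem lim_mul (hβ : β * β = 0) (hS : ∀ x ∈ S, ∀ y ∈ S, x * y = 0) : ∀ c ∈ lim β S, ∀ c' ∈ lim β S, c * c' = 0 := by
  intro c hc c' hc'
  obtain ⟨x, hx, y, hy, z, hz, h1, -, rfl⟩ := mem_lim.1 hc
  obtain ⟨x', hx', y', hy', z', hz', h1', -, rfl⟩ := mem_lim.1 hc'
  have a1 := hS _ h1 _ hy'
  have a2 := hS _ h1 _ hx'
  have a3 := hS _ hy _ h1'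
  have a4 := hS _ hx _ h1'
  have b1 := hS _ hz _ hz'
  have b2 := hS _ hz _ hy'
  have b3 := hS _ hz _ hx'
  have b4 := hS _ hy _ hz'
  have b5 := hS _ hy _ hy'
  have b6 := hS _ hx _ hz'
  linear_combination (norm := noncomm_ring) -a1 + a2 * β - a3 - β * a4 + b1 - b2 * β + β * b2 - β * b3 * β + β * b4 -
    b4 * β - β * b5 * β - β * b6 * β - y * hβ * y' + y * hβ * x' * β - β * x * hβ * y' + β * x * hβ * x' * β

/-- if the limit is not higher in the filtration then `S` is invariant -/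
theorem lim_inv [Finite R] {F : ℕ → AddSubgroup R} {n : ℕ} (hF : ∀ k, ∀ x ∈ F k, β * x ∈ F (k + 1) ∧ x * β ∈ F (k + 1))
    (ha : Antitone F) (hn : F n = ⊥) (h0 : S ≤ F 0)
    (hc : ∀ k < n, Nat.card (lim β S ⊓ F k :) ≤ Nat.card (S ⊓ F k :)) :
    ∀ x ∈ S, β * x - x * β ∈ S ∧ β * x * β ∈ S := by
  have step : ∀ k, lim β S ⊓ F (k + 1) ≤ S → ∀ x ∈ S ⊓ F k, β * x - x * β ∈ S ∧ β * x * β ∈ S := fun k ih x hx => by
    have h1 : β * x * β ∈ S := ih ⟨mem_lim.2 ⟨-x, neg_mem hx.1, 0, zero_mem _, 0, zero_mem _, by simp, by simp, by simp⟩,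
      ha (Nat.le_succ _) (hF _ _ (hF k x hx.2).1).2⟩
    exact ⟨ih ⟨mem_lim.2 ⟨0, zero_mem _, x, hx.1, 0, zero_mem _, by simpa using h1, by simp, by simp⟩,
      (F _).sub_mem (hF k x hx.2).1 (hF k x hx.2).2⟩, h1⟩
  have key : ∀ j k, n ≤ k + j → lim β S ⊓ F k ≤ S := fun j => by
    induction j with
    | zero => exact fun k hk => inf_le_right.trans ((ha hk).trans (hn.le.trans bot_le))
    | succ j ih =>
      intro k hk
      rcases Nat.lt_or_ge k n with h | h
      · have h1 : S ⊓ F k ≤ lim β S ⊓ F k := fun x hx => by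
          obtain ⟨h1, h2⟩ := step k (ih _ (by omega)) x hx
          exact ⟨mem_lim.2 ⟨0, zero_mem _, 0, zero_mem _, x, hx.1, by simpa using h1, h2, by simp⟩, hx.2⟩
        exact (AddSubgroup.eq_of_le_of_card_ge h1 (hc k h)).ge.trans inf_le_left
      · exact inf_le_right.trans ((ha h).trans (hn.le.trans bot_le))
  exact fun x hx => step 0 (key n 1 (by omega)) x ⟨hx, h0 hx⟩

theorem card_lim_inf [Finite R] (hβ : β * β = 0) (hT : ∀ x ∈ T, β * x ∈ T ∧ x * β ∈ T) :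
    Nat.card (S ⊓ T :) ≤ Nat.card (lim β S ⊓ T :) :=
  (card_lim hβ _).trans (AddSubgroup.card_le_of_le (le_inf (lim_mono inf_le_left) (lim_le inf_le_right
    (fun x hx => sub_mem (hT x hx.2).1 (hT x hx.2).2) fun x hx => (hT _ (hT x hx.2).1).2)))

variable (M : Type*) [AddCommGroup M] [Module R M]

/-- the vectors killed by `S` -/
def ann (S : AddSubgroup R) : AddSubgroup M where
  carrier := {v | ∀ s ∈ S, s • v = 0}
  zero_mem' s _ := smul_zero s
  add_mem' h h' s hs := by rw [smul_add, h s hs, h' s hs, add_zero]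
  neg_mem' h s hs := by rw [smul_neg, h s hs, neg_zero]

theorem card_ann [Finite M] (hβ : β * β = 0) (S : AddSubgroup R) :
    Nat.card (ann M S) ≤ Nat.card (ann M (lim β S)) := by
  refine (card_le_map (ann M S) (ann M S ⊓ (ann M S).comap (DistribSMul.toAddMonoidHom M β))
    ((DistribSMul.toAddMonoidHom M β).comp (AddMonoidHom.fst M M) + AddMonoidHom.snd M M) (fun q => q.1) ?_ ?_).trans
    (AddSubgroup.card_le_of_le ?_)
  · rintro ⟨v, w⟩ ⟨hv, hw, -⟩ e
    replace e : β • v + w = 0 := e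
    refine ⟨hv, ?_⟩
    show β • v ∈ ann M S
    rw [eq_neg_of_add_eq_zero_left e]
    exact neg_mem hw
  · rintro ⟨v, w⟩ ⟨v', w'⟩ e e' (rfl : v = v')
    replace e : β • v + w = 0 := e
    replace e' : β • v + w' = 0 := e'
    rw [add_left_cancel (e.trans e'.symm)]
  · rintro _ ⟨⟨v, w⟩, ⟨hv, hw, hw'⟩, rfl⟩ c hc
    obtain ⟨x, hx, y, hy, z, hz, h1, -, rfl⟩ := mem_lim.1 hc
    replace hw' : ∀ s ∈ S, s • β • w = 0 := hw'
    show _ • (β • v + w) = 0
    have e : (z + (β * y - y * β) - β * x * β) * β = β * z - (β * z - z * β - β * y * β) := by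
      linear_combination (norm := noncomm_ring) -y * hβ - β * x * hβ
    rw [smul_add, ← mul_smul, e, sub_smul, hv _ h1, mul_smul, hv _ hz, sub_smul, add_smul, sub_smul, mul_smul, mul_smul,
      mul_smul, mul_smul, hw _ hz, hw _ hy, hw' _ hy, hw' _ hx]
    simp

/-- a square-zero element in the sum of three mutually normalising square-zero subgroups -/
theorem one_add_eq {S0 S1 S2 : AddSubgroup R} {m : ℕ} (hm : ∀ x : R, m • (x + x) = x)
    (q0 : ∀ x ∈ S0, ∀ y ∈ S0, x * y = 0) (q1 : ∀ x ∈ S1, ∀ y ∈ S1, x * y = 0) (q2 : ∀ x ∈ S2, ∀ y ∈ S2, x * y = 0)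
    (n01 : ∀ x ∈ S0, ∀ y ∈ S1, x * y - y * x ∈ S0 ⊓ S1) (n02 : ∀ x ∈ S0, ∀ y ∈ S2, x * y - y * x ∈ S0 ⊓ S2)
    (n12 : ∀ x ∈ S1, ∀ y ∈ S2, x * y - y * x ∈ S1 ⊓ S2) {x y z : R} (hx : x ∈ S0) (hy : y ∈ S1) (hz : z ∈ S2)
    (e : (x + y + z) * (x + y + z) = 0) :
    ∃ c ∈ S0, ∃ d ∈ S1, 1 + (x + y + z) = (1 + x) * (1 + y) * (1 + z) * (1 + c) * (1 + d) := by
  have xx := q0 x hx x hx
  have yy := q1 y hy y hy
  have zz := q2 z hz z hz
  have h1 := nsmul_mem (n01 x hx y hy) m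
  have h2 := nsmul_mem (n02 x hx z hz) m
  have h3 := nsmul_mem (n12 y hy z hz) m
  have a1 := q0 x hx _ (n01 x hx y hy).1
  have a2 := q1 y hy _ (n01 x hx y hy).2
  have a3 := q0 x hx _ (n02 x hx z hz).1
  have a4 := q2 z hz _ (n02 x hx z hz).2
  have a5 := q1 y hy _ (n12 y hy z hz).1
  have a6 := q2 z hz _ (n12 y hy z hz).2
  have ec : m • (x * y - y * x) + m • (x * z - z * x) + m • (y * z - z * y) = x * y + x * z + y * z := by
    rw [← smul_add, ← smul_add, ← hm (x * y + x * z + y * z)]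
    congr 1
    linear_combination (norm := noncomm_ring) -e + xx + yy + zz
  generalize m • (x * y - y * x) = c1 at *
  generalize m • (x * z - z * x) = c2 at *
  generalize m • (y * z - z * y) = c3 at *
  have c11 := q0 _ h1.1 _ h1.1
  have c12 := q0 _ h1.1 _ h2.1
  have c13 := q1 _ h1.2 _ h3.1
  have c21 := q0 _ h2.1 _ h1.1
  have c22 := q0 _ h2.1 _ h2.1
  have c23 := q2 _ h2.2 _ h3.2
  have c31 := q1 _ h3.1 _ h1.2
  have c32 := q2 _ h3.2 _ h2.2
  have c33 := q1 _ h3.1 _ h3.1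
  have e1 : (1 + -(c1 + c2)) * (1 + -c3) = 1 - (c1 + c2 + c3) := by
    linear_combination (norm := noncomm_ring) c13 + c23
  have e2 : (1 + (c1 + c2 + c3)) * (1 - (c1 + c2 + c3)) = 1 := by
    linear_combination (norm := noncomm_ring) -c11 - c12 - c13 - c21 - c22 - c23 - c31 - c32 - c33
  have yxy : y * x * y = 0 := by linear_combination (norm := noncomm_ring) a2 + yy * x
  have zxz : z * x * z = 0 := by linear_combination (norm := noncomm_ring) a4 + zz * x
  have zyz : z * y * z = 0 := by linear_combination (norm := noncomm_ring) a6 + zz * y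
  have xyx : x * y * x = 0 := by linear_combination (norm := noncomm_ring) -a1 + xx * y
  have xzx : x * z * x = 0 := by linear_combination (norm := noncomm_ring) -a3 + xx * z
  have yzy : y * z * y = 0 := by linear_combination (norm := noncomm_ring) -a5 + yy * z
  have f1 : x * y * z + y * x * z = 0 := by
    linear_combination (norm := noncomm_ring) e * z - xx * z - yy * z - zz * z - x * zz - y * zz - zxz - zyz
  have f2 : x * z * y + z * x * y = 0 := by
    linear_combination (norm := noncomm_ring) e * y - xx * y - yy * y - zz * y - x * yy - z * yy - yxy - yzy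
  have f3 : x * y * z + x * z * y = 0 := by
    linear_combination (norm := noncomm_ring) x * e - x * xx - x * yy - x * zz - xx * y - xx * z - xyx - xzx
  have e3 : (1 + (x + y + z)) * (1 + (x * y + x * z + y * z)) = (1 + x) * (1 + y) * (1 + z) := by
    linear_combination (norm := noncomm_ring) f1 + f2 - f3 + xx * y + xx * z + yy * z + yxy + zxz + zyz
  refine ⟨-(c1 + c2), neg_mem (add_mem h1.1 h2.1), -c3, neg_mem h3.1, ?_⟩
  rw [mul_assoc _ (1 + -(c1 + c2)), e1, ← e3, ← ec, mul_assoc, e2, mul_one]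

end CL.QOff
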