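/-
A `p`-group of units of a finite ring of odd characteristic `p`: quadratic subgroups can be replaced by quadratic
subgroups that are normal in their normal closure.
-/
import Cfsg.Agent.Loc.QOff1

set_option autoImplicit false

namespace CL.QOff

open Subgroup

variable {R G : Type*} [Ring R] [Group G] (ρ : G →* R)

theorem rho_inv {g : G} (h : (ρ g - 1) * (ρ g - 1) = 0) : ρ g⁻¹ = 1 - (ρ g - 1) := by
  have e : ρ g⁻¹ * ρ g = 1 := by rw [← map_mul, inv_mul_cancel, map_one]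
  linear_combination (norm := noncomm_ring) e * (2 - ρ g) + ρ g⁻¹ * h

/-- the group elements `1 + s` -/
def gs (S : AddSubgroup R) (hS : ∀ x ∈ S, ∀ y ∈ S, x * y = 0) : Subgroup G where
  carrier := {g | ρ g - 1 ∈ S}
  one_mem' := by simp
  mul_mem' {a b} h h' := by
    have e : ρ (a * b) - 1 = (ρ a - 1) + (ρ b - 1) := by
      rw [map_mul]; linear_combination (norm := noncomm_ring) hS _ h _ h'
    exact show _ ∈ S from e ▸ S.add_mem h h'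
  inv_mem' {a} h := by
    show _ ∈ S
    rw [rho_inv ρ (hS _ h _ h), sub_sub_cancel_left]
    exact S.neg_mem h

/-- the ring elements `a - 1` -/
def sg (A : Subgroup G) (hA : ∀ a ∈ A, ∀ b ∈ A, (ρ a - 1) * (ρ b - 1) = 0) : AddSubgroup R where
  carrier := {x | ∃ a ∈ A, ρ a - 1 = x}
  zero_mem' := ⟨1, one_mem _, by simp⟩
  add_mem' := by
    rintro _ _ ⟨a, h, rfl⟩ ⟨b, h', rfl⟩
    exact ⟨a * b, mul_mem h h', by rw [map_mul]; linear_combination (norm := noncomm_ring) hA _ h _ h'⟩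
  neg_mem' := by
    rintro _ ⟨a, h, rfl⟩
    exact ⟨a⁻¹, inv_mem h, by rw [rho_inv ρ (hA _ h _ h), sub_sub_cancel_left]⟩

/-- conjugation -/
def cjr (h : G) : R →+ R := (AddMonoidHom.mulRight (ρ h⁻¹)).comp (AddMonoidHom.mulLeft (ρ h))

theorem cjr_apply (h : G) (x : R) : cjr ρ h x = ρ h * x * ρ h⁻¹ := rfl

theorem cjr_mul (h : G) (x y : R) : cjr ρ h (x * y) = cjr ρ h x * cjr ρ h y := by
  have e : ρ h⁻¹ * ρ h = 1 := by rw [← map_mul, inv_mul_cancel, map_one]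
  simp only [cjr_apply]
  linear_combination (norm := noncomm_ring) -ρ h * x * e * y * ρ h⁻¹

theorem cjr_rho (h g : G) : cjr ρ h (ρ g - 1) = ρ (h * g * h⁻¹) - 1 := by
  rw [cjr_apply, mul_sub, sub_mul, mul_one, ← map_mul, ← map_mul, ← map_mul, mul_inv_cancel, map_one]

theorem cjr_quad {b : G} (h : (ρ b - 1) * (ρ b - 1) = 0) (x : R) :
    cjr ρ b x = x + ((ρ b - 1) * x - x * (ρ b - 1)) - (ρ b - 1) * x * (ρ b - 1) ∧
    cjr ρ b⁻¹ x = x - ((ρ b - 1) * x - x * (ρ b - 1)) - (ρ b - 1) * x * (ρ b - 1) := by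
  simp only [cjr_apply, inv_inv, rho_inv ρ h]
  constructor <;> noncomm_ring

variable {ρ} {m : ℕ} (hm : ∀ x : R, m • (x + x) = x) {S : AddSubgroup R} (hS : ∀ x ∈ S, ∀ y ∈ S, x * y = 0)
  (hG : ∀ x ∈ S, ∃ g, ρ g - 1 = x)
include hm hS hG

theorem lie_of_norm {g : G} (h : (ρ g - 1) * (ρ g - 1) = 0) (hg : g ∈ normalizer (gs ρ S hS : Set G)) {x : R}
    (hx : x ∈ S) : (ρ g - 1) * x - x * (ρ g - 1) ∈ S := by
  obtain ⟨a, rfl⟩ := hG x hx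
  have h1 : cjr ρ g (ρ a - 1) ∈ S := by rw [cjr_rho]; exact (mem_normalizer_iff.1 hg a).1 hx
  have h2 : cjr ρ g⁻¹ (ρ a - 1) ∈ S := by rw [cjr_rho]; exact (mem_normalizer_iff.1 (inv_mem hg) a).1 hx
  have h3 := S.sub_mem h1 h2
  rw [(cjr_quad ρ h _).1, (cjr_quad ρ h _).2, sub_sub_sub_cancel_right, add_sub_sub_cancel] at h3
  exact hm ((ρ g - 1) * (ρ a - 1) - (ρ a - 1) * (ρ g - 1)) ▸ S.nsmul_mem h3 m

/-- the limit lies in the group -/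
theorem lim_grp {b : G} (hb : (ρ b - 1) * (ρ b - 1) = 0)
    (hn : ∀ k ∈ zpowers b, ∀ a ∈ gs ρ S hS, k * a * k⁻¹ ∈ normalizer (gs ρ S hS : Set G)) :
    ∀ c ∈ lim (ρ b - 1) S, ∃ g, ρ g - 1 = c := by
  have q : ∀ h, ∀ x ∈ S.map (cjr ρ h), ∀ y ∈ S.map (cjr ρ h), x * y = 0 := by
    rintro h _ ⟨x, hx, rfl⟩ _ ⟨y, hy, rfl⟩
    rw [← cjr_mul, hS x hx y hy, map_zero]
  have g : ∀ h, ∀ x ∈ S.map (cjr ρ h), ∃ g, ρ g = 1 + x := by
    rintro h _ ⟨x, hx, rfl⟩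
    obtain ⟨a, rfl⟩ := hG x hx
    exact ⟨h * a * h⁻¹, by rw [cjr_rho, add_sub_cancel]⟩
  have n : ∀ h ∈ zpowers b, ∀ k ∈ zpowers b, ∀ x ∈ S.map (cjr ρ h), ∀ y ∈ S.map (cjr ρ k),
      x * y - y * x ∈ S.map (cjr ρ k) := by
    rintro h hh k hk _ ⟨x, hx, rfl⟩ _ ⟨y, hy, rfl⟩
    obtain ⟨a, rfl⟩ := hG x hx
    refine ⟨_, lie_of_norm hm hS hG (by rw [← cjr_rho, ← cjr_mul, hS _ hx _ hx, map_zero])
      (hn _ (mul_mem (inv_mem hk) hh) a hx) hy, ?_⟩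
    rw [map_sub, cjr_mul, cjr_mul, cjr_rho, cjr_rho, show k * (k⁻¹ * h * a * (k⁻¹ * h)⁻¹) * k⁻¹ = h * a * h⁻¹ by group]
  have n' : ∀ h ∈ zpowers b, ∀ k ∈ zpowers b, ∀ x ∈ S.map (cjr ρ h), ∀ y ∈ S.map (cjr ρ k),
      x * y - y * x ∈ S.map (cjr ρ h) ⊓ S.map (cjr ρ k) := fun h hh k hk x hx y hy =>
    ⟨by rw [← neg_sub]; exact (S.map _).neg_mem (n k hk h hh y hy x hx), n h hh k hk x hx y hy⟩
  have m0 : ∀ x ∈ S, x ∈ S.map (cjr ρ 1) := fun x hx => ⟨x, hx, by simp [cjr_apply]⟩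
  intro c hc
  have hT : lim (ρ b - 1) S ≤ S.map (cjr ρ 1) ⊔ S.map (cjr ρ b) ⊔ S.map (cjr ρ b⁻¹) := by
    have m1 : ∀ x ∈ S, cjr ρ b x ∈ S.map (cjr ρ 1) ⊔ S.map (cjr ρ b) ⊔ S.map (cjr ρ b⁻¹) := fun x hx =>
      AddSubgroup.mem_sup_left (AddSubgroup.mem_sup_right ⟨x, hx, rfl⟩)
    have m2 : ∀ x ∈ S, cjr ρ b⁻¹ x ∈ S.map (cjr ρ 1) ⊔ S.map (cjr ρ b) ⊔ S.map (cjr ρ b⁻¹) := fun x hx =>
      AddSubgroup.mem_sup_right ⟨x, hx, rfl⟩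
    have m3 : S ≤ S.map (cjr ρ 1) ⊔ S.map (cjr ρ b) ⊔ S.map (cjr ρ b⁻¹) := fun x hx =>
      AddSubgroup.mem_sup_left (AddSubgroup.mem_sup_left (m0 x hx))
    refine lim_le m3 (fun x hx => ?_) fun x hx => ?_
    · have h3 := sub_mem (m1 x hx) (m2 x hx)
      rw [(cjr_quad ρ hb _).1, (cjr_quad ρ hb _).2, sub_sub_sub_cancel_right, add_sub_sub_cancel] at h3
      exact hm ((ρ b - 1) * x - x * (ρ b - 1)) ▸ nsmul_mem h3 m
    · have h3 := sub_mem (add_mem (m3 hx) (m3 hx)) (add_mem (m1 x hx) (m2 x hx))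
      rw [(cjr_quad ρ hb _).1, (cjr_quad ρ hb _).2, show ∀ d e : R, x + x - (x + d - e + (x - d - e)) = e + e from
        fun d e => by abel] at h3
      exact hm ((ρ b - 1) * x * (ρ b - 1)) ▸ nsmul_mem h3 m
  obtain ⟨_, h1, z, hz, rfl⟩ := AddSubgroup.mem_sup.1 (hT hc)
  obtain ⟨x, hx, y, hy, rfl⟩ := AddSubgroup.mem_sup.1 h1
  have hb1 := mem_zpowers b
  obtain ⟨c, hc', d, hd, e⟩ := one_add_eq hm (q 1) (q b) (q b⁻¹) (n' _ (one_mem _) _ hb1)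
    (n' _ (one_mem _) _ (inv_mem hb1)) (n' _ hb1 _ (inv_mem hb1)) hx hy hz (lim_mul hb hS _ hc _ hc)
  obtain ⟨g1, e1⟩ := g _ x hx
  obtain ⟨g2, e2⟩ := g _ y hy
  obtain ⟨g3, e3⟩ := g _ z hz
  obtain ⟨g4, e4⟩ := g _ c hc'
  obtain ⟨g5, e5⟩ := g _ d hd
  exact ⟨g1 * g2 * g3 * g4 * g5, by simp only [map_mul]; rw [e1, e2, e3, e4, e5, ← e, add_sub_cancel_left]⟩

omit hS hG in
theorem main [Finite R] [Finite G] [Group.IsNilpotent G] (M : Type*) [AddCommGroup M] [Module R M] [Finite M]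
    {F : ℕ → AddSubgroup R} {n : ℕ} (hF : ∀ g k, ∀ x ∈ F k, (ρ g - 1) * x ∈ F (k + 1) ∧ x * (ρ g - 1) ∈ F (k + 1))
    (ha : Antitone F) (hn : F n = ⊥) (h0 : ∀ g, ρ g - 1 ∈ F 0) (S0 : AddSubgroup R)
    (hS0 : ∀ x ∈ S0, ∀ y ∈ S0, x * y = 0) (hG0 : ∀ x ∈ S0, ∃ g, ρ g - 1 = x) :
    ∃ (S : AddSubgroup R) (hS : ∀ x ∈ S, ∀ y ∈ S, x * y = 0), (∀ x ∈ S, ∃ g, ρ g - 1 = x) ∧
      Nat.card S0 ≤ Nat.card S ∧ Nat.card (ann M S0) ≤ Nat.card (ann M S) ∧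
      ∀ h, ∀ a ∈ gs ρ S hS, h * a * h⁻¹ ∈ normalizer (gs ρ S hS : Set G) := by
  obtain ⟨S, ⟨hS, hG, c1, c2⟩, hmax⟩ := Set.exists_max_image {S : AddSubgroup R | (∀ x ∈ S, ∀ y ∈ S, x * y = 0) ∧
    (∀ x ∈ S, ∃ g, ρ g - 1 = x) ∧ Nat.card S0 ≤ Nat.card S ∧ Nat.card (ann M S0) ≤ Nat.card (ann M S)}
    (fun S => ∑ k ∈ Finset.range n, Nat.card (S ⊓ F k :)) (Set.toFinite _) ⟨S0, hS0, hG0, le_rfl, le_rfl⟩
  refine ⟨S, hS, hG, c1, c2, ?_⟩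
  obtain ⟨K, ⟨hAK, hK⟩, hKm⟩ := Set.Finite.exists_maximal (Set.toFinite {K : Subgroup G | gs ρ S hS ≤ K ∧
    ∀ h, ∀ a ∈ gs ρ S hS, h * a * h⁻¹ ∈ K → h * a * h⁻¹ ∈ normalizer (gs ρ S hS : Set G)})
    ⟨_, le_rfl, fun h a _ e => le_normalizer e⟩
  have hN : normalizer (K : Set G) ≤ K := hKm ⟨hAK.trans le_normalizer, fun h a ha' hb => by
    generalize hbe : h * a * h⁻¹ = b at hb
    have b2 : (ρ b - 1) * (ρ b - 1) = 0 := by rw [← hbe, ← cjr_rho, ← cjr_mul, hS _ ha' _ ha', map_zero]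
    have h1 := hmax _ ⟨lim_mul b2 hS, lim_grp hm hS hG b2 fun k hk a ha => hK k a ha
      ((mem_normalizer_iff.1 (zpowers_le.2 hb hk) a).1 (hAK ha)), c1.trans (card_lim b2 S), c2.trans (card_ann M b2 S)⟩
    have h2 : ∀ k, Nat.card (S ⊓ F k :) ≤ Nat.card (lim (ρ b - 1) S ⊓ F k :) := fun k =>
      card_lim_inf b2 fun x hx => ⟨ha (Nat.le_succ k) (hF b k x hx).1, ha (Nat.le_succ k) (hF b k x hx).2⟩
    have h3 := lim_inv (hF b) ha hn (fun x hx => by obtain ⟨g, rfl⟩ := hG x hx; exact h0 g) fun k hk =>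
      ((Finset.sum_eq_sum_iff_of_le fun k _ => h2 k).1 (le_antisymm (Finset.sum_le_sum fun k _ => h2 k) h1) k
        (Finset.mem_range.2 hk)).ge
    refine mem_normalizer_fintype fun x hx => ?_
    show ρ _ - 1 ∈ S
    rw [← cjr_rho, (cjr_quad ρ b2 _).1]
    exact S.sub_mem (S.add_mem hx (h3 _ hx).1) (h3 _ hx).2⟩ le_normalizer
  have hT : K = ⊤ := by
    by_contra e
    exact (Group.normalizerCondition_of_isNilpotent K (lt_top_iff_ne_top.2 e)).not_ge hN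
  exact fun h a ha => hK h a ha (hT ▸ trivial)

end CL.QOff
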