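/-
`p` odd.  If every normal elementary abelian subgroup of the `p`-group `P` has order at most `p²`
and `K` contains every proper characteristic subgroup of `P`, then `|P : K| ≤ p²`.  Hence the
`p`-chief factors of a finite group of `p`-rank at most two have order at most `p²`.
-/
import Cfsg.Agent.Loc.ElemAb
import Cfsg.Agent.Loc.Chief
import Cfsg.Agent.Grp.PGroupSCN
import Cfsg.Agent.Grp.Coprime2

set_option autoImplicit false

open Cfsg Subgroup CL.Grp
open scoped commutatorElement

namespace CL.Loc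

universe u

variable {p : ℕ} [hp : Fact p.Prime]

/-- every normal elementary abelian subgroup has order at most `p²` -/
def NRankTwo (p : ℕ) (P : Type*) [Group P] : Prop :=
  ∀ A : Subgroup P, A.Normal → IsElementaryAbelian p A → Nat.card A ≤ p ^ 2

omit hp in
theorem omegaOne_center_characteristic (p : ℕ) (P : Type*) [Group P] :
    (omegaOne p (center P)).Characteristic :=
  characteristic_iff_map_eq.2 fun e => by
    rw [map_omegaOne_of_injective _ e.injective,
      characteristic_iff_map_eq.1 (centerCharacteristic (G := P)) e]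

omit hp in
theorem mem_omegaOne_center {P : Type*} [Group P] {x : P} :
    x ∈ omegaOne p (center P) ↔ x ∈ center P ∧ x ^ p = 1 :=
  mem_omegaOne_iff (center_le_centralizer _)

/-- The case where `Ω₁(Z₂(P))` is not central. -/
theorem exists_char_index_le_sq {P : Type*} [Group P] [Finite P] (hp2 : p ≠ 2)
    (hr : NRankTwo p P) {w : P} (hw : w ^ p = 1) (hwc : ∀ g : P, ⁅w, g⁆ ∈ center P)
    (hwz : w ∉ center P) :
    ∃ C : Subgroup P, C.Characteristic ∧ C ≠ ⊤ ∧ C.index ≤ p ^ 2 := by
  have hp1 := hp.out.one_lt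
  set Z := omegaOne p (center P) with hZ
  have hZc : Z.Characteristic := omegaOne_center_characteristic p P
  have hZle : Z ≤ center P := omegaOne_le _
  have hZe : IsElementaryAbelian p Z := ea_omegaOne (center_le_centralizer _)
  let W : Subgroup P :=
    { carrier := {x | x ^ p = 1 ∧ ∀ g : P, ⁅x, g⁆ ∈ center P}
      one_mem' := ⟨one_pow _, fun g => by simp [one_mem]⟩
      mul_mem' := by
        rintro a b ⟨ha, ha'⟩ ⟨hb, hb'⟩
        refine ⟨?_, fun g => ?_⟩
        · rw [mul_pow_prime_of_commute_comm hp.out hp2 (commute_of_mem_center (hb' a) a)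
            (commute_of_mem_center (hb' a) b)
            (by rw [← comm_pow_left_of_central (hb' a), hb, commutatorElement_one_left]), ha, hb,
            one_mul]
        · rw [comm_mul_left_of_central (hb' g)]; exact mul_mem (ha' g) (hb' g)
      inv_mem' := by
        rintro a ⟨ha, ha'⟩
        refine ⟨by rw [inv_pow, ha, inv_one], fun g => ?_⟩
        rw [comm_inv_left (commute_of_mem_center (ha' g) a)]; exact inv_mem (ha' g) }
  have hWc : W.Characteristic := characteristic_iff_le_comap.2 fun e x hx => by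
    refine ⟨by rw [← map_pow, hx.1, map_one], fun g => ?_⟩
    obtain ⟨g, rfl⟩ := e.surjective g
    have h := characteristic_iff_le_comap.1 (centerCharacteristic (G := P)) e (hx.2 g)
    rw [mem_comap, map_commutatorElement] at h
    exact h
  have hWZ : ∀ x ∈ W, ∀ g : P, ⁅x, g⁆ ∈ Z := fun x hx g => mem_omegaOne_center.2
    ⟨hx.2 g, by rw [← comm_pow_left_of_central (hx.2 g), hx.1, commutatorElement_one_left]⟩
  have hZW : Z ≤ W := fun z hz => ⟨hZe.2 z hz, fun g => by
    rw [commutatorElement_eq_one_iff_mul_comm.2 (mem_center_iff.1 (hZle hz) g).symm]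
    exact one_mem _⟩
  have hwW : w ∈ W := ⟨hw, hwc⟩
  -- `E = Z ⟨w⟩`
  have hext : ∀ (E : Subgroup P), E.Normal → IsElementaryAbelian p E → Z ≤ E → ∀ x ∈ W, x ∉ E →
      x ∈ centralizer (E : Set P) → (E ⊔ zpowers x).Normal ∧ IsElementaryAbelian p (E ⊔ zpowers x) ∧
        Nat.card ↥(E ⊔ zpowers x) = p * Nat.card E := fun E hE hEe hZE x hx hxE hxc =>
    ⟨normal_sup_zpowers fun g => hZE (hWZ x hx g),
      ea_sup hEe (ea_zpowers hx.1) (le_centralizer_iff.1 ((zpowers_le).2 hxc)),
      card_sup_zpowers_eq_prime_mul E hxE (by rw [hx.1]; exact one_mem _)⟩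
  obtain ⟨hEn, hEe, hEc⟩ := hext Z inferInstance hZe le_rfl w hwW (fun h => hwz (hZle h))
    (fun z hz => (mem_center_iff.1 (hZle hz) w).symm)
  set E := Z ⊔ zpowers w with hE
  have hZp : Nat.card Z ≤ p := by
    have := hr E hEn hEe
    rw [hEc, sq] at this
    exact Nat.le_of_mul_le_mul_left this hp.out.pos
  have hZ1 : p ≤ Nat.card Z := by
    obtain ⟨g, hg⟩ : ∃ g : P, ⁅w, g⁆ ≠ 1 := by
      by_contra h
      push Not at h
      exact hwz (mem_center_iff.2 fun g => (commutatorElement_eq_one_iff_mul_comm.1 (h g)).symm)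
    rw [← ea_orderOf hZe (hWZ w hwW g) hg]
    exact Nat.le_of_dvd Nat.card_pos (Z.orderOf_dvd_natCard (hWZ w hwW g))
  have hidx : ∀ x ∈ W, (centralizer ({x} : Set P)).index ≤ p := fun x hx => by
    rw [← relIndex_top_right]
    refine (relIndex_centralizer_singleton_le_card fun g _ => ?_).trans hZp
    rw [← commutatorElement_inv]; exact inv_mem (hWZ x hx g)
  have hCE : W ⊓ centralizer {w} ≤ E := by
    intro x hx
    by_contra hxE
    have hxc : x ∈ centralizer (E : Set P) := by
      rw [hE, centralizer_sup_zpowers]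
      exact ⟨fun z hz => (mem_center_iff.1 (hZle hz) x).symm, hx.2⟩
    obtain ⟨h1, h2, h3⟩ := hext E hEn hEe le_sup_left x hx.1 hxE hxc
    have h4 := hr _ h1 h2
    rw [h3, hEc] at h4
    have : p * (p * p) ≤ p * (p * Nat.card Z) := by gcongr
    nlinarith
  refine ⟨centralizer (W : Set P), inferInstance, fun h => hwz (mem_center_iff.2 fun g =>
    ((h ▸ mem_top g : g ∈ centralizer (W : Set P)) w hwW).symm), ?_⟩
  have hZC : ∀ X : Subgroup P, X ≤ centralizer (Z : Set P) := fun X g _ z hz =>
    (mem_center_iff.1 (hZle hz) g).symm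
  by_cases hWE : W ≤ E
  · refine le_trans (index_antitone (?_ : centralizer {w} ≤ centralizer (W : Set P)))
      ((hidx w hwW).trans (by nlinarith))
    refine le_trans ?_ (centralizer_le hWE)
    rw [hE, centralizer_sup_zpowers]; exact le_inf (hZC _) le_rfl
  · obtain ⟨v, hv, hvE⟩ := SetLike.not_le_iff_exists.1 hWE
    have h1 : W ≤ E ⊔ zpowers v := by
      refine (eq_of_le_of_card_ge (sup_le (sup_le hZW ((zpowers_le).2 hwW)) ((zpowers_le).2 hv))
        ?_).ge
      rw [card_sup_zpowers_eq_prime_mul E hvE (by rw [hv.1]; exact one_mem _),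
        ← card_inf_mul_relIndex (centralizer {w}) W, mul_comm, inf_comm]
      refine Nat.mul_le_mul (le_trans ?_ (hidx w hwW)) (card_le_of_le hCE)
      rw [← relIndex_top_right]
      exact relIndex_le_of_le_right le_top index_ne_zero_of_finite
    refine le_trans (index_antitone
      (?_ : centralizer {w} ⊓ centralizer {v} ≤ centralizer (W : Set P))) ?_
    · refine le_trans ?_ (centralizer_le h1)
      rw [centralizer_sup_zpowers, hE, centralizer_sup_zpowers]
      exact le_inf (le_inf (hZC _) inf_le_left) inf_le_right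
    · refine index_inf_le.trans ?_
      rw [sq]; exact Nat.mul_le_mul (hidx w hwW) (hidx v hv)

/-- The case where `Ω₁(Z₂(P))` is central: the quotient by `Ω₁(Z(P))` inherits the hypothesis. -/
theorem NRankTwo.quotient {P : Type*} [Group P] [Finite P] (hp2 : p ≠ 2) (hP : IsPGroup p P)
    (hr : NRankTwo p P) (h : ∀ w : P, w ^ p = 1 → (∀ g : P, ⁅w, g⁆ ∈ center P) → w ∈ center P)
    [(omegaOne p (center P)).Normal] : NRankTwo p (P ⧸ omegaOne p (center P)) := by
  set Z := omegaOne p (center P) with hZ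
  have hZle : Z ≤ center P := omegaOne_le _
  have hZe : IsElementaryAbelian p Z := ea_omegaOne (center_le_centralizer _)
  intro A hA hAe
  set B := A.comap (QuotientGroup.mk' Z) with hB
  have hc : ∀ a ∈ B, ∀ b ∈ B, ⁅a, b⁆ ∈ Z := fun a ha b hb => by
    rw [← QuotientGroup.eq_one_iff]
    show QuotientGroup.mk' Z ⁅a, b⁆ = 1
    rw [map_commutatorElement, commutatorElement_eq_one_iff_mul_comm]
    exact ea_mul_comm hAe ha hb
  have hpw : ∀ a ∈ B, a ^ p ∈ Z := fun a ha => by
    rw [← QuotientGroup.eq_one_iff]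
    show QuotientGroup.mk' Z (a ^ p) = 1
    rw [map_pow]; exact hAe.2 _ ha
  let φ : B →* P := MonoidHom.mk' (fun b => (b : P) ^ p) fun a b =>
    mul_pow_prime_of_commute_comm hp.out hp2 (commute_of_mem_center (hZle (hc _ b.2 _ a.2)) _)
      (commute_of_mem_center (hZle (hc _ b.2 _ a.2)) _) (hZe.2 _ (hc _ b.2 _ a.2))
  have hm : ∀ x : P, x ∈ φ.ker.map B.subtype ↔ x ∈ B ∧ x ^ p = 1 := fun x =>
    ⟨fun ⟨b, hb, e⟩ => e ▸ ⟨b.2, hb⟩, fun hx => ⟨⟨x, hx.1⟩, hx.2, rfl⟩⟩
  have hn : (φ.ker.map B.subtype).Normal := ⟨fun x hx g => (hm _).2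
    ⟨Normal.conj_mem inferInstance x ((hm x).1 hx).1 g, by rw [conj_pow, ((hm x).1 hx).2]; simp⟩⟩
  have hk : φ.ker.map B.subtype ≤ Z := by
    by_contra hne
    have := hP.isNilpotent
    obtain ⟨w, hw, hwZ, hwc⟩ := exists_mem_notMem_commutator_mem hne
    exact hwZ (mem_omegaOne_center.2 ⟨h w ((hm w).1 hw).2 fun g => hZle (hwc g), ((hm w).1 hw).2⟩)
  have h1 : Nat.card B ≤ Nat.card Z * Nat.card Z := by
    rw [← φ.ker.card_mul_index, index_ker, ← card_map_subtype]
    refine Nat.mul_le_mul (card_le_of_le hk) (card_le_of_le ?_)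
    rintro _ ⟨b, rfl⟩; exact hpw b b.2
  rw [hB, card_comap_mk'] at h1
  exact (Nat.le_of_mul_le_mul_left h1 Nat.card_pos).trans (hr Z inferInstance hZe)

theorem index_le_sq_aux (hp2 : p ≠ 2) (n : ℕ) : ∀ (P : Type u) [Group P] [Finite P],
    Nat.card P = n → IsPGroup p P → NRankTwo p P → ∀ K : Subgroup P,
    (∀ C : Subgroup P, C.Characteristic → C = ⊤ ∨ C ≤ K) → K.index ≤ p ^ 2 := by
  induction n using Nat.strong_induction_on with
  | _ n ih =>
  intro P _ _ hn hP hr K hK
  by_cases h : ∀ w : P, w ^ p = 1 → (∀ g : P, ⁅w, g⁆ ∈ center P) → w ∈ center P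
  swap
  · push Not at h
    obtain ⟨w, hw, hwc, hwz⟩ := h
    obtain ⟨C, hC, hC1, hC2⟩ := exists_char_index_le_sq hp2 hr hw hwc hwz
    exact (index_antitone ((hK C hC).resolve_left hC1)).trans hC2
  have hZc := omegaOne_center_characteristic p P
  have hq := hr.quotient hp2 hP h
  set Z := omegaOne p (center P) with hZ
  have hZe : IsElementaryAbelian p Z := ea_omegaOne (center_le_centralizer _)
  by_cases hZt : Z = ⊤
  · have := hr Z inferInstance hZe
    rw [hZt, card_top] at this
    exact (Nat.le_of_dvd Nat.card_pos K.index_dvd_card).trans this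
  have hZK := (hK Z hZc).resolve_left hZt
  have hZb : Z ≠ ⊥ := by
    have : Nontrivial P := by
      by_contra hs
      rw [not_nontrivial_iff_subsingleton] at hs
      exact hZt (Subsingleton.elim _ _)
    refine omegaOne_ne_bot ?_
    have := hP.center_nontrivial
    obtain ⟨k, hk, e⟩ := (hP.to_subgroup (center P)).nontrivial_iff_card.1 this
    rw [e]; exact dvd_pow_self p hk.ne'
  have hlt : Nat.card (P ⧸ Z) < n := by
    rw [← hn, ← Z.index_mul_card, Subgroup.index]
    exact lt_mul_of_one_lt_right Nat.card_pos (Z.one_lt_card_iff_ne_bot.2 hZb)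
  rw [← K.index_map_eq (QuotientGroup.mk'_surjective Z) (by rwa [QuotientGroup.ker_mk'])]
  refine ih _ hlt (P ⧸ Z) rfl (hP.to_quotient Z) hq _ fun C hC => ?_
  rw [← map_comap_eq_self_of_surjective (QuotientGroup.mk'_surjective Z) C]
  rcases hK _ (Characteristic.comap_quotient_mk hC) with h | h
  · left; rw [h, map_top_of_surjective _ (QuotientGroup.mk'_surjective Z)]
  · exact Or.inr (map_mono h)

theorem index_le_sq_of_char {P : Type u} [Group P] [Finite P] (hp2 : p ≠ 2) (hP : IsPGroup p P)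
    (hr : NRankTwo p P) {K : Subgroup P}
    (h : ∀ C : Subgroup P, C.Characteristic → C = ⊤ ∨ C ≤ K) : K.index ≤ p ^ 2 :=
  index_le_sq_aux hp2 _ P rfl hP hr K h

/-- `p`-chief factors of a group of `p`-rank at most two (`p` odd) have order at most `p²`. -/
theorem chief_relIndex_le_sq {G : Type*} [Group G] [Finite G] (hp2 : p ≠ 2) {H K : Subgroup G}
    (hr : ∀ A ≤ H, IsElementaryAbelian p A → Nat.card A ≤ p ^ 2) (h : IsChiefFactor H K) {n : ℕ}
    (hn : K.relIndex H = p ^ n) : K.relIndex H ≤ p ^ 2 := by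
  obtain ⟨hlt, hH, hK, hch⟩ := h
  obtain ⟨S, hS⟩ := exists_isSylowIn p H
  have hSK : ¬ S ≤ K := fun hle => hlt.not_ge fun x hx => by
    obtain ⟨k, hk, s, hs, rfl⟩ := hS.exists_mul_eq_of_relIndex_pow hn hx
    exact mul_mem hk (hle hs)
  obtain ⟨P, ⟨hPS, hPn, hPK⟩, hmin⟩ := Set.Finite.exists_minimal
    (s := {X : Subgroup G | X ≤ S ∧ normalizer (S : Set G) ≤ normalizer (X : Set G) ∧ ¬ X ≤ K})
    (Set.toFinite _) ⟨S, le_rfl, le_rfl, hSK⟩
  have hN : (P ⊔ K).Normal := by
    rw [← normalizer_eq_top_iff, eq_top_iff]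
    intro g _
    have h1 : normalizer (S : Set G) ≤ normalizer ((P ⊔ K : Subgroup G) : Set G) :=
      CL.Grp.le_normalizer_sup' hPn le_normalizer_of_normal
    obtain ⟨m, hm, hmg⟩ := hS.frattini (H := ⊤) le_normalizer_of_normal (mem_top g)
    obtain ⟨k, hk, s, hs, rfl⟩ := hS.exists_mul_eq_of_relIndex_pow hn hm
    exact (mul_mem_cancel_left (mul_mem (le_normalizer (mem_sup_right hk))
      (h1 (le_normalizer hs)))).1 (h1 hmg)
  have hPKH : P ⊔ K = H := (hch _ hN le_sup_right (sup_le (hPS.trans hS.le) hlt.le)).resolve_left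
    fun e => hPK (e ▸ le_sup_left)
  rw [← hPKH, relIndex_sup_right]
  refine index_le_sq_of_char hp2 (hS.isPGroup.to_le hPS) (fun A _ hA => ?_) fun C hC => ?_
  · rw [← card_map_subtype]
    exact hr _ ((map_subtype_le _).trans (hPS.trans hS.le)) (ea_map hA _)
  · by_cases hCK : C.map P.subtype ≤ K
    · exact Or.inr (map_le_iff_le_comap.1 hCK)
    · left
      have := hmin (y := C.map P.subtype) ⟨(map_subtype_le _).trans hPS,
        hPn.trans (normalizer_le_normalizer_map_subtype C), hCK⟩ (map_subtype_le _)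
      rw [eq_top_iff]
      intro x _
      obtain ⟨y, hy, e⟩ := this x.2
      exact (Subtype.ext e : y = x) ▸ hy

end CL.Loc
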