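/-
Sylow 2-subgroups of an extension of degree two of a group of Lie type over the field with two elements always meet.
-/
import Cfsg.Agent.Known.LieOrth
import Cfsg.Agent.Grp.SylowIn

set_option autoImplicit false

open scoped Pointwise
open Subgroup CL.Grp Cfsg

namespace CL.Loc

variable {G : Type*} [Group G]

/-- If the Sylow subgroups of `K` opposite to `U` form one `U`-orbit, `U` is self-normalising in `K` and `K` has index
two, then two Sylow `2`-subgroups of `G` always meet. -/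
theorem sylow_meet_of_opp [Finite G] {K U V : Subgroup G} (hK : K.index = 2) (hU : IsSylowIn 2 U K)
    (hN : K ⊓ normalizer (U : Set G) ≤ U)
    (hopp : ∀ k ∈ K, U ⊓ MulAut.conj k • U = ⊥ → ∃ u ∈ U, MulAut.conj k • U = MulAut.conj u • V)
    (P : Sylow 2 G) (x : G) : (P : Subgroup G) ⊓ MulAut.conj x • (P : Subgroup G) ≠ ⊥ := by
  haveI : K.Normal := Subgroup.normal_of_index_eq_two hK
  obtain ⟨P₀, hP₀⟩ := hU.exists_sylow_inf_eq
  have hUP : U ≤ P₀ := hP₀ ▸ inf_le_left
  have hdec : ∀ y : G, ∃ k ∈ K, ∃ s ∈ (P₀ : Subgroup G), y = k * s := fun y =>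
    (isSylowIn_top P₀).exists_mul_eq_of_relIndex_pow (n := 1) (by rw [relIndex_top_right, hK, pow_one]) (mem_top y)
  have hPN : ∀ s ∈ (P₀ : Subgroup G), MulAut.conj s • U = U := fun s hs => by
    rw [← hP₀, Subgroup.smul_inf, (conj_smul_eq_self_iff s _).2 (le_normalizer hs),
      (conj_smul_eq_self_iff s K).2 (by rw [normalizer_eq_top]; trivial)]
  have main : ∀ y : G, (P₀ : Subgroup G) ⊓ MulAut.conj y • (P₀ : Subgroup G) ≠ ⊥ := by
    intro y h
    obtain ⟨k, hk, s, hs, rfl⟩ := hdec y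
    rw [← conj_smul_conj_smul, (conj_smul_eq_self_iff s _).2 (le_normalizer hs)] at h
    obtain ⟨t, ht, htK⟩ : ∃ t ∈ (P₀ : Subgroup G), t ∉ K := by
      by_contra hc
      push Not at hc
      have : K = ⊤ := by
        rw [eq_top_iff]
        intro z _
        obtain ⟨a, ha, b, hb, rfl⟩ := hdec z
        exact K.mul_mem ha (hc b hb)
      rw [this, index_top] at hK
      omega
    have h1 : U ⊓ MulAut.conj k • U = ⊥ :=
      le_bot_iff.1 (h ▸ inf_le_inf hUP (Subgroup.pointwise_smul_le_pointwise_smul_iff.2 hUP))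
    have e1 : MulAut.conj t • MulAut.conj k • U = MulAut.conj (t * k * t⁻¹) • U := by
      conv_rhs => rw [← hPN t ht]
      rw [conj_smul_conj_smul, conj_smul_conj_smul, inv_mul_cancel_right]
    have h2 : U ⊓ MulAut.conj (t * k * t⁻¹) • U = ⊥ := by
      rw [← e1]
      conv_lhs => enter [1]; rw [← hPN t ht]
      rw [← Subgroup.smul_inf, h1, Subgroup.smul_bot]
    obtain ⟨u, hu, eu⟩ := hopp k hk h1
    obtain ⟨u', hu', eu'⟩ := hopp _ (Subgroup.Normal.conj_mem inferInstance k hk t) h2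
    have e2 : MulAut.conj (k⁻¹ * (u * u'⁻¹ * t) * k) • U = U := by
      rw [← conj_smul_conj_smul, ← conj_smul_conj_smul, ← conj_smul_conj_smul _ t, e1, eu', conj_smul_conj_smul (u * u'⁻¹),
        inv_mul_cancel_right, ← eu, conj_smul_conj_smul, inv_mul_cancel, map_one, one_smul]
    have hg : u * u'⁻¹ * t ∉ K := fun h' =>
      htK ((K.mul_mem_cancel_left (K.mul_mem (hU.le hu) (K.inv_mem (hU.le hu')))).1 h')
    have hy : k⁻¹ * (u * u'⁻¹ * t) * k ∉ K := fun h' =>
      hg ((K.mul_mem_cancel_left (K.inv_mem hk)).1 ((K.mul_mem_cancel_right hk).1 h'))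
    have h3 : k⁻¹ * (u * u'⁻¹ * t) * k * t⁻¹ ∈ U := hN <| Subgroup.mem_inf.2 ⟨by
      rw [Subgroup.mul_mem_iff_of_index_two hK, inv_mem_iff]
      exact iff_of_false hy htK, mul_mem ((conj_smul_eq_self_iff _ _).1 e2)
        (inv_mem ((conj_smul_eq_self_iff _ _).1 (hPN t ht)))⟩
    have h4 : u * u'⁻¹ * t ∈ (P₀ : Subgroup G) ⊓ MulAut.conj k • (P₀ : Subgroup G) :=
      Subgroup.mem_inf.2 ⟨mul_mem (mul_mem (hUP hu) (inv_mem (hUP hu'))) ht, (mem_conj_smul_iff _ _ _).2 (by
        simpa using mul_mem (hUP h3) ht)⟩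
    rw [h, mem_bot] at h4
    exact hg (h4 ▸ K.one_mem)
  obtain ⟨g, rfl⟩ := MulAction.exists_smul_eq G P₀ P
  intro h
  apply main (g⁻¹ * x * g)
  have e : ((g • P₀ : Sylow 2 G) : Subgroup G) = MulAut.conj g • (P₀ : Subgroup G) := rfl
  rw [e, conj_smul_conj_smul] at h
  have := congrArg (fun X : Subgroup G => MulAut.conj g⁻¹ • X) h
  simp only [Subgroup.smul_inf, conj_smul_conj_smul, inv_mul_cancel, map_one, one_smul, Subgroup.smul_bot] at this
  rwa [mul_assoc]

open CL.Chev in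
/-- The conjugates of `U` meeting `U` trivially are the `U`-conjugates of `V`. -/
theorem sharp_opp [Finite G] (Q : SharpBN G) (k : G) (h : Q.U ⊓ MulAut.conj k • Q.U = ⊥) :
    ∃ u ∈ Q.U, MulAut.conj k • Q.U = MulAut.conj u • Q.V := by
  obtain ⟨n, hn, u, hu, u', hu', rfl⟩ := Q.exists_bruhat k
  have hu0 : u ∈ Q.U := Q.Un_le_U n hu
  have e : MulAut.conj (u * n * u') • Q.U = MulAut.conj u • MulAut.conj n • Q.U := by
    rw [← conj_smul_conj_smul, (conj_smul_eq_self_iff u' _).2 (le_normalizer hu'), conj_smul_conj_smul]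
  refine ⟨u, hu0, ?_⟩
  rw [e] at h ⊢
  have h1 : Q.U ⊓ MulAut.conj n • Q.U = ⊥ := by
    have := congrArg (fun X : Subgroup G => MulAut.conj u⁻¹ • X) h
    simp only [Subgroup.smul_inf, Subgroup.smul_bot] at this
    rwa [(conj_smul_eq_self_iff u⁻¹ _).2 (le_normalizer (inv_mem hu0)), conj_smul_conj_smul, conj_smul_conj_smul,
      inv_mul_cancel, one_mul] at this
  congr 1
  refine Subgroup.eq_of_le_of_card_ge ((conj_smul_le_iff _ _ _).2 fun z hz => ?_) (by rw [card_conj_smul, Q.card_V])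
  obtain ⟨a, ha, c, hc, ha', hc', rfl⟩ := Q.decomp n⁻¹ (inv_mem hn) z hz
  rw [inv_inv] at ha' hc'
  have : n * c * n⁻¹ ∈ Q.U ⊓ MulAut.conj n • Q.U := ⟨hc', conj_mem_conj_smul n hc⟩
  rw [h1, mem_bot] at this
  have hc1 : c = 1 := by simpa using this
  rwa [hc1, mul_one]

open CL.Chev CL.Chev.St in
theorem preLie_isSylowIn [Finite G] {p : ℕ} [Fact p.Prime] {Q : SharpBN G} (L : PreLie p Q) : IsSylowIn p Q.U ⊤ := by
  have hB : IsSylowIn p Q.U Q.B := ⟨Q.U_le_B, L.pgroup, by
    have h1 := Q.card_B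
    have h2 : Nat.card Q.U * Q.U.relIndex Q.B = Nat.card Q.B := by
      rw [← Nat.card_congr (subgroupOfEquivOfLe Q.U_le_B).toEquiv]
      exact card_mul_index _
    rw [h1] at h2
    rw [Nat.eq_of_mul_eq_mul_left Nat.card_pos h2]
    exact L.not_dvd⟩
  refine isSylowIn_of_maximal le_top L.pgroup fun W hW hle _ => ?_
  by_contra hne
  have h := lt_inf_normalizer_of_isPGroup hW (lt_of_le_of_ne hle (Ne.symm hne))
  rw [Q.normalizer_U] at h
  exact h.ne' (hB.eq_of_le (hW.to_inf_left) h.le inf_le_right)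

open CL.Chev CL.Chev.St in
/-- Two Sylow `2`-subgroups of an extension of degree two of a group with a split (B,N)-pair with `B = U` meet. -/
theorem sylow_meet_of_preLie [Finite G] {K : Type*} [Group K] (ι : K →* G) (hι : Function.Injective ι)
    (hK : ι.range.index = 2) {Q : SharpBN K} (L : PreLie 2 Q) (hB : IsPGroup 2 Q.B) (P : Sylow 2 G) (x : G) :
    (P : Subgroup G) ⊓ MulAut.conj x • (P : Subgroup G) ≠ ⊥ := by
  haveI : Finite K := Finite.of_injective ι hι
  have hS := preLie_isSylowIn L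
  have hBU : Q.B = Q.U := hS.eq_of_le hB Q.U_le_B le_top
  have hconj : ∀ (k : K) (X : Subgroup K), MulAut.conj (ι k) • X.map ι = (MulAut.conj k • X).map ι := fun k X => by
    rw [conj_smul_eq_map, conj_smul_eq_map, Subgroup.map_map, Subgroup.map_map]
    congr 1
    ext z
    simp
  refine sylow_meet_of_opp (U := Q.U.map ι) (V := Q.V.map ι) hK ⟨map_le_range _ _, hS.isPGroup.map _, ?_⟩ ?_ ?_ P x
  · rw [MonoidHom.range_eq_map, Subgroup.relIndex_map_map_of_injective _ _ hι]
    exact hS.not_dvd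
  · rintro _ ⟨⟨k, rfl⟩, hk⟩
    refine mem_map_of_mem ι ?_
    rw [← hBU, ← Q.normalizer_U, ← conj_smul_eq_self_iff]
    apply Subgroup.map_injective hι
    rw [← hconj]
    exact (conj_smul_eq_self_iff _ _).2 hk
  · rintro _ ⟨k, rfl⟩ h
    rw [hconj, ← Subgroup.map_inf _ _ _ hι, Subgroup.map_eq_bot_iff_of_injective _ hι] at h
    obtain ⟨u, hu, e⟩ := sharp_opp Q k h
    exact ⟨ι u, mem_map_of_mem ι hu, by rw [hconj, hconj, e]⟩

open CL.Chev CL.Chev.GLB in
theorem isPGroup_par_two {ι : Type} [Fintype ι] [DecidableEq ι] [LinearOrder ι] {F : Type*} [Field F] [Fintype F]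
    (hF : Fintype.card F = 2) [CharP F 2] : IsPGroup 2 (par F (id : ι → ι)) := by
  refine (isPGroup_uni (F := F) (b := (id : ι → ι)) Function.injective_id 2).to_le fun g hg => ?_
  obtain ⟨u, hu, d, rfl⟩ := exists_uni_mul_dg Function.injective_id hg
  have : Subsingleton Fˣ := by
    classical
    rw [← Fintype.card_le_one_iff_subsingleton, Fintype.card_units, hF]
  rw [Subsingleton.elim d 1, map_one, mul_one]
  exact hu

end CL.Loc
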