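import Cfsg.Agent.Loc.PGen
import Cfsg.Agent.Loc.FStar
import Cfsg.Agent.Grp.Coprime2
import Cfsg.Agent.Grp.PNilp
import Cfsg.Agent.Grp.PGroupFrattini

/-! Families of TI 2-subgroups that are not elementary abelian (Aschbacher). -/

set_option autoImplicit false
open Cfsg Subgroup CL.Even CL.Grp
open scoped commutatorElement

namespace CL.Loc

variable {G : Type*} [Group G]

/-- Element form of the TI property. -/
def TIElt (R : Subgroup G) : Prop := ∀ s x : G, x ∈ R → s * x * s⁻¹ ∈ R → s ∉ 𝒩(R) → x = 1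

theorem TIElt.le_norm [Finite G] {R T : Subgroup G} (hR : TIElt R) (h : R ≤ 𝒩(T))
    (hc : Nat.card R = Nat.card T) : T ≤ 𝒩(R) := fun t ht => by
  by_contra hn
  let f : R → T := fun r => ⟨(r : G)⁻¹ * t * r * t⁻¹, mul_mem (conj_mem' (h r.2) ht) (inv_mem ht)⟩
  have hf : Function.Injective f := fun a b e => by
    have e1 : (a : G)⁻¹ * t * a * t⁻¹ = (b : G)⁻¹ * t * b * t⁻¹ := congrArg Subtype.val e
    have h1 : t * (a * (b : G)⁻¹) * t⁻¹ = a * (b : G)⁻¹ := by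
      calc t * (a * (b : G)⁻¹) * t⁻¹ = a * ((a : G)⁻¹ * t * a * t⁻¹) * (t * (b : G)⁻¹ * t⁻¹) := by group
        _ = a * (b : G)⁻¹ := by rw [e1]; group
    exact Subtype.ext (mul_inv_eq_one.1 (hR t _ (mul_mem a.2 (inv_mem b.2))
      (h1.symm ▸ mul_mem a.2 (inv_mem b.2)) hn))
  obtain ⟨r, hr⟩ := (hf.bijective_of_nat_card_le hc.ge).2 ⟨t⁻¹, inv_mem ht⟩
  have h2 : (r : G)⁻¹ * t * r * t⁻¹ = t⁻¹ := congrArg Subtype.val hr
  have h3 : t = 1 := by
    calc t = r * ((r : G)⁻¹ * t * r * t⁻¹ * t) * (r : G)⁻¹ := by group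
      _ = 1 := by rw [h2]; group
  exact hn (h3 ▸ one_mem _)

theorem TIElt.pow_eq_one {R T : Subgroup G} (hR : TIElt R) (hT : TIElt T) {r t : G} (hr : r ∈ R)
    (ht : t ∈ T) (hrn : r ∉ 𝒩(T)) (htn : t ∉ 𝒩(R)) (h1 : Commute r (t * r⁻¹ * t⁻¹))
    (h2 : Commute (r * t * r⁻¹) t⁻¹) {n : ℕ} (hn : r ^ n ∈ 𝒩(T)) : r ^ n = 1 ∧ t ^ n = 1 := by
  have e : r ^ n * (t * (r ^ n)⁻¹ * t⁻¹) = r * t ^ n * r⁻¹ * (t ^ n)⁻¹ := by
    rw [← inv_pow, ← conj_pow, ← h1.mul_pow, ← conj_pow, ← inv_pow, ← h2.mul_pow]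
    simp only [mul_assoc]
  have h3 : t ^ n = 1 := hT r _ (pow_mem ht n) (by
    rw [← mul_mem_cancel_right (inv_mem (pow_mem ht n)), ← e, ← mul_assoc, ← mul_assoc]
    exact mul_mem (conj_mem hn ht) (inv_mem ht)) hrn
  rw [h3, mul_one, mul_inv_cancel, inv_one, mul_one, mul_eq_one_iff_inv_eq] at e
  exact ⟨inv_eq_one.1 (hR t _ (inv_mem (pow_mem hr n)) (e ▸ inv_mem (pow_mem hr n)) htn), h3⟩

theorem TIElt.sq_eq_one [Finite G] {R T : Subgroup G} (hR : TIElt R) (hT : TIElt T) (hR2 : IsPGroup 2 R)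
    (cR : ∀ t ∈ T, t ∉ 𝒩(R) → ∀ a ∈ R, ∀ b ∈ R, Commute (t * a * t⁻¹) b)
    (cT : ∀ r ∈ R, r ∉ 𝒩(T) → ∀ a ∈ T, ∀ b ∈ T, Commute (r * a * r⁻¹) b)
    (h1 : ¬ R ≤ 𝒩(T)) (h2 : ¬ T ≤ 𝒩(R)) : ∀ x ∈ R, x ^ 2 = 1 := by
  obtain ⟨t, ht, htn⟩ := SetLike.not_le_iff_exists.1 h2
  have key : ∀ r ∈ R, r ∉ 𝒩(T) → r ^ 2 = 1 := fun r hr hrn => by
    by_cases h : r ^ 2 ∈ 𝒩(T)
    · exact (hR.pow_eq_one hT hr ht hrn htn (cR t ht htn _ (inv_mem hr) _ hr).symm
        (cT r hr hrn _ ht _ (inv_mem ht)) h).1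
    have hr2 := pow_mem hr 2
    have h3 := (hR.pow_eq_one hT hr2 ht h htn (cR t ht htn _ (inv_mem hr2) _ hr2).symm
      (cT _ hr2 h _ ht _ (inv_mem ht)) (n := orderOf (r ^ 2)) (by rw [pow_orderOf_eq_one]; exact one_mem _)).2
    have h4 := (hT.pow_eq_one hR ht hr htn hrn (cT r hr hrn _ (inv_mem ht) _ ht).symm
      (cR t ht htn _ hr _ (inv_mem hr)) (by rw [h3]; exact one_mem _)).2
    obtain ⟨k, hk⟩ := IsPGroup.iff_orderOf.1 hR2 ⟨r, hr⟩
    rw [← orderOf_coe] at hk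
    rcases k with _ | k
    · exact absurd (by rw [show r = 1 from orderOf_eq_one_iff.1 hk]; exact one_mem _) hrn
    have h5 := Nat.le_of_dvd (orderOf_pos _) (orderOf_dvd_of_pow_eq_one h4)
    have h6 := Nat.le_of_dvd (by positivity) (orderOf_dvd_of_pow_eq_one (x := r ^ 2) (n := 2 ^ k)
      (by rw [← pow_mul, ← pow_succ', ← hk]; exact pow_orderOf_eq_one r))
    have h7 : orderOf r = 2 ^ (k + 1) := hk
    have := Nat.one_le_two_pow (n := k)
    omega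
  intro x hx
  by_contra hx2
  have hxn : x ∈ 𝒩(T) := by_contra fun h => hx2 (key x hx h)
  obtain ⟨r, hr, hrn⟩ := SetLike.not_le_iff_exists.1 h1
  obtain ⟨y, hy⟩ := exists_prime_orderOf_dvd_card' (G := (R ⊓ 𝒩(T) : Subgroup G)) 2
    ((hR2.to_le inf_le_left).card_eq_or_dvd.resolve_left fun e => hx2 (by
      rw [mem_bot.1 ((card_eq_one.1 e).le (mem_inf.2 ⟨hx, hxn⟩)), one_pow]))
  have hy2 : (y : G) * y = 1 := by
    rw [← pow_two, ← hy]; exact congrArg Subtype.val (pow_orderOf_eq_one y)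
  have h3 := key (r * y) (mul_mem hr y.2.1) fun h => hrn ((mul_mem_cancel_right (mem_inf.1 y.2).2).1 h)
  have h4 : Commute r y := by
    have h5 := key r hr hrn
    rw [pow_two] at h3 h5
    calc r * y = (r * y)⁻¹ := (inv_eq_of_mul_eq_one_right h3).symm
      _ = y * r := by rw [mul_inv_rev, inv_eq_of_mul_eq_one_right hy2, inv_eq_of_mul_eq_one_right h5]
  have h5 : (y : G)⁻¹ * t * y * t⁻¹ ∈ T := mul_mem (conj_mem' y.2.2 ht) (inv_mem ht)
  have h6 : Commute r ((y : G)⁻¹ * t * y * t⁻¹) := by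
    rw [mul_assoc, mul_assoc, ← mul_assoc t]
    exact h4.inv_right.mul_right (cR t ht htn _ y.2.1 _ hr).symm
  have h7 := hT r _ h5 (by rwa [h6.eq, mul_inv_cancel_right]) hrn
  rw [mul_assoc, mul_assoc, inv_mul_eq_one, ← mul_assoc] at h7
  rw [show y = 1 from Subtype.ext (hR t _ y.2.1 (h7 ▸ y.2.1) htn)] at hy
  simp at hy

/-- Distinct members of a TI family of non-elementary subgroups generating a 2-group commute. -/
theorem commute_of_ti_family [Finite G] (Δ : Set (Subgroup G)) (hinv : ∀ s : G, ∀ R ∈ Δ, cj s R ∈ Δ)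
    (hΦ : ∀ R ∈ Δ, ∃ x ∈ R, x ^ 2 ≠ 1) (hord : ∀ R ∈ Δ, ∀ T ∈ Δ, Nat.card R = Nat.card T)
    (hti : ∀ R ∈ Δ, ∀ T ∈ Δ, R = T ∨ R ⊓ T = ⊥) (H : Subgroup G) (hH : IsPGroup 2 H) :
    ∀ R ∈ Δ, ∀ T ∈ Δ, R ≤ H → T ≤ H → R ≠ T → ⁅R, T⁆ = ⊥ := by
  have : Fact (Nat.Prime 2) := ⟨Nat.prime_two⟩
  have hE : ∀ R ∈ Δ, TIElt R := fun R hR s x hx h1 hs =>
    conj_eq_one_iff.1 (mem_bot.1 (((hti _ (hinv s R hR) R hR).resolve_left
      fun e => hs (cj_eq_iff_mem.1 e)).le (mem_inf.2 ⟨conj_mem_cj s hx, h1⟩)))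
  induction H using WellFoundedLT.induction with
  | ind H ih =>
  have key : ∀ R ∈ Δ, ∀ T ∈ Δ, R ≤ H → T ≤ H → R ≠ T →
      ∀ t ∈ T, t ∉ 𝒩(R) → ∀ a ∈ R, ∀ b ∈ R, Commute (t * a * t⁻¹) b := by
    intro R hR T hT hRH hTH hne t ht htn a ha b hb
    obtain ⟨M, hM, h1, h2⟩ := exists_normal_index_eq_ge hH (H := R.subgroupOf H) fun e =>
      hne (eq_of_le_of_card_ge (hTH.trans (subgroupOf_eq_top.1 e)) (hord R hR T hT).le).symm
    have h3 : R ≤ M.map H.subtype := fun x hx => ⟨⟨x, hRH hx⟩, h1 hx, rfl⟩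
    have h4 : M.map H.subtype < H := (map_subtype_le M).lt_of_ne fun e => by
      rw [show M = ⊤ from map_injective H.subtype_injective (by rw [e, ← MonoidHom.range_eq_map,
        range_subtype]), index_top] at h2
      omega
    have h5 := ih _ h4 (hH.to_le h4.le) _ (hinv t R hR) R hR (by
      rintro _ ⟨x, hx, rfl⟩
      exact ⟨_, hM.conj_mem ⟨x, hRH hx⟩ (h1 hx) ⟨t, hTH ht⟩, rfl⟩) h3 fun e => htn (cj_eq_iff_mem.1 e)
    exact commutatorElement_eq_one_iff_commute.1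
      (mem_bot.1 (h5.le (commutator_mem_commutator (conj_mem_cj t ha) hb)))
  intro R hR T hT hRH hTH hne
  have h1 : R ≤ 𝒩(T) ∧ T ≤ 𝒩(R) := by
    by_cases h1 : R ≤ 𝒩(T)
    · exact ⟨h1, (hE R hR).le_norm h1 (hord R hR T hT)⟩
    by_cases h2 : T ≤ 𝒩(R)
    · exact ⟨(hE T hT).le_norm h2 (hord T hT R hR), h2⟩
    obtain ⟨x, hx, hx2⟩ := hΦ R hR
    exact absurd ((hE R hR).sq_eq_one (hE T hT) (hH.to_le hRH) (key R hR T hT hRH hTH hne)
      (key T hT R hR hTH hRH hne.symm) h1 h2 x hx) hx2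
  rw [← le_bot_iff, ← (hti R hR T hT).resolve_left hne]
  refine commutator_le.2 fun a ha b hb => mem_inf.2 ⟨?_, ?_⟩
  · rw [commutatorElement_def, mul_assoc, mul_assoc, ← mul_assoc b]
    exact mul_mem ha (conj_mem (h1.2 hb) (inv_mem ha))
  · exact mul_mem (conj_mem (h1.1 ha) hb) (inv_mem hb)

/-- In characteristic `p`, an element acting trivially on `O_p(G) / Φ(O_p(G))` lies in `O_p(G)`. -/
theorem mem_pCore_of_commutator_mem_frattini [Finite G] {p : ℕ} [Fact p.Prime]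
    (hc : 𝒞(pCore p G) ≤ pCore p G) {a : G}
    (ha : ∀ v ∈ pCore p G, ⁅v, a⁆ ∈ (frattini (pCore p G)).map (pCore p G).subtype) : a ∈ pCore p G := by
  set Φ := (frattini (pCore p G)).map (pCore p G).subtype with hΦ
  have : ((pCore p G).map (QuotientGroup.mk' Φ)).Normal :=
    Normal.map inferInstance _ (QuotientGroup.mk'_surjective Φ)
  have hD : ∀ g, g ∈ (𝒞((pCore p G).map (QuotientGroup.mk' Φ))).comap (QuotientGroup.mk' Φ) ↔
      ∀ v ∈ pCore p G, ⁅v, g⁆ ∈ Φ := fun g => by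
    rw [mem_comap, mem_centralizer_iff]
    simp only [← QuotientGroup.eq_one_iff (N := Φ), ← QuotientGroup.mk'_apply, map_commutatorElement,
      commutatorElement_eq_one_iff_mul_comm]
    exact ⟨fun h v hv => h _ ⟨v, hv, rfl⟩, by rintro h _ ⟨v, hv, rfl⟩; exact h v hv⟩
  refine le_pCore (N := (𝒞((pCore p G).map (QuotientGroup.mk' Φ))).comap (QuotientGroup.mk' Φ)) ?_
    ((hD a).2 ha)
  rw [← pResidual_eq_bot_iff, eq_bot_iff, pResidual_le_iff]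
  intro g hg
  have hg' : (orderOf (g : G)).Coprime p := by rwa [orderOf_coe]
  have h4 : zpowers (g : G) ≤ 𝒞(pCore p G) := by
    refine le_centralizer_of_commutator_le_frattini le_normalizer_of_normal ?_
      (commutator_le.2 fun v hv c hc => (hD c).1 (zpowers_le.2 g.2 hc) v hv)
    rw [Nat.card_zpowers]
    exact (coprime_card_of_isPGroup (P := frattini (pCore p G))
      ((pCore_isPGroup p G).to_subgroup _) hg').symm
  exact Subtype.ext (eq_one_of_coprime_of_mem (pCore_isPGroup p G) (hc (h4 (mem_zpowers _))) hg')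

end CL.Loc
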